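import Cfsg.Agent.H27.ThreeCl.Defs
import Cfsg.Agent.H91.Small.PrimitivePart

/-!
Arithmetic for groups with at most two orbits on nonzero vectors: primitive prime divisors of
`p ^ m - 1` are either large, or their total weight is large.
-/

set_option autoImplicit false

namespace Cfsg.Agent.H27.ThreeCl

open Polynomial Cfsg.Agent.H45.Trans

theorem ppd_iff (p m r : ℕ) :
    Ppd p m r ↔ r.Prime ∧ r ∣ p ^ m - 1 ∧ ∀ k < m, 0 < k → ¬ r ∣ p ^ k - 1 :=
  ⟨fun h => ⟨h.1, h.2.1, fun k hk hk0 => h.2.2 k hk0 hk⟩,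
    fun h => ⟨h.1, h.2.1, fun k hk0 hk => h.2.2 k hk hk0⟩⟩

instance ppdDec (p m r : ℕ) : Decidable (Ppd p m r) := decidable_of_iff _ (ppd_iff p m r).symm

/-- The part of the candidate `j * m + 1` in `p ^ m - 1`, computably. -/
def candPart (p m j : ℕ) : ℕ :=
  if Ppd p m (j * m + 1) then Nat.gcd (p ^ m - 1) ((j * m + 1) ^ (10 * m)) else 1

/-- The part of the candidate `j * m + 1` in `p ^ m - 1`. -/
noncomputable def candVal (p m j : ℕ) : ℕ :=
  if Ppd p m (j * m + 1) then (j * m + 1) ^ (p ^ m - 1).factorization (j * m + 1) else 1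

theorem pow_sub_one_ne_zero {p m : ℕ} (hp : 2 ≤ p) (hm : 0 < m) : p ^ m - 1 ≠ 0 := by
  have : p ≤ p ^ m := Nat.le_self_pow hm.ne' p
  omega

theorem candVal_eq {p m : ℕ} (hp : 2 ≤ p) (hm : 0 < m) (hp' : p ≤ 1024) (j : ℕ) :
    candVal p m j = candPart p m j := by
  unfold candVal candPart
  split_ifs with h
  · set r := j * m + 1
    set N := p ^ m - 1
    set v := N.factorization r
    have hr := h.1
    have hN : N ≠ 0 := pow_sub_one_ne_zero hp hm
    have hv : r ^ v ∣ N := (hr.pow_dvd_iff_le_factorization hN).2 le_rfl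
    have hvK : v ≤ 10 * m := by
      by_contra hc
      have h1 : 2 ^ (10 * m + 1) ≤ r ^ v :=
        (Nat.pow_le_pow_left hr.two_le _).trans (Nat.pow_le_pow_right hr.pos (by omega))
      have h2 : r ^ v ≤ N := Nat.le_of_dvd (by omega) hv
      have h3 : p ^ m ≤ 2 ^ (10 * m) := by
        rw [pow_mul]; exact Nat.pow_le_pow_left (by omega) _
      have h4 : 2 ^ (10 * m) < 2 ^ (10 * m + 1) := Nat.pow_lt_pow_right (by norm_num) (by omega)
      omega
    refine Nat.dvd_antisymm (Nat.dvd_gcd hv (pow_dvd_pow r hvK)) ?_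
    obtain ⟨i, -, hi⟩ := (Nat.dvd_prime_pow hr).1 (Nat.gcd_dvd_right N (r ^ (10 * m)))
    rw [hi]
    exact pow_dvd_pow r ((hr.pow_dvd_iff_le_factorization hN).1 (hi ▸ Nat.gcd_dvd_left N _))
  · rfl

theorem candVal_pos (p m j : ℕ) : 0 < candVal p m j := by
  unfold candVal
  split_ifs <;> positivity

theorem candVal_one_of_not_prime {p m j : ℕ} (h : ¬ (j * m + 1).Prime) : candVal p m j = 1 := by
  rw [candVal, if_neg fun hp => h hp.1]

theorem ppd_mod {p m r : ℕ} (hp : 2 ≤ p) (hm : 0 < m) (h : Ppd p m r) :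
    ∃ j, 0 < j ∧ r = j * m + 1 := by
  haveI := Fact.mk h.1
  have key : ∀ k, r ∣ p ^ k - 1 ↔ (p : ZMod r) ^ k = 1 := by
    intro k
    rw [← ZMod.natCast_eq_zero_iff, Nat.cast_sub (Nat.one_le_pow _ _ (by omega)), Nat.cast_pow,
      Nat.cast_one, sub_eq_zero]
  have h1 := (key m).1 h.2.1
  have hne : (p : ZMod r) ≠ 0 := by
    intro h0
    rw [h0, zero_pow hm.ne'] at h1
    exact zero_ne_one h1
  have hd := orderOf_dvd_of_pow_eq_one h1
  have h0 : 0 < orderOf (p : ZMod r) := Nat.pos_of_dvd_of_pos hd hm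
  have ho : orderOf (p : ZMod r) = m := by
    rcases Nat.lt_or_ge (orderOf (p : ZMod r)) m with hlt | hge
    · exact absurd ((key _).2 (pow_orderOf_eq_one _)) (h.2.2 _ h0 hlt)
    · exact le_antisymm (Nat.le_of_dvd hm hd) hge
  obtain ⟨j, hj⟩ := ho ▸ ZMod.orderOf_dvd_card_sub_one hne
  have := h.1.two_le
  refine ⟨j, ?_, ?_⟩
  · rcases Nat.eq_zero_or_pos j with rfl | hj0
    · omega
    · exact hj0
  · rw [mul_comm j m]; omega

/-- The value of the cyclotomic polynomial. -/
noncomputable def cycVal (p m : ℕ) : ℕ := ((cyclotomic m ℤ).eval (p : ℤ)).natAbs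

theorem cycVal_dvd {p m : ℕ} (hp : 2 ≤ p) (hm : 2 < m) (h : ∀ r, Ppd p m r → r ≤ 4 * m + 1) :
    cycVal p m ∣ m * (candVal p m 1 * candVal p m 2 * candVal p m 3 * candVal p m 4) := by
  have hN0 := pow_sub_one_ne_zero hp (show 0 < m by omega)
  have hdvd : cycVal p m ∣ p ^ m - 1 := by
    have h1 : (cyclotomic m ℤ).eval (p : ℤ) ∣ (p : ℤ) ^ m - 1 := by
      simpa using Polynomial.eval_dvd (x := (p : ℤ)) (cyclotomic.dvd_X_pow_sub_one m ℤ)
    have h2 : ((p ^ m - 1 : ℕ) : ℤ) = (p : ℤ) ^ m - 1 := by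
      rw [Nat.cast_sub (Nat.one_le_pow _ _ (by omega))]; push_cast; ring
    rw [← h2] at h1
    exact_mod_cast Int.natAbs_dvd.2 h1
  refine (Nat.dvd_iff_prime_pow_dvd_dvd _ _).2 fun t k ht htk => ?_
  rcases Nat.lt_or_ge k 1 with hk | hk
  · simp [show k = 0 by omega]
  have htN : t ∣ cycVal p m := (dvd_pow_self t (by omega)).trans htk
  have htE : (t : ℤ) ∣ (cyclotomic m ℤ).eval (p : ℤ) := Int.natCast_dvd.2 htN
  rcases H74.prime_dvd_cyclotomic_eval (by omega) ht htE with ho | ⟨j, c, hnm, -, hc0, hc1⟩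
  · have hpp := ppd_of_orderOf (by omega) ht ho
    obtain ⟨j, hj0, rfl⟩ := ppd_mod hp (by omega) hpp
    have hj4 : j ≤ 4 := by
      by_contra hc
      have := h _ hpp
      have : 5 * m ≤ j * m := Nat.mul_le_mul_right _ (by omega)
      omega
    have hv : (j * m + 1) ^ k ∣ candVal p m j := by
      rw [candVal, if_pos hpp]
      exact pow_dvd_pow _ ((ht.pow_dvd_iff_le_factorization hN0).1 (htk.trans hdvd))
    refine hv.trans (Dvd.dvd.mul_left ?_ _)
    interval_cases j
    · exact ((dvd_mul_right _ _).mul_right _).mul_right _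
    · exact ((dvd_mul_left _ _).mul_right _).mul_right _
    · exact (dvd_mul_left _ _).mul_right _
    · exact dvd_mul_left _ _
  · haveI := Fact.mk ht
    have hroot : (t : ℤ) ∣ (p : ℤ) ^ (t ^ j * c) - 1 := by
      rw [← ZMod.intCast_zmod_eq_zero_iff_dvd]
      push_cast
      have h1 : (p : ZMod t) ^ m = 1 := by
        have : ((p ^ m - 1 : ℕ) : ZMod t) = 0 := (ZMod.natCast_eq_zero_iff _ _).2 (htN.trans hdvd)
        rwa [Nat.cast_sub (Nat.one_le_pow _ _ (by omega)), Nat.cast_pow, Nat.cast_one, sub_eq_zero] at this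
      rw [sub_eq_zero, ← ZMod.pow_card ((p : ZMod t) ^ (t ^ j * c)), ← pow_mul,
        show t ^ j * c * t = m by rw [hnm]; ring, h1]
    have hsq := H74.sq_not_dvd_cyclotomic_eval (by omega) hm ht hnm hc1 hc0 hroot
    rcases Nat.lt_or_ge k 2 with hk2 | hk2
    · rw [show k = 1 by omega, pow_one]
      exact (hnm ▸ (dvd_pow_self t j.succ_ne_zero).mul_right c : t ∣ m).mul_right _
    · refine absurd ?_ hsq
      have := Int.natCast_dvd.2 ((pow_dvd_pow t hk2).trans htk)
      push_cast at this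
      exact this

theorem pow_totient_le_cycVal {p m : ℕ} (hp : 2 ≤ p) (hm : 0 < m) : p ^ m.totient ≤ 4 * cycVal p m := by
  have h1 := H91.PrimitivePart.pow_totient_le hp hm
  have h2 : (cyclotomic m ℤ).eval (p : ℤ) ≤ (cycVal p m : ℤ) := Int.le_natAbs
  have h3 : ((p ^ m.totient : ℕ) : ℤ) ≤ ((4 * cycVal p m : ℕ) : ℤ) := by
    push_cast
    linarith
  exact_mod_cast h3

theorem pow_totient_le_cands {p m : ℕ} (hp : 2 ≤ p) (hm : 2 < m)
    (h : ∀ r, Ppd p m r → r ≤ 4 * m + 1) :
    p ^ m.totient ≤ 4 * m * (candVal p m 1 * candVal p m 2 * candVal p m 3 * candVal p m 4) := by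
  have h1 := pow_totient_le_cycVal hp (show 0 < m by omega)
  have hpos : 0 < m * (candVal p m 1 * candVal p m 2 * candVal p m 3 * candVal p m 4) := by
    have := candVal_pos p m 1; have := candVal_pos p m 2
    have := candVal_pos p m 3; have := candVal_pos p m 4
    positivity
  have h2 := Nat.le_of_dvd hpos (cycVal_dvd hp hm h)
  rw [mul_assoc]
  omega

theorem sum_candVal_le {p m : ℕ} (hp : 2 ≤ p) (hm : 0 < m) :
    candVal p m 1 + candVal p m 2 + candVal p m 3 + candVal p m 4 ≤ ppdSum p m + 4 := by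
  classical
  have key : ∑ j ∈ ({1, 2, 3, 4} : Finset ℕ), (candVal p m j - 1) ≤ ppdSum p m := by
    rw [← Finset.sum_filter_of_ne (s := ({1, 2, 3, 4} : Finset ℕ))
      (p := fun j => Ppd p m (j * m + 1))
      (fun j _ hne => by
        by_contra hc
        exact hne (by rw [candVal, if_neg hc, Nat.sub_self]))]
    rw [Finset.sum_congr rfl (fun j hj => by
      rw [candVal, if_pos (Finset.mem_filter.1 hj).2]
      : ∀ j ∈ ({1, 2, 3, 4} : Finset ℕ).filter (fun j => Ppd p m (j * m + 1)),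
        candVal p m j - 1 = (fun r => r ^ (p ^ m - 1).factorization r - 1) (j * m + 1))]
    rw [← Finset.sum_image (f := fun r => r ^ (p ^ m - 1).factorization r - 1)
      (g := fun j => j * m + 1)
      (fun a _ b _ hab => Nat.eq_of_mul_eq_mul_right hm (by simpa using hab))]
    unfold ppdSum
    refine Finset.sum_le_sum_of_subset fun r hr => ?_
    obtain ⟨j, hj, rfl⟩ := Finset.mem_image.1 hr
    have hpp := (Finset.mem_filter.1 hj).2
    simp only [Finset.mem_filter]
    exact ⟨Nat.mem_primeFactors.2 ⟨hpp.1, hpp.2.1, pow_sub_one_ne_zero hp hm⟩, hpp⟩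
  simp only [Finset.sum_insert, Finset.mem_insert, Finset.mem_singleton, Finset.sum_singleton,
    OfNat.one_ne_ofNat, Nat.reduceEqDiff, or_self, not_false_eq_true, or_false] at key
  have := candVal_pos p m 1; have := candVal_pos p m 2
  have := candVal_pos p m 3; have := candVal_pos p m 4
  omega

theorem pow_gt (f : ℕ) (hf : 16 ≤ f) : 3000000 * f ^ 15 < 49 ^ f := by
  induction f, hf using Nat.le_induction with
  | base => norm_num
  | succ f hf ih =>
    have h1 : 16 ^ 15 * (f + 1) ^ 15 ≤ 17 ^ 15 * f ^ 15 := by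
      rw [← mul_pow, ← mul_pow]
      exact Nat.pow_le_pow_left (by omega) _
    have h2 : (f + 1) ^ 15 ≤ 3 * f ^ 15 := by
      generalize (f + 1) ^ 15 = A at h1 ⊢
      generalize f ^ 15 = B at h1 ⊢
      norm_num at h1
      omega
    rw [pow_succ 49 f]
    generalize (f + 1) ^ 15 = A at h2 ⊢
    generalize f ^ 15 = B at h2 ih
    omega

theorem lt_of_pow_le {m : ℕ} (h : 64 * 7 ^ m.totient ≤ 2401 * m ^ 5) : m < 124 := by
  have hsq := sq_le m
  have hf : m.totient < 16 := by
    by_contra hc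
    have h1 := pow_gt m.totient (by omega)
    have h2 : (64 * 7 ^ m.totient) ^ 2 ≤ (2401 * m ^ 5) ^ 2 := Nat.pow_le_pow_left h 2
    have h3 : (2 * m ^ 2) ^ 5 ≤ (9 * m.totient ^ 3) ^ 5 := Nat.pow_le_pow_left hsq 5
    have e1 : (64 * 7 ^ m.totient) ^ 2 = 4096 * 49 ^ m.totient := by
      rw [mul_pow, ← pow_mul, mul_comm m.totient 2, pow_mul]; norm_num
    have e2 : (2401 * m ^ 5) ^ 2 = 5764801 * m ^ 10 := by rw [mul_pow, ← pow_mul]; norm_num
    have e3 : (2 * m ^ 2) ^ 5 = 32 * m ^ 10 := by rw [mul_pow, ← pow_mul]; norm_num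
    have e4 : (9 * m.totient ^ 3) ^ 5 = 59049 * m.totient ^ 15 := by rw [mul_pow, ← pow_mul]; norm_num
    rw [e1, e2] at h2
    rw [e3, e4] at h3
    generalize 49 ^ m.totient = A at h1 h2
    generalize m.totient ^ 15 = B at h1 h3
    omega
  by_contra hc
  have h1 : 124 ^ 2 ≤ m ^ 2 := Nat.pow_le_pow_left (by omega) 2
  have h2 : m.totient ^ 3 ≤ 15 ^ 3 := Nat.pow_le_pow_left (by omega) 3
  omega

set_option maxRecDepth 8000 in
set_option synthInstance.maxSize 4000 in
theorem small_list_one : ∀ n < 124, 3 ≤ n → 7 ^ n.totient ≤ 4 * n * ((n + 1) * (2 * n + 1)) →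
    n ∈ [3, 4, 6, 8, 10, 12] := by decide +kernel

set_option maxRecDepth 8000 in
theorem small_bound_one : ∀ n ∈ [3, 4, 6, 8, 10, 12], 4 * n * ((n + 1) * (2 * n + 1)) < 47 ^ n.totient := by
  decide +kernel

set_option maxRecDepth 8000 in
set_option synthInstance.maxSize 4000 in
theorem small_check_one : ∀ n ∈ [3, 4, 6, 8, 10, 12], ∀ p < 47, 7 ≤ p → Nat.Prime p →
    p ^ n.totient ≤ 4 * n * ((if Ppd p n (n + 1) then n + 1 else 1) *
      (if Ppd p n (2 * n + 1) then 2 * n + 1 else 1)) →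
    (p = 17 ∧ n = 6) ∨ (Ppd p n (n + 1) ∧ (n + 1) ^ 2 ∣ p ^ n - 1) ∨
      (Ppd p n (2 * n + 1) ∧ (2 * n + 1) ^ 2 ∣ p ^ n - 1) := by decide +kernel

/-- A primitive prime divisor which is large, or whose square divides. -/
theorem exists_good_ppd {p n : ℕ} (hp : p.Prime) (h7 : 7 ≤ p) (hn : 3 ≤ n) :
    (p = 17 ∧ n = 6) ∨ ∃ r, Ppd p n r ∧ (2 * n + 1 < r ∨ r ^ 2 ∣ p ^ n - 1) := by
  by_contra hc
  have hp2 : 2 ≤ p := hp.two_le
  have hsmall : ∀ r, Ppd p n r → r ≤ 2 * n + 1 ∧ ¬ r ^ 2 ∣ p ^ n - 1 := fun r hr =>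
    ⟨not_lt.1 fun h => hc (Or.inr ⟨r, hr, Or.inl h⟩), fun h => hc (Or.inr ⟨r, hr, Or.inr h⟩)⟩
  have hN0 := pow_sub_one_ne_zero hp2 (show 0 < n by omega)
  have hv : ∀ j, candVal p n j = if Ppd p n (j * n + 1) then j * n + 1 else 1 := by
    intro j
    unfold candVal
    split_ifs with h
    · have h1 : 1 ≤ (p ^ n - 1).factorization (j * n + 1) :=
        (h.1.pow_dvd_iff_le_factorization hN0).1 (by rw [pow_one]; exact h.2.1)
      have h2 : ¬ 2 ≤ (p ^ n - 1).factorization (j * n + 1) := fun h2 =>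
        (hsmall _ h).2 ((h.1.pow_dvd_iff_le_factorization hN0).2 h2)
      rw [show (p ^ n - 1).factorization (j * n + 1) = 1 by omega, pow_one]
    · rfl
  have h3 : candVal p n 3 = 1 := by
    rw [hv 3, if_neg fun h => by have := (hsmall _ h).1; omega]
  have h4 : candVal p n 4 = 1 := by
    rw [hv 4, if_neg fun h => by have := (hsmall _ h).1; omega]
  have hb := pow_totient_le_cands (m := n) hp2 (by omega) fun r hr => by have := (hsmall r hr).1; omega
  rw [h3, h4, mul_one, mul_one, hv, hv, one_mul] at hb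
  have hb' : p ^ n.totient ≤ 4 * n * ((n + 1) * (2 * n + 1)) := by
    refine hb.trans (Nat.mul_le_mul_left _ (Nat.mul_le_mul ?_ ?_)) <;> split_ifs <;> omega
  have h7' : 7 ^ n.totient ≤ 4 * n * ((n + 1) * (2 * n + 1)) :=
    (Nat.pow_le_pow_left h7 _).trans hb'
  have hlt : n < 124 := by
    apply lt_of_pow_le
    have : 64 * (4 * n * ((n + 1) * (2 * n + 1))) ≤ 2401 * n ^ 5 := by
      have h9 : 9 * n ^ 3 ≤ n ^ 5 := by
        rw [show n ^ 5 = n * n * n ^ 3 by ring]
        exact Nat.mul_le_mul_right _ (Nat.mul_le_mul hn hn)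
      have h10 : (n + 1) * (2 * n + 1) ≤ 3 * n * n + 4 * n := by nlinarith
      have h11 : 3 * n * n + 4 * n ≤ 5 * n * n := by nlinarith
      calc 64 * (4 * n * ((n + 1) * (2 * n + 1))) ≤ 64 * (4 * n * (5 * n * n)) :=
            Nat.mul_le_mul_left _ (Nat.mul_le_mul_left _ (h10.trans h11))
        _ = 1280 * n ^ 3 := by ring
        _ ≤ 2401 * n ^ 5 := by omega
    exact (Nat.mul_le_mul_left _ h7').trans this
  have hmem := small_list_one n hlt hn h7'
  have hp47 : p < 47 := by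
    by_contra hp47
    have := small_bound_one n hmem
    have : 47 ^ n.totient ≤ p ^ n.totient := Nat.pow_le_pow_left (by omega) _
    omega
  rcases small_check_one n hmem p hp47 h7 hp hb with h | ⟨h1, h2⟩ | ⟨h1, h2⟩
  · exact hc (Or.inl h)
  · exact (hsmall _ h1).2 h2
  · exact (hsmall _ h1).2 h2

/-- The exceptional pairs, or the weight inequality with computable weights. -/
def Fine (p m : ℕ) : Prop :=
  (p = 47 ∧ m = 4) ∨ (p = 17 ∧ m = 6) ∨ (p = 31 ∧ m = 6) ∨
    m * (p - 3) + 4 < 2 * (p - 2) + (candPart p m 1 + candPart p m 2 + candPart p m 3 + candPart p m 4)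

instance (p m : ℕ) : Decidable (Fine p m) := by unfold Fine; infer_instance

/-- The necessary size condition with computable weights. -/
def Guard (p m : ℕ) : Prop :=
  p ^ m.totient ≤ 4 * m * (candPart p m 1 * candPart p m 2 * candPart p m 3 * candPart p m 4)

instance (p m : ℕ) : Decidable (Guard p m) := by unfold Guard; infer_instance

set_option maxRecDepth 8000 in
set_option synthInstance.maxSize 4000 in
theorem small_list_two : ∀ m < 124, 3 ≤ m →
    (m.totient ≤ 4 ∨ 64 * 7 ^ (m.totient - 4) ≤ m * (m - 2) ^ 4) →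
    m ∈ [3, 4, 5, 6, 8, 10, 12, 7, 9, 14, 15, 16, 18, 20, 24, 30] := by decide +kernel

set_option maxRecDepth 8000 in
theorem small_bound_two : ∀ m ∈ [7, 9, 14, 15, 16, 18, 20, 24, 30],
    4 < m.totient ∧ m * (m - 2) ^ 4 < 64 * 136 ^ (m.totient - 4) := by decide +kernel

set_option maxRecDepth 8000 in
set_option synthInstance.maxSize 4000 in
theorem small_check_big : ∀ m ∈ [7, 9, 14, 15, 16, 18, 20, 24, 30], ∀ p < 136, 7 ≤ p →
    64 * p ^ (m.totient - 4) ≤ m * (m - 2) ^ 4 → Nat.Prime p → Guard p m → Fine p m := by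
  decide +kernel

set_option maxRecDepth 8000 in
set_option synthInstance.maxSize 4000 in
theorem small_check_ten : ∀ p < 760, 7 ≤ p → Nat.Prime p → Guard p 10 → Fine p 10 := by decide +kernel

set_option maxRecDepth 8000 in
set_option synthInstance.maxSize 4000 in
theorem small_check_twelve : ∀ p < 40, 7 ≤ p → Nat.Prime p → Guard p 12 → Fine p 12 := by decide +kernel

set_option maxRecDepth 8000 in
set_option synthInstance.maxSize 4000 in
theorem small_check_four : ∀ p ∈ [7, 13, 47, 239], Guard p 4 → Fine p 4 := by decide +kernel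

set_option maxRecDepth 8000 in
set_option synthInstance.maxSize 4000 in
theorem small_check_six : ∀ p ∈ [17, 19, 23, 31], Guard p 6 → Fine p 6 := by decide +kernel

set_option maxRecDepth 8000 in
set_option synthInstance.maxSize 4000 in
theorem squares_four : ∀ a < 13, ∀ b < 8, ∀ c < 8,
    Nat.sqrt (2 * 5 ^ a * 13 ^ b * 17 ^ c - 1) * Nat.sqrt (2 * 5 ^ a * 13 ^ b * 17 ^ c - 1) =
      2 * 5 ^ a * 13 ^ b * 17 ^ c - 1 →
    Nat.sqrt (2 * 5 ^ a * 13 ^ b * 17 ^ c - 1) ∈ [1, 3, 5, 7, 13, 21, 47, 57, 239] := by decide +kernel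

set_option maxRecDepth 8000 in
set_option synthInstance.maxSize 4000 in
theorem squares_six : ∀ i < 2, ∀ a < 16, ∀ b < 12, ∀ c < 11,
    Nat.sqrt (4 * (3 ^ i * 7 ^ a * 13 ^ b * 19 ^ c) - 3) *
        Nat.sqrt (4 * (3 ^ i * 7 ^ a * 13 ^ b * 19 ^ c) - 3) =
      4 * (3 ^ i * 7 ^ a * 13 ^ b * 19 ^ c) - 3 →
    Nat.sqrt (4 * (3 ^ i * 7 ^ a * 13 ^ b * 19 ^ c) - 3) ∈
      [1, 3, 5, 7, 9, 15, 19, 23, 33, 37, 45, 61, 137, 1307] := by decide +kernel

theorem am_four (a b c d : ℕ) : 256 * (a * b * c * d) ≤ (a + b + c + d) ^ 4 := by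
  have h : ∀ x y : ℕ, 4 * (x * y) ≤ (x + y) ^ 2 := fun x y => by
    zify; nlinarith [sq_nonneg ((x : ℤ) - y)]
  calc 256 * (a * b * c * d) = 16 * ((4 * (a * b)) * (4 * (c * d))) := by ring
    _ ≤ 16 * ((a + b) ^ 2 * (c + d) ^ 2) := Nat.mul_le_mul_left _ (Nat.mul_le_mul (h a b) (h c d))
    _ = (4 * ((a + b) * (c + d))) ^ 2 := by ring
    _ ≤ ((a + b + (c + d)) ^ 2) ^ 2 := Nat.pow_le_pow_left (h _ _) 2
    _ = (a + b + c + d) ^ 4 := by ring

theorem am_three (a b c : ℕ) : 27 * (a * b * c) ≤ (a + b + c) ^ 3 := by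
  zify
  have ha : (0 : ℤ) ≤ a := Int.natCast_nonneg a
  have hb : (0 : ℤ) ≤ b := Int.natCast_nonneg b
  have hc : (0 : ℤ) ≤ c := Int.natCast_nonneg c
  nlinarith [mul_nonneg ha (sq_nonneg ((b : ℤ) - c)), mul_nonneg hb (sq_nonneg ((a : ℤ) - c)),
    mul_nonneg hc (sq_nonneg ((a : ℤ) - b)), mul_nonneg (add_nonneg (add_nonneg ha hb) hc) (sq_nonneg ((a : ℤ) - b)),
    mul_nonneg (add_nonneg (add_nonneg ha hb) hc) (sq_nonneg ((b : ℤ) - c)),
    mul_nonneg (add_nonneg (add_nonneg ha hb) hc) (sq_nonneg ((a : ℤ) - c))]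

theorem exists_exp {p m j B : ℕ}
    (hbd : ∀ r, Ppd p m r → r ^ (p ^ m - 1).factorization r ≤ 12 ^ (2 * m))
    (hB : 12 ^ (2 * m) < (j * m + 1) ^ B) : ∃ e < B, candVal p m j = (j * m + 1) ^ e := by
  by_cases h : Ppd p m (j * m + 1)
  · refine ⟨(p ^ m - 1).factorization (j * m + 1), ?_, by rw [candVal, if_pos h]⟩
    by_contra hc
    have := hbd _ h
    have : (j * m + 1) ^ B ≤ (j * m + 1) ^ (p ^ m - 1).factorization (j * m + 1) :=
      Nat.pow_le_pow_right (by omega) (not_lt.1 hc)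
    omega
  · refine ⟨0, ?_, by rw [candVal, if_neg h, pow_zero]⟩
    rcases Nat.eq_zero_or_pos B with rfl | hB0
    · have : 1 ≤ 12 ^ (2 * m) := Nat.one_le_pow _ _ (by norm_num)
      simp at hB
    · exact hB0

theorem cycVal_three (p : ℕ) : cycVal p 3 = p ^ 2 + p + 1 := by
  rw [cycVal, cyclotomic_three]
  simp only [eval_add, eval_pow, eval_X, eval_one]
  rw [show ((p : ℤ) ^ 2 + p + 1) = ((p ^ 2 + p + 1 : ℕ) : ℤ) by push_cast; ring, Int.natAbs_natCast]

theorem cycVal_four (p : ℕ) : cycVal p 4 = p * p + 1 := by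
  have h : (cyclotomic 4 ℤ) = X ^ 2 + 1 := by
    have := cyclotomic_prime_pow_eq_geom_sum (R := ℤ) Nat.prime_two (n := 1)
    norm_num [Finset.sum_range_succ] at this
    rw [this]; ring
  rw [cycVal, h]
  simp only [eval_add, eval_pow, eval_X, eval_one]
  rw [show ((p : ℤ) ^ 2 + 1) = ((p * p + 1 : ℕ) : ℤ) by push_cast; ring, Int.natAbs_natCast]

theorem cycVal_six {p : ℕ} (hp : 1 ≤ p) : cycVal p 6 = p * p - p + 1 := by
  rw [cycVal, cyclotomic_six]
  simp only [eval_add, eval_sub, eval_pow, eval_X, eval_one]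
  have : p ≤ p * p := Nat.le_mul_self p
  rw [show ((p : ℤ) ^ 2 - p + 1) = ((p * p - p + 1 : ℕ) : ℤ) by push_cast [Nat.cast_sub this]; ring,
    Int.natAbs_natCast]

/-- If all primitive prime divisors are small, their weight is large. -/
theorem ppdSum_big {p m : ℕ} (hp : p.Prime) (h7 : 7 ≤ p) (hm : 3 ≤ m)
    (hall : ∀ r, Ppd p m r → r ≤ 4 * m + 1)
    (hbd : ∀ r, Ppd p m r → r ^ (p ^ m - 1).factorization r ≤ 12 ^ (2 * m)) :
    (p = 47 ∧ m = 4) ∨ (p = 17 ∧ m = 6) ∨ (p = 31 ∧ m = 6) ∨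
      m * (p - 3) < 2 * (p - 2) + ppdSum p m := by
  by_contra hcon
  push Not at hcon
  obtain ⟨hn1, hn2, hn3, hfail⟩ := hcon
  have hp2 : 2 ≤ p := hp.two_le
  have hsum := sum_candVal_le hp2 (show 0 < m by omega)
  have hpow := pow_totient_le_cands hp2 (by omega) hall
  have hdvd := cycVal_dvd hp2 (by omega) hall
  -- small cases are excluded by computation
  have fin : p ≤ 1024 → (Guard p m → Fine p m) → False := by
    intro hle hchk
    have e := candVal_eq hp2 (show 0 < m by omega) hle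
    simp only [e] at hpow hsum
    rcases hchk hpow with h | h | h | h
    · exact hn1 h.1 h.2
    · exact hn2 h.1 h.2
    · exact hn3 h.1 h.2
    · omega
  have h1 := candVal_pos p m 1
  have h2 := candVal_pos p m 2
  have h3 := candVal_pos p m 3
  have h4 := candVal_pos p m 4
  have hs : candVal p m 1 + candVal p m 2 + candVal p m 3 + candVal p m 4 + 2 * (p - 2) ≤
      m * (p - 3) + 4 := by omega
  have hcases : m.totient ≤ 4 ∨ 64 * p ^ (m.totient - 4) ≤ m * (m - 2) ^ 4 := by
    rcases Nat.lt_or_ge 4 m.totient with hf | hf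
    · right
      have hS : candVal p m 1 + candVal p m 2 + candVal p m 3 + candVal p m 4 ≤ (m - 2) * p := by
        rw [show m * (p - 3) = m * p - 3 * m by rw [Nat.mul_sub, mul_comm m 3]] at hs
        rw [Nat.sub_mul]
        have : 2 * p ≤ m * p := Nat.mul_le_mul_right _ (by omega)
        omega
      have ham := (am_four _ _ _ _).trans (Nat.pow_le_pow_left hS 4)
      rw [mul_pow] at ham
      have : 256 * p ^ m.totient ≤ 4 * m * ((m - 2) ^ 4 * p ^ 4) := by
        calc 256 * p ^ m.totient ≤ 256 * (4 * m * (candVal p m 1 * candVal p m 2 * candVal p m 3 *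
              candVal p m 4)) := Nat.mul_le_mul_left _ hpow
          _ = 4 * m * (256 * (candVal p m 1 * candVal p m 2 * candVal p m 3 * candVal p m 4)) := by ring
          _ ≤ _ := Nat.mul_le_mul_left _ ham
      have e : p ^ m.totient = p ^ (m.totient - 4) * p ^ 4 := by
        rw [← pow_add, Nat.sub_add_cancel hf.le]
      rw [e] at this
      have hp4 : 0 < 4 * p ^ 4 := by positivity
      refine Nat.le_of_mul_le_mul_left ?_ hp4
      calc 4 * p ^ 4 * (64 * p ^ (m.totient - 4)) = 256 * (p ^ (m.totient - 4) * p ^ 4) := by ring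
        _ ≤ _ := this
        _ = _ := by ring
    · exact Or.inl hf
  have hm124 : m < 124 := by
    apply lt_of_pow_le
    rcases hcases with hf | hf
    · have h1 : 7 ^ m.totient ≤ 7 ^ 4 := Nat.pow_le_pow_right (by norm_num) hf
      have h2 : 3 ^ 5 ≤ m ^ 5 := Nat.pow_le_pow_left hm 5
      omega
    · rcases Nat.lt_or_ge 4 m.totient with hf4 | hf4
      · have h1 : 7 ^ (m.totient - 4) ≤ p ^ (m.totient - 4) := Nat.pow_le_pow_left h7 _
        have e : 7 ^ m.totient = 7 ^ (m.totient - 4) * 7 ^ 4 := by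
          rw [← pow_add, Nat.sub_add_cancel hf4.le]
        have h2 : m * (m - 2) ^ 4 ≤ m ^ 5 := by
          rw [pow_succ' m 4]
          exact Nat.mul_le_mul_left _ (Nat.pow_le_pow_left (by omega) 4)
        rw [e]
        omega
      · have h1 : 7 ^ m.totient ≤ 7 ^ 4 := Nat.pow_le_pow_right (by norm_num) hf4
        have h2 : 3 ^ 5 ≤ m ^ 5 := Nat.pow_le_pow_left hm 5
        omega
  have hmem := small_list_two m hm124 hm (hcases.imp id fun h =>
    (Nat.mul_le_mul_left _ (Nat.pow_le_pow_left h7 _)).trans h)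
  have big : m ∈ [7, 9, 14, 15, 16, 18, 20, 24, 30] → False := by
    intro hmb
    obtain ⟨hf, hB⟩ := small_bound_two m hmb
    have hc := hcases.resolve_left (by omega)
    have hp136 : p < 136 := by
      by_contra hc'
      have : 136 ^ (m.totient - 4) ≤ p ^ (m.totient - 4) := Nat.pow_le_pow_left (by omega) _
      omega
    exact fin (by omega) (small_check_big m hmb p hp136 h7 hc hp)
  simp only [List.mem_cons, List.not_mem_nil, or_false] at hmem
  rcases hmem with rfl | rfl | rfl | rfl | rfl | rfl | rfl | hmem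
  · -- `m = 3`
    rw [candVal_one_of_not_prime (j := 1) (by norm_num), candVal_one_of_not_prime (j := 3) (by norm_num)]
      at hs hdvd
    have hd := Nat.le_of_dvd (by positivity) hdvd
    rw [cycVal_three] at hd
    have ham : 4 * (candVal p 3 2 * candVal p 3 4) ≤ (candVal p 3 2 + candVal p 3 4) ^ 2 := by
      zify; nlinarith [sq_nonneg ((candVal p 3 2 : ℤ) - candVal p 3 4)]
    have hle : candVal p 3 2 + candVal p 3 4 ≤ p - 3 := by omega
    have := ham.trans (Nat.pow_le_pow_left hle 2)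
    have : (p - 3) ^ 2 ≤ p ^ 2 := Nat.pow_le_pow_left (by omega) 2
    simp only [one_mul, mul_one] at hd
    omega
  · -- `m = 4`
    rw [candVal_one_of_not_prime (j := 2) (by norm_num)] at hdvd
    obtain ⟨a, ha, ea⟩ := exists_exp (j := 1) (B := 13) hbd (by norm_num)
    obtain ⟨b, hb, eb⟩ := exists_exp (j := 3) (B := 8) hbd (by norm_num)
    obtain ⟨c, hc, ec⟩ := exists_exp (j := 4) (B := 8) hbd (by norm_num)
    norm_num at ea eb ec
    rw [cycVal_four, ea, eb, ec, mul_one] at hdvd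
    obtain ⟨w, rfl⟩ := hp.odd_of_ne_two (by omega)
    set M := 2 * (w * w) + 2 * w + 1 with hM
    rw [show (2 * w + 1) * (2 * w + 1) + 1 = 2 * M by rw [hM]; ring,
      show 4 * (5 ^ a * 13 ^ b * 17 ^ c) = 2 * (2 * (5 ^ a * 13 ^ b * 17 ^ c)) by ring] at hdvd
    have hMd : M ∣ 5 ^ a * 13 ^ b * 17 ^ c := by
      refine Nat.Coprime.dvd_of_dvd_mul_left ?_ (Nat.dvd_of_mul_dvd_mul_left two_pos hdvd)
      exact Nat.coprime_two_right.2 ⟨w * w + w, by rw [hM]; ring⟩
    obtain ⟨d, d3, hd12, hd3, e1⟩ := Nat.dvd_mul.1 hMd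
    obtain ⟨d1, d2, hd1, hd2, rfl⟩ := Nat.dvd_mul.1 hd12
    obtain ⟨a', ha', rfl⟩ := (Nat.dvd_prime_pow (by norm_num)).1 hd1
    obtain ⟨b', hb', rfl⟩ := (Nat.dvd_prime_pow (by norm_num)).1 hd2
    obtain ⟨c', hc', rfl⟩ := (Nat.dvd_prime_pow (by norm_num)).1 hd3
    have hN : 2 * 5 ^ a' * 13 ^ b' * 17 ^ c' - 1 = (2 * w + 1) * (2 * w + 1) := by
      rw [show 2 * 5 ^ a' * 13 ^ b' * 17 ^ c' = 2 * M by rw [← e1]; ring,
        show (2 * w + 1) * (2 * w + 1) = 2 * M - 1 by
          rw [show 2 * M = (2 * w + 1) * (2 * w + 1) + 1 by rw [hM]; ring, Nat.add_sub_cancel]]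
    have hsq := squares_four a' (by omega) b' (by omega) c' (by omega)
    rw [hN, Nat.sqrt_eq] at hsq
    have hl := hsq rfl
    simp only [List.mem_cons, List.not_mem_nil, or_false] at hl
    have hmem' : 2 * w + 1 ∈ [7, 13, 47, 239] := by
      simp only [List.mem_cons, List.not_mem_nil, or_false]
      rcases hl with h | h | h | h | h | h | h | h | h <;> first
        | omega
        | (rw [h] at hp; norm_num at hp)
    exact fin (by rcases hl with h | h | h | h | h | h | h | h | h <;> omega)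
      (small_check_four _ hmem')
  · -- `m = 5`
    rw [candVal_one_of_not_prime (j := 1) (by norm_num), candVal_one_of_not_prime (j := 3) (by norm_num),
      candVal_one_of_not_prime (j := 4) (by norm_num)] at hs hpow
    rw [show Nat.totient 5 = 4 by decide] at hpow
    have hle : candVal p 5 2 ≤ 3 * p := by omega
    have h49 : 49 ≤ p * p := Nat.mul_le_mul h7 h7
    have : 343 * p ≤ p ^ 4 := by
      calc 343 * p ≤ (p * p * p) * p := Nat.mul_le_mul_right _ (Nat.mul_le_mul h49 h7)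
        _ = p ^ 4 := by ring
    simp only [one_mul, mul_one] at hpow
    omega
  · -- `m = 6`
    rw [candVal_one_of_not_prime (j := 4) (by norm_num)] at hdvd
    obtain ⟨a, ha, ea⟩ := exists_exp (j := 1) (B := 16) hbd (by norm_num)
    obtain ⟨b, hb, eb⟩ := exists_exp (j := 2) (B := 12) hbd (by norm_num)
    obtain ⟨c, hc, ec⟩ := exists_exp (j := 3) (B := 11) hbd (by norm_num)
    norm_num at ea eb ec
    rw [cycVal_six (by omega), ea, eb, ec, mul_one] at hdvd
    have hle : p ≤ p * p := Nat.le_mul_self p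
    set M := p * p - p + 1 with hM
    rw [show 6 * (7 ^ a * 13 ^ b * 19 ^ c) = 2 * (3 ^ 1 * 7 ^ a * 13 ^ b * 19 ^ c) by ring] at hdvd
    have hMd : M ∣ 3 ^ 1 * 7 ^ a * 13 ^ b * 19 ^ c := by
      refine Nat.Coprime.dvd_of_dvd_mul_left ?_ hdvd
      refine Nat.coprime_two_right.2 ?_
      obtain ⟨w, rfl⟩ := hp.odd_of_ne_two (by omega)
      exact ⟨2 * (w * w) + w, by
        have : (2 * w + 1) * (2 * w + 1) = 2 * (2 * (w * w) + w) + (2 * w + 1) := by ring
        omega⟩
    obtain ⟨d, d3, hd12, hd3, e1⟩ := Nat.dvd_mul.1 hMd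
    obtain ⟨d', d2, hd01, hd2, rfl⟩ := Nat.dvd_mul.1 hd12
    obtain ⟨d0, d1, hd0, hd1, rfl⟩ := Nat.dvd_mul.1 hd01
    obtain ⟨i', hi', rfl⟩ := (Nat.dvd_prime_pow Nat.prime_three).1 hd0
    obtain ⟨a', ha', rfl⟩ := (Nat.dvd_prime_pow (by norm_num)).1 hd1
    obtain ⟨b', hb', rfl⟩ := (Nat.dvd_prime_pow (by norm_num)).1 hd2
    obtain ⟨c', hc', rfl⟩ := (Nat.dvd_prime_pow (by norm_num)).1 hd3
    have hN : 4 * (3 ^ i' * 7 ^ a' * 13 ^ b' * 19 ^ c') - 3 = (2 * p - 1) * (2 * p - 1) := by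
      rw [e1]
      obtain ⟨v, rfl⟩ : ∃ v, p = v + 1 := ⟨p - 1, by omega⟩
      have h2 : (v + 1) * (v + 1) = v * v + v + (v + 1) := by ring
      have h3 : (2 * v + 1) * (2 * v + 1) = 4 * (v * v + v) + 1 := by ring
      rw [show 2 * (v + 1) - 1 = 2 * v + 1 by omega]
      omega
    have hsq := squares_six i' (by omega) a' (by omega) b' (by omega) c' (by omega)
    rw [hN, Nat.sqrt_eq] at hsq
    have hl := hsq rfl
    simp only [List.mem_cons, List.not_mem_nil, or_false] at hl
    have hpv : p ∈ [17, 19, 23, 31, 654] ∨ p ≤ 12 ∨ p = 69 := by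
      simp only [List.mem_cons, List.not_mem_nil, or_false]
      omega
    have hmem' : p ∈ [17, 19, 23, 31] := by
      simp only [List.mem_cons, List.not_mem_nil, or_false] at hpv ⊢
      rcases hpv with (h | h | h | h | h) | h | h <;> first
        | omega
        | (subst h; norm_num at hp)
        | (interval_cases p <;> first | omega | norm_num at hp)
    exact fin (by simp only [List.mem_cons, List.not_mem_nil, or_false] at hmem'; omega)
      (small_check_six _ hmem')
  · -- `m = 8`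
    rw [candVal_one_of_not_prime (j := 1) (by norm_num), candVal_one_of_not_prime (j := 3) (by norm_num),
      candVal_one_of_not_prime (j := 4) (by norm_num)] at hs hpow
    rw [show Nat.totient 8 = 4 by decide] at hpow
    have hle : candVal p 8 2 ≤ 6 * p := by omega
    have h49 : 49 ≤ p * p := Nat.mul_le_mul h7 h7
    have : 343 * p ≤ p ^ 4 := by
      calc 343 * p ≤ (p * p * p) * p := Nat.mul_le_mul_right _ (Nat.mul_le_mul h49 h7)
        _ = p ^ 4 := by ring
    simp only [one_mul, mul_one] at hpow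
    omega
  · -- `m = 10`
    rw [candVal_one_of_not_prime (j := 2) (by norm_num)] at hs
    have e2 : candVal p 10 2 = 1 := candVal_one_of_not_prime (by norm_num)
    rw [e2, mul_one, show Nat.totient 10 = 4 by decide] at hpow
    have hle : candVal p 10 1 + candVal p 10 3 + candVal p 10 4 ≤ 8 * p := by omega
    have ham := (am_three _ _ _).trans (Nat.pow_le_pow_left hle 3)
    have hp760 : p < 760 := by
      by_contra hc
      have : 760 * p ^ 3 ≤ p ^ 4 := by
        rw [pow_succ' p 3]; exact Nat.mul_le_mul_right _ (by omega)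
      rw [mul_pow] at ham
      have : 0 < p ^ 3 := by positivity
      omega
    exact fin (by omega) (small_check_ten p hp760 h7 hp)
  · -- `m = 12`
    rw [candVal_one_of_not_prime (j := 2) (by norm_num), candVal_one_of_not_prime (j := 4) (by norm_num)]
      at hs hpow
    rw [show Nat.totient 12 = 4 by decide] at hpow
    simp only [mul_one] at hpow
    have hle : candVal p 12 1 + candVal p 12 3 ≤ 10 * p := by omega
    have ham : 4 * (candVal p 12 1 * candVal p 12 3) ≤ (candVal p 12 1 + candVal p 12 3) ^ 2 := by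
      zify; nlinarith [sq_nonneg ((candVal p 12 1 : ℤ) - candVal p 12 3)]
    have hb := ham.trans (Nat.pow_le_pow_left hle 2)
    have hp40 : p < 40 := by
      by_contra hc
      have : 1600 * p ^ 2 ≤ p ^ 4 := by
        rw [show p ^ 4 = (p * p) * p ^ 2 by ring]
        exact Nat.mul_le_mul_right _ (Nat.mul_le_mul (not_lt.1 hc) (not_lt.1 hc))
      rw [mul_pow] at hb
      have : 0 < p ^ 2 := by positivity
      omega
    exact fin (by omega) (small_check_twelve p hp40 h7 hp)
  · exact big (by simpa only [List.mem_cons, List.not_mem_nil, or_false] using hmem)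

end Cfsg.Agent.H27.ThreeCl
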