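import Cfsg.Agent.H27.ThreeCl.Defs
import Cfsg.Agent.H45.Transitive.Lift
import Cfsg.Agent.H39.SmallDegree
import Cfsg.Agent.H25.UniformCent
import Cfsg.Agent.H25.Jordan
import Cfsg.Agent.H27.SmallDegree
import Cfsg.Agent.S4503

/-!
Sylow subgroups for a primitive prime: large ones are normal, all contain elements of large order.
-/

set_option autoImplicit false
set_option linter.unusedSectionVars false
set_option linter.style.haveILetI false

namespace Cfsg.Agent.H27.ThreeCl

open Module Cfsg.Agent.H45.Trans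

universe u v

variable {p : ℕ} [Fact p.Prime] {V : Type v} [AddCommGroup V] [Module (ZMod p) V] [Finite V]
  {G : Type u} [Group G] [Finite G]

theorem exists_rep {ρ : G →* (V ≃ₗ[ZMod p] V)} (hρ : Function.Injective ρ) (hcop : ¬ p ∣ Nat.card G) :
    ∃ σ : Representation ℂ G (Fin (finrank (ZMod p) V) → ℂ), Function.Injective σ := by
  obtain ⟨χ, ⟨d, σ, hσ⟩, hd, hf⟩ := Cfsg.Agent.H45.Trans.exists_lift ρ hρ hcop
  have hd' : d = finrank (ZMod p) V := by
    rw [← hd, Cfsg.charDegree, ← hσ, Representation.char_one, Module.finrank_fin_fun]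
    simp
  subst hd'
  refine ⟨σ, (injective_iff_map_eq_one _).2 fun g hg => hf g ?_⟩
  subst hσ; simp only [Representation.character, hg, map_one]

theorem ppdR_ne {p n r : ℕ} (hp : p.Prime) (hn : 0 < n) (hr : Ppd p n r) : r ≠ p := by
  rintro rfl
  have h1 : r ∣ r ^ n := dvd_pow_self r hn.ne'
  have h3 := Nat.dvd_sub h1 hr.2.1
  rw [show r ^ n - (r ^ n - 1) = 1 by
    have := Nat.one_le_pow n r hp.pos; omega, Nat.dvd_one] at h3
  exact hp.ne_one h3

theorem dvd_sub_of_ppd {p d r a b : ℕ} (hp : p.Prime) (hd : 0 < d) (hr : Ppd p d r) (hba : b ≤ a)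
    (h : p ^ a ≡ p ^ b [MOD r]) : d ∣ a - b := by
  have hrp := ppdR_ne hp hd hr
  haveI := Fact.mk hr.1
  have h2 : r ∣ p ^ b * (p ^ (a - b) - 1) := by
    rw [Nat.mul_sub, ← pow_add, Nat.add_sub_cancel' hba, mul_one]
    exact (Nat.modEq_iff_dvd' (Nat.pow_le_pow_right hp.pos hba)).1 h.symm
  rcases (hr.1.dvd_mul).1 h2 with h3 | h3
  · exact absurd ((Nat.prime_dvd_prime_iff_eq hr.1 hp).1 (hr.1.dvd_of_dvd_pow h3)) hrp
  · have key : ∀ k, r ∣ p ^ k - 1 ↔ (p : ZMod r) ^ k = 1 := by
      intro k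
      rw [← ZMod.natCast_eq_zero_iff, Nat.cast_sub (Nat.one_le_pow _ _ hp.pos), Nat.cast_pow,
        Nat.cast_one, sub_eq_zero]
    have ho : orderOf (p : ZMod r) = d := by
      refine (orderOf_eq_iff hd).2 ⟨(key d).1 hr.2.1, fun k hk hk0 h => hr.2.2 k hk0 hk ((key k).2 h)⟩
    rw [← ho]
    exact orderOf_dvd_of_pow_eq_one ((key _).1 h3)

theorem succ_le_ppd {p d r : ℕ} (hp : p.Prime) (hd : 0 < d) (hr : Ppd p d r) : d < r := by
  haveI := Fact.mk hr.1
  have h0 : (p : ZMod r) ≠ 0 := fun h => by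
    rw [ZMod.natCast_eq_zero_iff] at h
    exact ppdR_ne hp hd hr ((Nat.prime_dvd_prime_iff_eq hr.1 hp).1 h)
  have h1 : p ^ (r - 1) ≡ p ^ 0 [MOD r] := by
    rw [pow_zero, ← ZMod.natCast_eq_natCast_iff]
    push_cast
    exact ZMod.pow_card_sub_one_eq_one h0
  have h2 := dvd_sub_of_ppd hp hd hr (Nat.zero_le _) h1
  have := hr.1.two_le
  have := Nat.le_of_dvd (by omega) h2
  omega

/-- A Sylow subgroup of a prime above `2 n + 1` is normal and abelian. -/
theorem normal_sylow_of_big {ρ : G →* (V ≃ₗ[ZMod p] V)} (hρ : Function.Injective ρ)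
    (hcop : ¬ p ∣ Nat.card G) {r : ℕ} [Fact r.Prime] (hbig : 2 * finrank (ZMod p) V + 1 < r)
    (R : Sylow r G) :
    (R : Subgroup G).Normal ∧ ∀ a ∈ (R : Subgroup G), ∀ b ∈ (R : Subgroup G), a * b = b * a := by
  classical
  obtain ⟨σ, hσ⟩ := exists_rep hρ hcop
  have := Fintype.ofFinite G
  refine ⟨H39.normal_sylow_of_small _ G rfl _ σ hσ (Or.inr ⟨by omega, fun K hK Q => ?_⟩) R,
    fun a ha b hb => ?_⟩
  · by_cases hdiv : r ∣ Nat.card K
    · by_contra hnn
      have hχ : Cfsg.IsCharacter K (Representation.character (σ.comp K.subtype) : K → ℂ) :=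
        ⟨_, σ.comp K.subtype, rfl⟩
      have hdeg : Cfsg.charDegree (Representation.character (σ.comp K.subtype) : K → ℂ) =
          finrank (ZMod p) V := by
        rw [Cfsg.charDegree, Representation.char_one, Module.finrank_fin_fun]
        simp
      have h := Cfsg.Agent.S4503.result r Fact.out hdiv hK (fun N hN hc => hnn ?_) _ hχ
        (fun g hg => ?_)
      · rw [hdeg] at h; omega
      · have hfac : (Nat.card K).factorization r = 1 := by
          have h1 := (Fact.out : r.Prime).factorization_pos_of_dvd Nat.card_pos.ne' hdiv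
          have h2 : ¬ 2 ≤ (Nat.card K).factorization r := fun h2 =>
            hK (((Fact.out : r.Prime).pow_dvd_iff_le_factorization Nat.card_pos.ne').2 h2)
          omega
        let P : Sylow r K := Sylow.ofCard N (by rw [hc, hfac, pow_one])
        haveI : (P : Subgroup K).Normal := hN
        haveI := Sylow.unique_of_normal P ‹_›
        rw [Subsingleton.elim Q P]
        exact hN
      · have hmor : Function.Injective (σ.comp K.subtype) := fun x y e => Subtype.ext (hσ e)
        exact hmor (((H25.char_eq_degree_iff (σ.comp K.subtype) g).1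
          (by rw [hg, Representation.char_one])).trans (map_one _).symm)
    · have : (Q : Subgroup K) = ⊥ := by
        rw [← Subgroup.card_eq_one, Q.card_eq_multiplicity,
          Nat.factorization_eq_zero_of_not_dvd hdiv, pow_zero]
      rw [this]; infer_instance
  · have h := commute_of_degree_lt_prime (G := (R : Subgroup G)) (σ.comp (R : Subgroup G).subtype)
      (fun x y e => Subtype.ext (hσ e)) (fun q hq hqd => by
        obtain ⟨k, hk⟩ := IsPGroup.iff_card.1 R.isPGroup'
        rw [hk] at hqd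
        rw [(Nat.prime_dvd_prime_iff_eq hq Fact.out).1 (hq.dvd_of_dvd_pow hqd),
          Module.finrank_fin_fun]
        omega) ⟨a, ha⟩ ⟨b, hb⟩
    exact congrArg Subtype.val h

/-- A nontrivial finite `r`-group has a central element of order `r`. -/
theorem exists_central_orderOf {R : Type*} [Group R] [Finite R] {r : ℕ} [Fact r.Prime]
    (hR : IsPGroup r R) [Nontrivial R] : ∃ z : R, z ∈ Subgroup.center R ∧ orderOf z = r := by
  haveI : Nontrivial (Subgroup.center R) := hR.center_nontrivial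
  have hd : r ∣ Nat.card (Subgroup.center R) := by
    obtain ⟨k, hk⟩ := IsPGroup.iff_card.1 (hR.to_subgroup (Subgroup.center R))
    rw [hk]
    refine dvd_pow_self r fun h0 => ?_
    rw [h0, pow_zero] at hk
    exact Finite.one_lt_card.ne' hk
  obtain ⟨z, hz⟩ := exists_prime_orderOf_dvd_card' r hd
  exact ⟨z, z.2, by rw [← hz, ← Subgroup.orderOf_coe]⟩

/-- A primitive prime of `p ^ n - 1` dividing the order to the second power: normal abelian Sylow. -/
theorem normal_sylow_of_sq {ρ : G →* (V ≃ₗ[ZMod p] V)} (hρ : Function.Injective ρ)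
    (hcop : ¬ p ∣ Nat.card G) {r : ℕ} [Fact r.Prime] (hn : 0 < finrank (ZMod p) V)
    (hr : Ppd p (finrank (ZMod p) V) r) (hsq : r ^ 2 ∣ Nat.card G) (R : Sylow r G) :
    (R : Subgroup G).Normal ∧ ∀ a ∈ (R : Subgroup G), ∀ b ∈ (R : Subgroup G), a * b = b * a := by
  haveI : Nontrivial V := Module.finrank_pos_iff.1 hn
  have hirr := fun y (hy : orderOf y = r) => (irreducible_of_primitive hρ (ppdR_ne Fact.out hn hr)
    hr.2.2 (y := y) hy).2
  have hk : r ^ 2 ≤ Nat.card R := by
    rw [R.card_eq_multiplicity]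
    exact Nat.pow_le_pow_right (Fact.out : r.Prime).pos
      (((Fact.out : r.Prime).pow_dvd_iff_le_factorization Nat.card_pos.ne').1 hsq)
  haveI : Nontrivial R := Finite.one_lt_card_iff_nontrivial.1 (by
    have := (Fact.out : r.Prime).two_le; nlinarith)
  obtain ⟨z, hzc, hz⟩ := exists_central_orderOf R.isPGroup'
  have hab : ∀ a ∈ (R : Subgroup G), ∀ b ∈ (R : Subgroup G), a * b = b * a := fun a ha b hb =>
    commute_of_irreducible hρ (hirr (z : G) (by rw [Subgroup.orderOf_coe, hz]))
      (congrArg Subtype.val (Subgroup.mem_center_iff.1 hzc ⟨a, ha⟩))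
      (congrArg Subtype.val (Subgroup.mem_center_iff.1 hzc ⟨b, hb⟩))
  refine ⟨?_, hab⟩
  have hstar : ∀ x ∈ (R : Subgroup G), x ≠ 1 →
      Subgroup.centralizer ({x} : Set G) = Subgroup.centralizer ((R : Subgroup G) : Set G) := by
    intro x hx hx1
    refine le_antisymm (fun a ha => ?_) (Subgroup.centralizer_le (Set.singleton_subset_iff.2 hx))
    obtain ⟨i, hi⟩ : ∃ i, orderOf x = r ^ i := by
      obtain ⟨i, hi⟩ := R.isPGroup' ⟨x, hx⟩
      obtain ⟨j, -, hj⟩ := (Nat.dvd_prime_pow Fact.out).1 (orderOf_dvd_of_pow_eq_one (congrArg Subtype.val hi))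
      exact ⟨j, hj⟩
    have hi0 : i ≠ 0 := fun h0 => hx1 (by rw [h0, pow_zero, orderOf_eq_one_iff] at hi; exact hi)
    have hy : orderOf (x ^ r ^ (i - 1)) = r := by
      rw [orderOf_pow_of_dvd (pow_ne_zero _ (Fact.out : r.Prime).ne_zero)
        (hi ▸ pow_dvd_pow r (Nat.sub_le i 1)), hi, Nat.pow_div (Nat.sub_le i 1) (Fact.out : r.Prime).pos,
        show i - (i - 1) = 1 by omega, pow_one]
    rw [Subgroup.mem_centralizer_singleton_iff] at ha
    rw [Subgroup.mem_centralizer_iff]
    intro b hb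
    exact commute_of_irreducible hρ (hirr _ hy) (hab b hb _ (pow_mem hx _))
      ((Commute.pow_right (show Commute a x from ha) _).eq)
  obtain ⟨χ, hχ, hd, hf⟩ := Cfsg.Agent.H45.Trans.exists_lift ρ hρ hcop
  refine H25.sylow_normal_of_small_faithful r Fact.out _ G rfl ((dvd_pow_self r two_ne_zero).trans hsq) R
    hstar χ hχ hf (lt_of_lt_of_le ?_ hk)
  rw [hd]
  have := succ_le_ppd (Fact.out : p.Prime) hn hr
  nlinarith

/-- The Sylow part of an orbit size. -/
theorem pow_dvd_index_subgroupOf {r k : ℕ} [Fact r.Prime] (R : Sylow r G) (S : Subgroup G)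
    (h : r ^ k ∣ S.index) : r ^ k ∣ (S.subgroupOf (R : Subgroup G)).index := by
  have h1 : S.index ∣ (S ⊓ (R : Subgroup G)).index := Subgroup.index_dvd_of_le inf_le_left
  have h2 : (S ⊓ (R : Subgroup G)).index =
      (S.subgroupOf (R : Subgroup G)).index * (R : Subgroup G).index := by
    rw [← Subgroup.relIndex_mul_index (H := S ⊓ (R : Subgroup G)) (K := (R : Subgroup G)) inf_le_right,
      Subgroup.inf_relIndex_right]
    rfl
  have h3 := h.trans h1
  rw [h2] at h3
  exact (Nat.Coprime.pow_left _ ((Fact.out : r.Prime).coprime_iff_not_dvd.2 R.not_dvd_index)).dvd_of_dvd_mul_right h3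

/-- An invariant subspace of dimension `d` without fixed points gives an element of large order. -/
theorem exists_orderOf_of_subspace {ρ : G →* (V ≃ₗ[ZMod p] V)} {d r k : ℕ} [Fact r.Prime] (hd : 0 < d)
    (hr : Ppd p d r) (R : Sylow r G) (hidx : ∀ v : V, v ≠ 0 → r ^ k ∣ (stab ρ v).index) (hk : k ≠ 0)
    (W : Submodule (ZMod p) V) (hW0 : W ≠ ⊥) (hW : ∀ g ∈ (R : Subgroup G), ∀ w ∈ W, ρ g w ∈ W)
    (hmin : ∀ U : Submodule (ZMod p) V, U ≤ W → U ≠ ⊥ → (∀ g ∈ (R : Subgroup G), ∀ w ∈ U, ρ g w ∈ U) → U = W)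
    (hlt : finrank (ZMod p) W < 2 * d) : ∃ x : G, orderOf x = r ^ k := by
  classical
  let σ : (R : Subgroup G) →* (W ≃ₗ[ZMod p] W) :=
    { toFun := fun g =>
        { toFun := fun w => ⟨ρ g.1 w.1, hW g.1 g.2 w.1 w.2⟩
          map_add' := fun a b => Subtype.ext (map_add _ _ _)
          map_smul' := fun c a => Subtype.ext (map_smul _ _ _)
          invFun := fun w => ⟨ρ g.1⁻¹ w.1, hW _ (inv_mem g.2) w.1 w.2⟩
          left_inv := fun w => Subtype.ext (by
            show ρ g.1⁻¹ (ρ g.1 w.1) = w.1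
            rw [← LinearEquiv.mul_apply, ← map_mul, inv_mul_cancel, map_one]; rfl)
          right_inv := fun w => Subtype.ext (apply_inv_apply ρ g.1 w.1) }
      map_one' := LinearEquiv.ext fun w => Subtype.ext (by show ρ (1 : G) w.1 = w.1; simp)
      map_mul' := fun a b => LinearEquiv.ext fun w => Subtype.ext (by
        show ρ (a.1 * b.1) w.1 = ρ a.1 (ρ b.1 w.1)
        rw [map_mul]; rfl) }
  let τ : σ.range →* (W ≃ₗ[ZMod p] W) := σ.range.subtype
  have hτ : Function.Injective τ := Subtype.val_injective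
  have hpg : IsPGroup r σ.range := R.isPGroup'.of_surjective σ.rangeRestrict σ.rangeRestrict_surjective
  obtain ⟨w₀, hw₀, hw₀0⟩ := Submodule.exists_mem_ne_zero_of_ne_bot hW0
  have hker : ∀ (w : V), w ∈ W → w ≠ 0 → r ^ k ∣ ((stab ρ w).subgroupOf (R : Subgroup G)).index :=
    fun w _ hw => pow_dvd_index_subgroupOf R _ (hidx w hw)
  haveI : Finite σ.range := Finite.of_surjective σ.rangeRestrict σ.rangeRestrict_surjective
  haveI : Nontrivial σ.range := by
    rw [← Finite.one_lt_card_iff_nontrivial]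
    by_contra hc
    have h1 : Nat.card σ.range = 1 := by have := Nat.card_pos (α := σ.range); omega
    have h2 : (stab ρ w₀).subgroupOf (R : Subgroup G) = ⊤ := (Subgroup.eq_top_iff' _).2 fun g => by
      have h3 : σ g = 1 := Subgroup.mem_bot.1 (Subgroup.card_eq_one.1 h1 ▸ ⟨g, rfl⟩)
      exact congrArg Subtype.val (DFunLike.congr_fun h3 ⟨w₀, hw₀⟩)
    have := hker w₀ hw₀ hw₀0
    rw [h2, Subgroup.index_top, Nat.dvd_one] at this
    exact absurd this (Nat.one_lt_pow hk (Fact.out : r.Prime).one_lt).ne'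
  obtain ⟨y, hyc, hy⟩ := exists_central_orderOf hpg
  -- the fixed space of the central element is invariant, hence zero
  have hfixbot : fixV τ y = ⊥ := by
    by_contra hc
    have h1 : (fixV τ y).map W.subtype = W := by
      refine hmin _ (Submodule.map_subtype_le _ _) (fun e => hc ?_) fun g hg u hu => ?_
      · refine (Submodule.eq_bot_iff _).2 fun u hu => ?_
        have h3 : (u : V) ∈ (fixV τ y).map W.subtype := ⟨u, hu, rfl⟩
        rw [e, Submodule.mem_bot] at h3
        exact Subtype.ext h3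
      · obtain ⟨u', hu', rfl⟩ := hu
        exact ⟨σ ⟨g, hg⟩ u', map_fixV_mem (h := (σ.rangeRestrict ⟨g, hg⟩))
          (Subgroup.mem_center_iff.1 hyc _).symm hu', rfl⟩
    have h2 : y = 1 := hτ (LinearEquiv.ext fun w => by
      have : (w : V) ∈ (fixV τ y).map W.subtype := h1.symm ▸ w.2
      obtain ⟨w', hw', e⟩ := this
      rw [Subtype.val_injective e] at hw'
      exact mem_fixV.1 hw')
    rw [h2, orderOf_one] at hy
    exact (Fact.out : r.Prime).ne_one hy.symm
  have hdim : finrank (ZMod p) W = d := by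
    have h := pow_modEq_fixV τ hy
    rw [hfixbot, finrank_bot] at h
    obtain ⟨c, hc⟩ := dvd_sub_of_ppd Fact.out hd hr (Nat.zero_le _) h
    rw [Nat.sub_zero] at hc
    have hpos : 0 < finrank (ZMod p) W := Nat.pos_of_ne_zero fun e => hW0 (Submodule.finrank_eq_zero.1 e)
    rcases (show c = 0 ∨ c = 1 ∨ 2 ≤ c by omega) with rfl | rfl | hc2
    · rw [mul_zero] at hc; omega
    · rw [hc, mul_one]
    · have := Nat.mul_le_mul_left d hc2
      omega
  haveI : Nontrivial W := Submodule.nontrivial_iff_ne_bot.2 hW0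
  have hirr := (irreducible_of_primitive hτ (ppdR_ne Fact.out hd hr) (fun j hj hj' => hr.2.2 j hj
    (hdim ▸ hj')) hy).2
  -- the image is cyclic and semiregular
  have hcyc : IsCyclic σ.range := by
    have h1 := isCyclic_of_commutant hτ hirr
    have h2 : Subgroup.centralizer ({y} : Set σ.range) = ⊤ :=
      Subgroup.centralizer_eq_top_iff_subset.2 (Set.singleton_subset_iff.2 hyc)
    rw [h2] at h1
    exact Subgroup.topEquiv.isCyclic.1 h1
  obtain ⟨⟨_, x, rfl⟩, hgen⟩ := hcyc.exists_generator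
  have hstab : (stab ρ w₀).subgroupOf (R : Subgroup G) = σ.ker := by
    refine le_antisymm (fun g hg => ?_) fun g hg => ?_
    · have h1 : τ (σ.rangeRestrict g) ⟨w₀, hw₀⟩ = ⟨w₀, hw₀⟩ := Subtype.ext hg
      rcases hirr (fixV τ (σ.rangeRestrict g)) (fun w hw =>
        map_fixV_mem (Subgroup.mem_center_iff.1 hyc _) hw) with h | h
      · have : (⟨w₀, hw₀⟩ : W) ∈ fixV τ (σ.rangeRestrict g) := h1
        rw [h, Submodule.mem_bot] at this
        exact absurd (congrArg Subtype.val this) hw₀0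
      · exact MonoidHom.mem_ker.2 (LinearEquiv.ext fun w => mem_fixV.1 (h.symm ▸ Submodule.mem_top))
    · exact congrArg Subtype.val (DFunLike.congr_fun (MonoidHom.mem_ker.1 hg) ⟨w₀, hw₀⟩)
  have hdvd : r ^ k ∣ Nat.card σ.range := by
    rw [← Subgroup.index_ker, ← hstab]
    exact hker w₀ hw₀ hw₀0
  rw [← orderOf_eq_card_of_forall_mem_zpowers hgen, ← Subgroup.orderOf_coe] at hdvd
  have hx : r ^ k ∣ orderOf (x : G) := by
    rw [Subgroup.orderOf_coe]
    exact hdvd.trans (orderOf_map_dvd σ x)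
  refine ⟨(x : G) ^ (orderOf (x : G) / r ^ k), ?_⟩
  rw [orderOf_pow_orderOf_div (orderOf_pos _).ne' hx]

open Polynomial in
/-- A Sylow subgroup of a primitive prime of `p ^ d - 1`, `n = 2 d`, has a proper invariant
subspace. -/
theorem exists_proper_invariant {ρ : G →* (V ≃ₗ[ZMod p] V)} (hρ : Function.Injective ρ) {d r : ℕ}
    [Fact r.Prime] (hd : 0 < d) (hn : finrank (ZMod p) V = 2 * d) (hr : Ppd p d r) (hr2 : r ≠ 2)
    (R : Subgroup G) (hR : IsPGroup r R) [Nontrivial R] :
    ∃ W : Submodule (ZMod p) V, W ≠ ⊥ ∧ W ≠ ⊤ ∧ ∀ g ∈ R, ∀ w ∈ W, ρ g w ∈ W := by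
  classical
  haveI : Nontrivial V := Module.finrank_pos_iff.1 (by omega : 0 < finrank (ZMod p) V)
  obtain ⟨z, hzc, hz⟩ := exists_central_orderOf hR
  set f : Module.End (ZMod p) V := (ρ (z : G)).toLinearMap with hf
  have hcomm : ∀ g ∈ R, ∀ w, ρ g (f w) = f (ρ g w) := fun g hg w => by
    show ρ g (ρ (z : G) w) = ρ (z : G) (ρ g w)
    rw [← LinearEquiv.mul_apply, ← map_mul,
      show g * (z : G) = (z : G) * g from congrArg Subtype.val (Subgroup.mem_center_iff.1 hzc ⟨g, hg⟩),
      map_mul]; rfl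
  have hpoly : ∀ (P : (ZMod p)[X]) g, g ∈ R → ∀ w, ρ g (aeval f P w) = aeval f P (ρ g w) := by
    intro P g hg w
    induction P using Polynomial.induction_on' generalizing w with
    | add P Q hP hQ => simp only [map_add, LinearMap.add_apply, hP, hQ]
    | monomial i c =>
      simp only [aeval_monomial, Module.End.mul_apply, Module.algebraMap_end_apply, map_smul]
      congr 1
      induction i with
      | zero => simp
      | succ i ih => rw [pow_succ', Module.End.mul_apply, hcomm g hg, ih, Module.End.mul_apply]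
  have hfr : f ^ r = 1 := by
    have : (ρ (z : G)) ^ r = 1 := by rw [← map_pow, ← hz, ← Subgroup.orderOf_coe, pow_orderOf_eq_one, map_one]
    refine LinearMap.ext fun w => ?_
    have h := DFunLike.congr_fun this w
    rw [Module.End.pow_apply]
    rw [LinearEquiv.coe_pow] at h
    exact h
  set μ := minpoly (ZMod p) f with hμ
  have hint : IsIntegral (ZMod p) f := Algebra.IsIntegral.isIntegral f
  have hμ1 : ¬ IsUnit μ := minpoly.not_isUnit _ _
  by_cases hirrμ : Irreducible μ
  swap
  · -- a proper factor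
    obtain ⟨a, b, hab, ha, hb⟩ : ∃ a b, μ = a * b ∧ ¬ IsUnit a ∧ ¬ IsUnit b := by
      rw [irreducible_iff] at hirrμ
      push Not at hirrμ
      obtain ⟨a, b, h1, h2, h3⟩ := hirrμ hμ1
      exact ⟨a, b, h1, h2, h3⟩
    have hne : ∀ c e : (ZMod p)[X], μ = c * e → ¬ IsUnit e → aeval f c ≠ 0 := by
      intro c e hce he h0
      have hμ0 : μ ≠ 0 := minpoly.ne_zero hint
      have h1 : μ ∣ c := minpoly.dvd _ f h0
      obtain ⟨q, hq⟩ := h1
      apply he
      have hc0 : c ≠ 0 := fun h => hμ0 (by rw [hce, h, zero_mul])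
      refine IsUnit.of_mul_eq_one q ?_
      have : c * (e * q) = c * 1 := by rw [mul_one, ← mul_assoc, ← hce, ← hq]
      exact mul_left_cancel₀ hc0 this
    refine ⟨LinearMap.ker (aeval f a), fun h => ?_, fun h => hne a b hab hb (LinearMap.ker_eq_top.1 h),
      fun g hg w hw => ?_⟩
    · refine hne b a (by rw [hab, mul_comm]) ha (LinearMap.ext fun w => ?_)
      have h1 := minpoly.aeval (ZMod p) f
      rw [← hμ, hab, map_mul] at h1
      have h2 : aeval f b w ∈ LinearMap.ker (aeval f a) := LinearMap.congr_fun h1 w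
      rwa [h, Submodule.mem_bot] at h2
    · rw [LinearMap.mem_ker] at hw ⊢
      rw [← hpoly a g hg, hw, map_zero]
  · -- the group permutes the `p ^ d + 1` cyclic subspaces of the central element
    have hdeg : μ.natDegree ≤ d := by
      refine Nat.le_of_dvd hd (hirrμ.natDegree_dvd_of_dvd_X_pow_card_pow_sub_X ?_)
      rw [Nat.card_zmod]
      have h1 : μ ∣ X ^ r - 1 := minpoly.dvd _ _ (by simp [hfr])
      obtain ⟨c, hc⟩ := hr.2.1
      have h2 : (X ^ r - 1 : (ZMod p)[X]) ∣ X ^ p ^ d - X := by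
        have hpos := Nat.one_le_pow d p (Fact.out : p.Prime).pos
        rw [show p ^ d = (p ^ d - 1) + 1 by omega, pow_succ, hc, pow_mul]
        refine ⟨(∑ i ∈ Finset.range c, (X ^ r) ^ i) * X, ?_⟩
        rw [← mul_assoc, mul_geom_sum]
        ring
      exact h1.trans h2
    let φ : (ZMod p)[X] →ₐ[ZMod p] Module.End (ZMod p) V := aeval f
    -- the cyclic subspace of a vector
    let C : V → Submodule (ZMod p) V := fun w =>
      LinearMap.range ((LinearMap.applyₗ w).comp φ.toLinearMap)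
    have hCmem : ∀ w u, u ∈ C w ↔ ∃ P : (ZMod p)[X], aeval f P w = u := fun w u => Iff.rfl
    have hCspan : ∀ w, C w ≤ Submodule.span (ZMod p) (Set.range fun i : Fin μ.natDegree => (f ^ (i : ℕ)) w) := by
      rintro w u ⟨P, rfl⟩
      show aeval f P w ∈ _
      rw [← minpoly.aeval_modByMonic_minpoly P f]
      have hlt : (P %ₘ μ).natDegree < μ.natDegree :=
        Polynomial.natDegree_modByMonic_lt P (minpoly.monic hint) fun e => hμ1 (e ▸ isUnit_one)
      rw [aeval_eq_sum_range' hlt, LinearMap.sum_apply]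
      refine Submodule.sum_mem _ fun i hi => ?_
      rw [LinearMap.smul_apply]
      exact Submodule.smul_mem _ _ (Submodule.subset_span ⟨⟨i, Finset.mem_range.1 hi⟩, rfl⟩)
    have hCle : ∀ w, finrank (ZMod p) (C w) ≤ d := fun w =>
      ((Submodule.finrank_mono (hCspan w)).trans ((finrank_range_le_card _).trans_eq
        (Fintype.card_fin _))).trans hdeg
    have hself : ∀ w, w ∈ C w := fun w => ⟨1, by simp [φ]⟩
    have hlow : ∀ w : V, w ≠ 0 → finrank (ZMod p) (C w) = d := by
      intro w hw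
      have hinv : ∀ u ∈ C w, ρ (z : G) u ∈ C w := by
        rintro u ⟨P, rfl⟩
        exact ⟨X * P, by show aeval f (X * P) w = f (aeval f P w); rw [map_mul, aeval_X]; rfl⟩
      have hm := card_modEq_fixV ρ (by rw [Subgroup.orderOf_coe, hz]) (C w) hinv
      have hfix0 : fixV ρ (z : G) = ⊥ := by
        rw [Submodule.eq_bot_iff]
        intro u hu
        by_contra hu0
        -- an eigenvector for the value one makes `X - 1` the minimal polynomial
        have hfu : f u = u := hu
        have hev : ∀ P : (ZMod p)[X], aeval f P u = P.eval 1 • u := fun P =>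
          Module.End.aeval_apply_of_hasEigenvector (f := f) (μ := (1 : ZMod p)) (x := u)
            ⟨Module.End.mem_eigenspace_iff.2 (by rw [one_smul]; exact hfu), hu0⟩
        have hroot : μ.IsRoot 1 := by
          have := hev μ
          rw [hμ, minpoly.aeval, LinearMap.zero_apply] at this
          exact ((smul_eq_zero.1 this.symm).resolve_right hu0)
        have hass := (irreducible_X_sub_C (1 : ZMod p)).associated_of_dvd hirrμ
          (Polynomial.dvd_iff_isRoot.2 hroot)
        have h0 : f = 1 := by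
          have h2 : aeval f (X - Polynomial.C (1 : ZMod p)) = 0 := by
            obtain ⟨q, hq⟩ := hass.symm.dvd
            rw [hq, map_mul, minpoly.aeval, zero_mul]
          simpa [sub_eq_zero] using h2
        have : z = 1 := Subtype.ext (hρ (by
          rw [OneMemClass.coe_one, map_one]
          exact LinearEquiv.toLinearMap_injective h0))
        rw [this, orderOf_one] at hz
        exact (Fact.out : r.Prime).ne_one hz.symm
      rw [hfix0, inf_bot_eq, Module.natCard_eq_pow_finrank (K := ZMod p) (V := C w), Nat.card_zmod,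
        show Nat.card (⊥ : Submodule (ZMod p) V) = p ^ 0 by rw [pow_zero]; exact Nat.card_unique] at hm
      have hdd := dvd_sub_of_ppd Fact.out hd hr (Nat.zero_le _) hm
      have h0 : finrank (ZMod p) (C w) ≠ 0 := fun e => hw (by
        have := hself w
        rwa [Submodule.finrank_eq_zero.1 e, Submodule.mem_bot] at this)
      exact le_antisymm (hCle w) (Nat.le_of_dvd (by omega) hdd)
    have hCeq : ∀ w u : V, u ∈ C w → u ≠ 0 → C u = C w := fun w u huw hu => by
      refine Submodule.eq_of_le_of_finrank_eq ?_ ?_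
      · rintro _ ⟨P, rfl⟩
        obtain ⟨Q, rfl⟩ := huw
        exact ⟨P * Q, by show aeval f (P * Q) w = aeval f P (aeval f Q w); rw [map_mul]; rfl⟩
      · rw [hlow u hu, hlow w (fun e => hu (by
          obtain ⟨Q, rfl⟩ := huw
          show aeval f Q w = 0
          rw [e, map_zero]))]
    let T := {W : Submodule (ZMod p) V // ∃ w, w ≠ 0 ∧ C w = W}
    haveI : Finite (Submodule (ZMod p) V) := Finite.of_injective _ SetLike.coe_injective
    have hcardT : Nat.card T * (p ^ d - 1) = p ^ (2 * d) - 1 := by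
      let e : {w : V // w ≠ 0} ≃ Σ W : T, {w : (W : Submodule (ZMod p) V) // w ≠ 0} :=
        { toFun := fun w => ⟨⟨C w.1, w.1, w.2, rfl⟩, ⟨⟨w.1, hself w.1⟩, fun h => w.2 (congrArg Subtype.val h)⟩⟩
          invFun := fun s => ⟨s.2.1.1, fun h => s.2.2 (Subtype.ext h)⟩
          left_inv := fun w => rfl
          right_inv := fun ⟨⟨W, w', hw', hW⟩, ⟨⟨u, hu⟩, hu0⟩⟩ => by
            have hu0' : u ≠ 0 := fun h => hu0 (Subtype.ext h)
            obtain rfl : C u = W := (hCeq w' u (hW.symm ▸ hu) hu0').trans hW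
            rfl }
      have h1 : Nat.card {w : V // w ≠ 0} = p ^ (2 * d) - 1 := by
        have := Fintype.ofFinite V
        rw [Nat.card_eq_fintype_card, Fintype.card_subtype_compl, Fintype.card_subtype_eq,
          ← Nat.card_eq_fintype_card, card_V (p := p) (V := V), hn]
      have h2 : ∀ W : T, Nat.card {w : (W : Submodule (ZMod p) V) // w ≠ 0} = p ^ d - 1 := by
        rintro ⟨W, w, hw, rfl⟩
        have := Fintype.ofFinite (C w)
        rw [Nat.card_eq_fintype_card, Fintype.card_subtype_compl, Fintype.card_subtype_eq,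
          ← Nat.card_eq_fintype_card, card_V (p := p) (V := C w), hlow w hw]
      have := Fintype.ofFinite T
      rw [← h1, Nat.card_congr e, Nat.card_sigma, Finset.sum_congr rfl (fun W _ => h2 W),
        Finset.sum_const, Finset.card_univ, smul_eq_mul, Nat.card_eq_fintype_card]
    have hT : Nat.card T = p ^ d + 1 := by
      have hp1 : 1 < p ^ d := Nat.one_lt_pow hd.ne' (Fact.out : p.Prime).one_lt
      apply Nat.eq_of_mul_eq_mul_right (show 0 < p ^ d - 1 by omega)
      rw [hcardT, show p ^ (2 * d) = (p ^ d) ^ 2 by rw [← pow_mul, mul_comm]]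
      obtain ⟨q, hq⟩ : ∃ q, p ^ d = q + 1 := ⟨p ^ d - 1, by omega⟩
      rw [hq, Nat.add_sub_cancel, show (q + 1) ^ 2 = (q + 1 + 1) * q + 1 by ring, Nat.add_sub_cancel]
    have hmap : ∀ (g : R) (w : V), (C w).map (ρ (g : G)).toLinearMap = C (ρ (g : G) w) := by
      intro g w
      ext u
      constructor
      · rintro ⟨_, ⟨P, rfl⟩, rfl⟩
        exact ⟨P, (hpoly P g g.2 w).symm⟩
      · rintro ⟨P, rfl⟩
        exact ⟨aeval f P w, ⟨P, rfl⟩, hpoly P g g.2 w⟩
    letI : MulAction R T :=
      { smul := fun g W => ⟨W.1.map (ρ (g : G)).toLinearMap, by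
          obtain ⟨w, hw, e⟩ := W.2
          exact ⟨ρ (g : G) w, fun h => hw ((ρ (g : G)).map_eq_zero_iff.1 h), by rw [← e, hmap]⟩⟩
        one_smul := fun W => Subtype.ext (by
          show W.1.map (ρ ((1 : R) : G)).toLinearMap = W.1
          rw [OneMemClass.coe_one, map_one]
          exact Submodule.map_id _)
        mul_smul := fun a b W => Subtype.ext (by
          show W.1.map (ρ ((a * b : R) : G)).toLinearMap = (W.1.map (ρ (b : G)).toLinearMap).map (ρ (a : G)).toLinearMap
          rw [← Submodule.map_comp, Subgroup.coe_mul, map_mul]; rfl) }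
    obtain ⟨⟨W, w, hw, rfl⟩, hW⟩ : (MulAction.fixedPoints R T).Nonempty := by
      refine hR.nonempty_fixed_point_of_prime_not_dvd_card T fun h => hr2 ?_
      rw [hT] at h
      have h3 : r ∣ (p ^ d + 1) - (p ^ d - 1) := Nat.dvd_sub h hr.2.1
      rw [show p ^ d + 1 - (p ^ d - 1) = 2 by
        have := Nat.one_le_pow d p (Fact.out : p.Prime).pos; omega] at h3
      exact (Nat.prime_dvd_prime_iff_eq Fact.out Nat.prime_two).1 h3
    refine ⟨C w, fun h => hw ?_, fun h => ?_, fun g hg u hu => ?_⟩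
    · have := hself w
      rwa [h, Submodule.mem_bot] at this
    · have h1 := hlow w hw
      rw [h, finrank_top, hn] at h1
      omega
    · have h1 : (C w).map (ρ g).toLinearMap = C w := congrArg Subtype.val (hW ⟨g, hg⟩)
      rw [← h1]
      exact Submodule.mem_map_of_mem hu

/-- If every orbit length is divisible by the primitive part at `r`, some element has that order. -/
theorem exists_orderOf_ppd {ρ : G →* (V ≃ₗ[ZMod p] V)} (hρ : Function.Injective ρ) {d r k : ℕ}
    [Fact r.Prime] (hd : 0 < d) (hn : finrank (ZMod p) V = 2 * d) (hr : Ppd p d r) (hr2 : r ≠ 2)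
    (hk : k ≠ 0) (hidx : ∀ v : V, v ≠ 0 → r ^ k ∣ (stab ρ v).index) :
    ∃ x : G, orderOf x = r ^ k := by
  classical
  obtain ⟨R⟩ : Nonempty (Sylow r G) := inferInstance
  haveI : Nontrivial V := Module.finrank_pos_iff.1 (by omega : 0 < finrank (ZMod p) V)
  haveI : Nontrivial (R : Subgroup G) := by
    obtain ⟨v, hv⟩ := exists_ne (0 : V)
    refine Subgroup.nontrivial_iff_ne_bot _ |>.2 (R.ne_bot_of_dvd_card ?_)
    exact ((dvd_pow_self r hk).trans (hidx v hv)).trans (Subgroup.index_dvd_card _)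
  obtain ⟨W, hW0, hWt, hW⟩ := exists_proper_invariant hρ hd hn hr hr2 (R : Subgroup G) R.isPGroup'
  let Q : ℕ → Prop := fun j => ∃ U : Submodule (ZMod p) V, U ≠ ⊥ ∧ U ≤ W ∧ finrank (ZMod p) U = j ∧
    ∀ g ∈ (R : Subgroup G), ∀ w ∈ U, ρ g w ∈ U
  have hQ : ∃ j, Q j := ⟨_, W, hW0, le_rfl, rfl, hW⟩
  obtain ⟨U, hU0, hUW, hUj, hU⟩ := Nat.find_spec hQ
  refine exists_orderOf_of_subspace hd hr R hidx hk U hU0 hU (fun U' hU'U hU'0 hU' => ?_) ?_
  · refine Submodule.eq_of_le_of_finrank_le hU'U ?_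
    by_contra hlt
    exact Nat.find_min hQ (hUj ▸ not_le.1 hlt) ⟨U', hU'0, hU'U.trans hUW, rfl, hU'⟩
  · exact (Submodule.finrank_mono hUW).trans_lt (hn ▸ Submodule.finrank_lt hWt)

/-- A long cyclic subgroup forces a nontrivial normal abelian subgroup of the same prime. -/
theorem exists_normal_of_orderOf {ρ : G →* (V ≃ₗ[ZMod p] V)} (hρ : Function.Injective ρ)
    (hcop : ¬ p ∣ Nat.card G) {x : G} {r k : ℕ} [Fact r.Prime] (hx : orderOf x = r ^ k)
    (hbig : 12 ^ finrank (ZMod p) V < r ^ k) :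
    ∃ Y : Subgroup G, Y.Normal ∧ Y ≠ ⊥ ∧ (∀ a ∈ Y, ∀ b ∈ Y, a * b = b * a) ∧ IsPGroup r Y := by
  classical
  obtain ⟨σ, hσ⟩ := exists_rep hρ hcop
  obtain ⟨A, hA, hAab, hAidx⟩ := H25.exists_abelian_normal_uniform_bound σ hσ
  have hcard : Nat.card (Subgroup.zpowers x) = r ^ k := by rw [Nat.card_zpowers, hx]
  have hne : A ⊓ Subgroup.zpowers x ≠ ⊥ := by
    intro hbot
    have h1 := hAidx (Subgroup.zpowers x) fun a ha b hb => by
      obtain ⟨i, rfl⟩ := ha
      obtain ⟨j, rfl⟩ := hb
      exact (Commute.zpow_zpow_self x i j).eq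
    have h2 : A.subgroupOf (Subgroup.zpowers x) = ⊥ := Subgroup.subgroupOf_eq_bot.2 (disjoint_iff.2 hbot)
    rw [h2, Subgroup.index_bot, hcard] at h1
    omega
  let Y : Subgroup G :=
    { carrier := {a | a ∈ A ∧ ∃ j : ℕ, a ^ r ^ j = 1}
      one_mem' := ⟨one_mem A, 0, by simp⟩
      mul_mem' := fun {a b} ⟨ha, i, hi⟩ ⟨hb, j, hj⟩ => ⟨mul_mem ha hb, i + j, by
        rw [(show Commute a b from hAab a ha b hb).mul_pow, pow_add, pow_mul, hi, one_pow, one_mul,
          mul_comm, pow_mul, hj, one_pow]⟩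
      inv_mem' := fun {a} ⟨ha, i, hi⟩ => ⟨inv_mem ha, i, by rw [inv_pow, hi, inv_one]⟩ }
  refine ⟨Y, ⟨fun a ⟨ha, i, hi⟩ g => ⟨hA.conj_mem a ha g, i, by rw [conj_pow, hi, mul_one, mul_inv_cancel]⟩⟩,
    fun hbot => ?_, fun a ha b hb => hAab a ha.1 b hb.1, fun a => ?_⟩
  · obtain ⟨⟨a, ha⟩, hane⟩ := (Subgroup.ne_bot_iff_exists_ne_one).1 hne
    have ha1 : a ≠ 1 := fun e => hane (Subtype.ext e)
    refine ha1 (Subgroup.mem_bot.1 (hbot ▸ (⟨ha.1, k, ?_⟩ : a ∈ Y)))
    obtain ⟨i, rfl⟩ := ha.2
    rw [← hx, ← zpow_natCast, ← zpow_mul, mul_comm, zpow_mul, zpow_natCast, pow_orderOf_eq_one, one_zpow]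
  · obtain ⟨i, hi⟩ := a.2.2
    exact ⟨i, Subtype.ext hi⟩

end Cfsg.Agent.H27.ThreeCl
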