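import Cfsg.Agent.H27.ThreeCl.Defs
import Cfsg.Agent.H45.SelfDual

/-!
Coprime irreducible linear groups with at most two orbits and a normal abelian `r`-subgroup, `r` a
primitive prime divisor for the dimension or for half of it: many conjugacy classes.
-/

set_option autoImplicit false

namespace Cfsg.Agent.H27.ThreeCl

open Module Cfsg.Agent.H45.Trans Polynomial

universe u v

variable {p : ℕ} [Fact p.Prime] {V : Type v} [AddCommGroup V] [Module (ZMod p) V]
  {G : Type u} [Group G]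

/-- The action as endomorphisms. -/
def endHom (ρ : G →* (V ≃ₗ[ZMod p] V)) : G →* Module.End (ZMod p) V where
  toFun g := (ρ g).toLinearMap
  map_one' := by rw [map_one]; rfl
  map_mul' a b := by rw [map_mul]; rfl

@[simp] theorem endHom_apply (ρ : G →* (V ≃ₗ[ZMod p] V)) (g : G) (v : V) : endHom ρ g v = ρ g v := rfl

theorem endHom_injective {ρ : G →* (V ≃ₗ[ZMod p] V)} (hρ : Function.Injective ρ) :
    Function.Injective (endHom ρ) := fun _ _ h => hρ (LinearEquiv.toLinearMap_injective h)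

theorem apply_comm {ρ : G →* (V ≃ₗ[ZMod p] V)} {a b : G} (h : a * b = b * a) (v : V) :
    ρ a (ρ b v) = ρ b (ρ a v) := by
  rw [← LinearEquiv.mul_apply, ← map_mul, h, map_mul, LinearEquiv.mul_apply]

/-! ### Classes and subgroups -/

/-- A subgroup meeting every class in at most `s` elements. -/
theorem card_le_classes_mul [Finite G] (A : Subgroup G) (s : ℕ)
    (h : ∀ a ∈ A, {b : G | b ∈ A ∧ IsConj a b}.ncard ≤ s) :
    Nat.card A ≤ Nat.card (ConjClasses G) * s := by
  classical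
  have := Fintype.ofFinite G
  have h1 : Nat.card A = (Finset.univ.filter fun g : G => g ∈ A).card := by
    rw [Nat.card_eq_fintype_card, Fintype.card_subtype]
  rw [h1, Nat.card_eq_fintype_card, mul_comm, ← Finset.card_univ]
  refine Finset.card_le_mul_card_image_of_maps_to (f := ConjClasses.mk)
    (fun _ _ => Finset.mem_univ _) s fun c _ => ?_
  rcases (Finset.filter (fun a => ConjClasses.mk a = c)
    (Finset.univ.filter fun g : G => g ∈ A)).eq_empty_or_nonempty with h0 | ⟨a, ha⟩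
  · rw [h0]; exact Nat.zero_le _
  · simp only [Finset.mem_filter, Finset.mem_univ, true_and] at ha
    refine le_trans ?_ (h a ha.1)
    rw [← Set.ncard_coe_finset]
    refine Set.ncard_le_ncard (fun b hb => ?_) (Set.toFinite _)
    simp only [Finset.coe_filter, Finset.mem_filter, Finset.mem_univ, true_and, Set.mem_setOf_eq] at hb
    exact ⟨hb.1, ConjClasses.mk_eq_mk_iff_isConj.1 (ha.2.trans hb.2.symm)⟩

/-- A commutative subgroup of index `i` gives `|G| ≤ k(G) i²`. -/
theorem card_le_classes_mul_sq [Finite G] (A : Subgroup G) (hab : ∀ a ∈ A, ∀ b ∈ A, a * b = b * a)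
    {i : ℕ} (hi : A.index ≤ i) : Nat.card G ≤ Nat.card (ConjClasses G) * (i * i) := by
  have hA : Nat.card A ≤ Nat.card (ConjClasses G) * A.index := by
    refine card_le_classes_mul A _ fun a ha => ?_
    refine (Set.ncard_le_ncard (t := {b : G | IsConj a b}) (fun b hb => hb.2) (Set.toFinite _)).trans ?_
    rw [← Nat.card_coe_set_eq, Subgroup.index_eq_card]
    refine Nat.card_le_card_of_surjective (fun q : G ⧸ A => Quotient.liftOn' q
      (fun g => (⟨g * a * g⁻¹, isConj_iff.2 ⟨g, rfl⟩⟩ : {b : G | IsConj a b})) (fun g g' hgg => ?_)) ?_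
    · rw [QuotientGroup.leftRel_apply] at hgg
      have h := hab _ ha _ hgg
      refine Subtype.ext ?_
      calc g * a * g⁻¹ = g * (a * (g⁻¹ * g')) * g'⁻¹ := by group
        _ = g * ((g⁻¹ * g') * a) * g'⁻¹ := by rw [h]
        _ = g' * a * g'⁻¹ := by group
    · rintro ⟨b, hb⟩
      obtain ⟨g, rfl⟩ := isConj_iff.1 hb
      exact ⟨QuotientGroup.mk g, rfl⟩
  calc Nat.card G = Nat.card A * A.index := A.card_mul_index.symm
    _ ≤ Nat.card (ConjClasses G) * A.index * A.index := Nat.mul_le_mul_right _ hA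
    _ ≤ Nat.card (ConjClasses G) * i * i := Nat.mul_le_mul (Nat.mul_le_mul_left _ hi) hi
    _ = _ := mul_assoc _ _ _

/-- If the `H`-conjugates of `y` lie in `S` then `C_H(y)` has index at most `|S|` in `H`. -/
theorem relIndex_centralizer_le [Finite G] (y : G) (H : Subgroup G) (S : Set G)
    (hS : ∀ h ∈ H, h * y * h⁻¹ ∈ S) :
    (Subgroup.centralizer ({y} : Set G)).relIndex H ≤ S.ncard := by
  rw [Subgroup.relIndex, Subgroup.index_eq_card, ← Nat.card_coe_set_eq]
  refine Nat.card_le_card_of_injective (fun q => (⟨q.out.1 * y * q.out.1⁻¹, hS _ q.out.2⟩ : S))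
    fun q q' h => ?_
  have h' : q.out.1 * y * q.out.1⁻¹ = q'.out.1 * y * q'.out.1⁻¹ := congrArg Subtype.val h
  rw [← QuotientGroup.out_eq' q, ← QuotientGroup.out_eq' q', QuotientGroup.eq,
    Subgroup.mem_subgroupOf, Subgroup.mem_centralizer_singleton_iff]
  show q.out.1⁻¹ * q'.out.1 * y = y * (q.out.1⁻¹ * q'.out.1)
  calc q.out.1⁻¹ * q'.out.1 * y = q.out.1⁻¹ * (q'.out.1 * y * q'.out.1⁻¹) * q'.out.1 := by group
    _ = q.out.1⁻¹ * (q.out.1 * y * q.out.1⁻¹) * q'.out.1 := by rw [h']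
    _ = y * (q.out.1⁻¹ * q'.out.1) := by group

theorem index_centralizer_le [Finite G] (y : G) (S : Set G) (hS : ∀ h, h * y * h⁻¹ ∈ S) :
    (Subgroup.centralizer ({y} : Set G)).index ≤ S.ncard := by
  rw [← Subgroup.relIndex_top_right]
  exact relIndex_centralizer_le y ⊤ S fun h _ => hS h

/-! ### Minimal polynomial -/

theorem minpoly_natDegree_le [Finite V] (T : Module.End (ZMod p) V) :
    (minpoly (ZMod p) T).natDegree ≤ finrank (ZMod p) V :=
  (natDegree_le_of_dvd (LinearMap.minpoly_dvd_charpoly T) T.charpoly_monic.ne_zero).trans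
    (LinearMap.charpoly_natDegree T).le

theorem minpoly_dvd_pow [Finite V] (ρ : G →* (V ≃ₗ[ZMod p] V)) {r : ℕ} {y : G} (hy : y ^ r = 1) :
    minpoly (ZMod p) (endHom ρ y) ∣ X ^ r - 1 := by
  refine minpoly.dvd _ _ ?_
  rw [map_sub, map_pow, aeval_X, map_one, ← map_pow, hy, map_one, sub_self]

theorem squarefree_pow_sub_one {r : ℕ} (hr : r.Prime) (hrp : r ≠ p) :
    Squarefree (X ^ r - 1 : (ZMod p)[X]) := by
  have h : (r : ZMod p) ≠ 0 := by
    intro h
    rw [ZMod.natCast_eq_zero_iff] at h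
    exact hrp ((Nat.prime_dvd_prime_iff_eq Fact.out hr).1 h).symm
  rw [← C_1]
  exact (separable_X_pow_sub_C 1 h one_ne_zero).squarefree

/-- An element of order `r` is conjugate to at most as many of its powers as the degree of its
minimal polynomial. -/
theorem ncard_conj_powers_le [Finite G] [Finite V] {ρ : G →* (V ≃ₗ[ZMod p] V)}
    (hρ : Function.Injective ρ) {r : ℕ} (hr : r.Prime) (hrp : r ≠ p) {y : G} (hy : orderOf y = r) :
    {z : G | z ∈ Subgroup.zpowers y ∧ IsConj y z}.ncard ≤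
      (minpoly (ZMod p) (endHom ρ y)).natDegree := by
  classical
  set T := endHom ρ y with hT
  set f := minpoly (ZMod p) T with hf
  have hint : IsIntegral (ZMod p) T := Algebra.IsIntegral.isIntegral T
  have hfd : f ∣ X ^ r - 1 := minpoly_dvd_pow ρ (hy ▸ pow_orderOf_eq_one y)
  have hsq : Squarefree f := (squarefree_pow_sub_one hr hrp).squarefree_of_dvd hfd
  have hX1 : Irreducible (X - C 1 : (ZMod p)[X]) := irreducible_X_sub_C 1
  have hf1 : ¬ f ∣ X - C 1 := by
    intro h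
    have h0 : aeval T (X - C 1 : (ZMod p)[X]) = 0 := aeval_eq_zero_of_dvd_aeval_eq_zero h (minpoly.aeval _ T)
    rw [map_sub, aeval_X, aeval_C, map_one, sub_eq_zero, hT, ← map_one (endHom ρ)] at h0
    rw [endHom_injective hρ h0, orderOf_one] at hy
    exact hr.one_lt.ne hy
  haveI : Nontrivial (Module.End (ZMod p) V) := ⟨⟨T, 1, fun h => by
    rw [hT, ← map_one (endHom ρ)] at h
    rw [endHom_injective hρ h, orderOf_one] at hy
    exact hr.one_lt.ne hy⟩⟩
  obtain ⟨q, hqi, hqf, hq1⟩ : ∃ q, Irreducible q ∧ q ∣ f ∧ ¬ q ∣ X - C 1 := by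
    by_cases hd : (X - C 1) ∣ f
    · obtain ⟨g, hg⟩ := hd
      have hgu : ¬ IsUnit g := fun h => hf1 (by rw [hg]; exact (h.mul_right_dvd).2 dvd_rfl)
      have hg0 : g ≠ 0 := fun h => minpoly.ne_zero hint (by rw [← hf, hg, h, mul_zero])
      obtain ⟨q, hqi, hqg⟩ := WfDvdMonoid.exists_irreducible_factor hgu hg0
      refine ⟨q, hqi, hg ▸ dvd_mul_of_dvd_right hqg _, fun h => ?_⟩
      have : (X - C 1) * (X - C 1) ∣ f :=
        hg ▸ mul_dvd_mul_left _ (((hqi.associated_of_dvd hX1 h).symm.dvd).trans hqg)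
      exact hX1.not_isUnit (hsq _ this)
    · obtain ⟨q, hqi, hqf⟩ := WfDvdMonoid.exists_irreducible_factor
        (minpoly.not_isUnit (ZMod p) T) (minpoly.ne_zero hint)
      exact ⟨q, hqi, hqf, fun h => hd (((hqi.associated_of_dvd hX1 h).symm.dvd).trans hqf)⟩
  haveI : Fact (Irreducible q) := ⟨hqi⟩
  set x : AdjoinRoot q := AdjoinRoot.root q with hx
  have hmk : ∀ g : (ZMod p)[X], q ∣ g → aeval x g = 0 := fun g hg => by
    rw [hx, AdjoinRoot.aeval_eq, AdjoinRoot.mk_eq_zero]; exact hg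
  have hxr : x ^ r = 1 := by
    have := hmk _ (hqf.trans hfd)
    rwa [map_sub, map_pow, aeval_X, map_one, sub_eq_zero] at this
  have hx1 : x ≠ 1 := fun h => hq1 (by
    rw [← AdjoinRoot.mk_eq_zero, map_sub, AdjoinRoot.mk_X, C_1, map_one, ← hx, h, sub_self])
  have hox : orderOf x = r := by
    haveI : Fact r.Prime := ⟨hr⟩
    exact orderOf_eq_prime hxr hx1
  have key : ∀ z ∈ {z : G | z ∈ Subgroup.zpowers y ∧ IsConj y z}, ∃ j : ℕ, y ^ j = z ∧
      x ^ j ∈ (f.aroots (AdjoinRoot q)).toFinset := by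
    rintro z ⟨hz, hc⟩
    obtain ⟨j, hj⟩ := mem_powers_iff_mem_zpowers.2 hz
    refine ⟨j, hj, ?_⟩
    obtain ⟨g, hg⟩ := isConj_iff.1 hc
    have hconj : ∀ P : (ZMod p)[X],
        aeval (endHom ρ z) P * endHom ρ g = endHom ρ g * aeval T P := by
      intro P
      induction P using Polynomial.induction_on with
      | C a => rw [aeval_C, aeval_C]; exact (Algebra.commutes a _)
      | add P Q hP hQ => rw [map_add, map_add, add_mul, mul_add, hP, hQ]
      | monomial k a _ =>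
        have hs : SemiconjBy (endHom ρ g) T (endHom ρ z) := by
          show endHom ρ g * endHom ρ y = endHom ρ z * endHom ρ g
          rw [← map_mul, ← map_mul, ← hg]
          congr 1
          group
        rw [map_mul, map_mul, aeval_C, aeval_C, aeval_X_pow, aeval_X_pow, mul_assoc,
          ← (hs.pow_right (k + 1)).eq, ← mul_assoc, Algebra.commutes, mul_assoc]
    have hz0 : aeval (endHom ρ z) f = 0 := by
      have h := hconj f
      rw [hf, minpoly.aeval, mul_zero] at h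
      have hu : endHom ρ g * endHom ρ g⁻¹ = 1 := by rw [← map_mul, mul_inv_cancel, map_one]
      calc aeval (endHom ρ z) f = aeval (endHom ρ z) f * (endHom ρ g * endHom ρ g⁻¹) := by
            rw [hu, mul_one]
        _ = 0 := by rw [← mul_assoc, h, zero_mul]
    have hdvd : f ∣ f.comp (X ^ j) := by
      refine minpoly.dvd _ _ ?_
      simp only at hj
      rw [aeval_comp, map_pow, aeval_X, hT, ← map_pow, hj, hz0]
    have h0 : aeval (x ^ j) f = 0 := by
      have := hmk _ (hqf.trans hdvd)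
      rwa [aeval_comp, map_pow, aeval_X] at this
    rw [Multiset.mem_toFinset, mem_aroots]
    exact ⟨minpoly.ne_zero hint, h0⟩
  choose! j hj hroot using key
  refine le_trans ?_ ((Multiset.toFinset_card_le _).trans
    ((card_roots' _).trans (natDegree_map_le (f := algebraMap (ZMod p) (AdjoinRoot q)) (p := f))))
  rw [← Set.ncard_coe_finset]
  refine Set.ncard_le_ncard_of_injOn (fun z => x ^ j z) hroot (fun z hz z' hz' h => ?_) (Set.toFinite _)
  rw [← hj z hz, ← hj z' hz']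
  haveI : Fact r.Prime := ⟨hr⟩
  have hpr : IsPrimitiveRoot x r := hox ▸ IsPrimitiveRoot.orderOf x
  have hmod : j z % r = j z' % r := hpr.pow_inj (Nat.mod_lt _ hr.pos) (Nat.mod_lt _ hr.pos) (by
    simp only at h
    rwa [← pow_eq_pow_mod _ hxr, ← pow_eq_pow_mod _ hxr])
  exact pow_eq_pow_iff_modEq.2 (hy ▸ hmod)

/-! ### Invariant subspaces -/

/-- An element of order `r` on an invariant subspace: dimensions. -/
theorem le_fix_or_dim [Finite G] [Finite V] (ρ : G →* (V ≃ₗ[ZMod p] V)) {r m : ℕ} (hr : r.Prime)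
    (hrp : r ≠ p) (hm : ∀ k, 0 < k → k < m → ¬ r ∣ p ^ k - 1) {y : G} (hy : orderOf y = r)
    (W : Submodule (ZMod p) V) (hW : ∀ w ∈ W, ρ y w ∈ W) :
    W ≤ fixV ρ y ∨ finrank (ZMod p) (W ⊓ fixV ρ y : Submodule (ZMod p) V) + m ≤ finrank (ZMod p) W := by
  haveI : Fact r.Prime := ⟨hr⟩
  by_contra! hcon
  obtain ⟨h1, h2⟩ := hcon
  have hlt : finrank (ZMod p) (W ⊓ fixV ρ y : Submodule (ZMod p) V) < finrank (ZMod p) W :=
    Submodule.finrank_lt_finrank_of_lt (lt_of_le_of_ne inf_le_left fun h => h1 (inf_eq_left.1 h))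
  have hmod := card_modEq_fixV ρ hy W hW
  rw [card_V (p := p) (V := W), card_V (p := p) (V := (W ⊓ fixV ρ y : Submodule (ZMod p) V))] at hmod
  set a := finrank (ZMod p) W
  set b := finrank (ZMod p) (W ⊓ fixV ρ y : Submodule (ZMod p) V)
  have hp : p.Prime := Fact.out
  have h3 : r ∣ p ^ b * (p ^ (a - b) - 1) := by
    rw [Nat.mul_sub, ← pow_add, Nat.add_sub_cancel' hlt.le, mul_one]
    exact (Nat.modEq_iff_dvd' (Nat.pow_le_pow_right hp.pos hlt.le)).1 hmod.symm
  rcases hr.dvd_mul.1 h3 with h | h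
  · exact hrp ((Nat.prime_dvd_prime_iff_eq hr hp).1 (hr.dvd_of_dvd_pow h))
  · exact hm (a - b) (by omega) (by omega) h

/-- No proper nonzero invariant subspace inside `W`. -/
def IrrOn (ρ : G →* (V ≃ₗ[ZMod p] V)) (y : G) (W : Submodule (ZMod p) V) : Prop :=
  ∀ U : Submodule (ZMod p) V, U ≤ W → (∀ u ∈ U, ρ y u ∈ U) → U = ⊥ ∨ U = W

theorem irrOn_of_small [Finite G] [Finite V] (ρ : G →* (V ≃ₗ[ZMod p] V)) {r m : ℕ} (hr : r.Prime)
    (hrp : r ≠ p) (hm : ∀ k, 0 < k → k < m → ¬ r ∣ p ^ k - 1) {y : G} (hy : orderOf y = r)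
    {W : Submodule (ZMod p) V} (hW : ∀ w ∈ W, ρ y w ∈ W) (hne : ¬ W ≤ fixV ρ y)
    (hdim : finrank (ZMod p) W ≤ m) :
    finrank (ZMod p) W = m ∧ W ⊓ fixV ρ y = ⊥ ∧ IrrOn ρ y W := by
  have h := (le_fix_or_dim ρ hr hrp hm hy W hW).resolve_left hne
  have h0 : W ⊓ fixV ρ y = ⊥ := Submodule.finrank_eq_zero.1 (by omega)
  refine ⟨by omega, h0, fun U hUW hU => ?_⟩
  rcases le_fix_or_dim ρ hr hrp hm hy U hU with h' | h'
  · exact Or.inl (le_bot_iff.1 (h0 ▸ le_inf hUW h'))
  · exact Or.inr (Submodule.eq_of_le_of_finrank_le hUW (by omega))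

theorem aeval_commute {T f : Module.End (ZMod p) V} (hc : Commute T f) (P : (ZMod p)[X]) :
    Commute (aeval T P) f := by
  induction P using Polynomial.induction_on with
  | C a => rw [aeval_C]; exact Algebra.commute_algebraMap_left a f
  | add P Q hP hQ => rw [map_add]; exact hP.add_left hQ
  | monomial k a ih => rw [pow_succ, ← mul_assoc, map_mul, aeval_X]; exact ih.mul_left hc

theorem aeval_mem {T : Module.End (ZMod p) V} {W : Submodule (ZMod p) V} (hT : ∀ w ∈ W, T w ∈ W)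
    (P : (ZMod p)[X]) : ∀ w ∈ W, aeval T P w ∈ W := by
  induction P using Polynomial.induction_on with
  | C a => intro w hw; rw [aeval_C, Module.algebraMap_end_apply]; exact W.smul_mem a hw
  | add P Q hP hQ =>
    intro w hw; rw [map_add, LinearMap.add_apply]; exact W.add_mem (hP w hw) (hQ w hw)
  | monomial k a ih =>
    intro w hw; rw [pow_succ, ← mul_assoc, map_mul, aeval_X, Module.End.mul_apply]
    exact ih _ (hT w hw)

/-- Endomorphisms commuting with an irreducible element are polynomials in it. -/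
theorem exists_poly {ρ : G →* (V ≃ₗ[ZMod p] V)} {y : G} {W : Submodule (ZMod p) V}
    (hW : ∀ w ∈ W, ρ y w ∈ W) (hirr : IrrOn ρ y W) {f : Module.End (ZMod p) V}
    (hc : Commute (endHom ρ y) f) (hf : ∀ w ∈ W, f w ∈ W) :
    ∃ P : (ZMod p)[X], ∀ w ∈ W, f w = aeval (endHom ρ y) P w := by
  rcases eq_or_ne W ⊥ with rfl | hW0
  · exact ⟨0, fun w hw => by rw [(Submodule.mem_bot _).1 hw, map_zero, map_zero]⟩
  obtain ⟨w₀, hw₀, hw₀0⟩ := Submodule.exists_mem_ne_zero_of_ne_bot hW0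
  set T := endHom ρ y with hT
  let L : (ZMod p)[X] →ₗ[ZMod p] V := (LinearMap.applyₗ w₀).comp (aeval T).toLinearMap
  have hL : ∀ P, L P = aeval T P w₀ := fun P => rfl
  have htop : LinearMap.range L = W := by
    refine (hirr _ ?_ ?_).resolve_left ?_
    · rintro _ ⟨P, rfl⟩
      exact hL P ▸ aeval_mem hW P w₀ hw₀
    · rintro _ ⟨P, rfl⟩
      exact ⟨X * P, by rw [hL, hL, map_mul, aeval_X, Module.End.mul_apply]; rfl⟩
    · intro h
      have : w₀ ∈ LinearMap.range L := ⟨1, by rw [hL, map_one]; rfl⟩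
      rw [h] at this
      exact hw₀0 ((Submodule.mem_bot _).1 this)
  obtain ⟨P, hP⟩ : f w₀ ∈ LinearMap.range L := htop ▸ hf w₀ hw₀
  refine ⟨P, fun w hw => ?_⟩
  have hU : W ⊓ LinearMap.ker (f - aeval T P) = W := by
    refine (hirr _ inf_le_left fun u hu => ⟨hW u hu.1, ?_⟩).resolve_left ?_
    · have h : Commute T (f - aeval T P) :=
        hc.sub_right (aeval_commute (Commute.refl T) P).symm
      rw [SetLike.mem_coe, LinearMap.mem_ker]
      show (f - aeval T P) (T u) = 0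
      rw [← Module.End.mul_apply, ← h.eq, Module.End.mul_apply, LinearMap.mem_ker.1 hu.2, map_zero]
    · intro h
      have : w₀ ∈ W ⊓ LinearMap.ker (f - aeval T P) :=
        ⟨hw₀, by rw [SetLike.mem_coe, LinearMap.mem_ker, LinearMap.sub_apply, ← hP, hL, sub_self]⟩
      rw [h] at this
      exact hw₀0 ((Submodule.mem_bot _).1 this)
  have := ((inf_eq_left.1 hU) hw)
  rwa [LinearMap.mem_ker, LinearMap.sub_apply, sub_eq_zero] at this

/-- Elements commuting with an irreducible element commute on the subspace. -/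
theorem comm_on {ρ : G →* (V ≃ₗ[ZMod p] V)} {y : G} {W : Submodule (ZMod p) V}
    (hW : ∀ w ∈ W, ρ y w ∈ W) (hirr : IrrOn ρ y W) {a b : G} (ha : a * y = y * a)
    (hb : b * y = y * b) (haW : ∀ w ∈ W, ρ a w ∈ W) (hbW : ∀ w ∈ W, ρ b w ∈ W) :
    ∀ w ∈ W, ρ a (ρ b w) = ρ b (ρ a w) := by
  intro w hw
  have hca : Commute (endHom ρ y) (endHom ρ a) := by
    show _ * _ = _ * _
    rw [← map_mul, ← map_mul, ha]
  have hcb : Commute (endHom ρ y) (endHom ρ b) := by
    show _ * _ = _ * _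
    rw [← map_mul, ← map_mul, hb]
  obtain ⟨P, hP⟩ := exists_poly hW hirr hcb hbW
  have h := LinearMap.congr_fun (aeval_commute hca P).eq w
  have e1 : ρ b w = aeval (endHom ρ y) P w := hP w hw
  have e2 : ρ b (ρ a w) = aeval (endHom ρ y) P (ρ a w) := hP _ (haW w hw)
  rw [e1, e2]
  exact h.symm

theorem eq_of_sup {ρ : G →* (V ≃ₗ[ZMod p] V)} (hρ : Function.Injective ρ) {a b : G}
    {W W' : Submodule (ZMod p) V} (hs : W ⊔ W' = ⊤) (h : ∀ w ∈ W, ρ a w = ρ b w)
    (h' : ∀ w ∈ W', ρ a w = ρ b w) : a = b := by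
  refine hρ (LinearEquiv.ext fun v => ?_)
  have hv : v ∈ W ⊔ W' := hs ▸ Submodule.mem_top
  obtain ⟨w, hw, w', hw', rfl⟩ := Submodule.mem_sup.1 hv
  rw [map_add, map_add, h w hw, h' w' hw']

theorem comm_of_two {ρ : G →* (V ≃ₗ[ZMod p] V)} (hρ : Function.Injective ρ)
    {W W' : Submodule (ZMod p) V} (hs : W ⊔ W' = ⊤) {y y' : G} (hy : ∀ w ∈ W, ρ y w ∈ W)
    (hy' : ∀ w ∈ W', ρ y' w ∈ W') (hirr : IrrOn ρ y W) (hirr' : IrrOn ρ y' W') {a b : G}
    (ha : a * y = y * a) (hb : b * y = y * b) (ha' : a * y' = y' * a) (hb' : b * y' = y' * b)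
    (haW : ∀ w ∈ W, ρ a w ∈ W) (hbW : ∀ w ∈ W, ρ b w ∈ W) (haW' : ∀ w ∈ W', ρ a w ∈ W')
    (hbW' : ∀ w ∈ W', ρ b w ∈ W') : a * b = b * a := by
  refine eq_of_sup hρ hs (fun w hw => ?_) (fun w hw => ?_) <;>
    rw [map_mul, map_mul, LinearEquiv.mul_apply, LinearEquiv.mul_apply]
  · exact comm_on hy hirr ha hb haW hbW w hw
  · exact comm_on hy' hirr' ha' hb' haW' hbW' w hw

/-- Two commuting elements of exponent `r` cannot both act semiregularly. -/
theorem exists_fixed_combination (ρ : G →* (V ≃ₗ[ZMod p] V)) {r : ℕ} (hr : r.Prime)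
    (hrp : r ≠ p) {y z : G} (hy : y ^ r = 1) (hz : z ^ r = 1) (hyz : y * z = z * y)
    {W : Submodule (ZMod p) V} (hW : W ≠ ⊥) (hyW : ∀ w ∈ W, ρ y w ∈ W) (hzW : ∀ w ∈ W, ρ z w ∈ W) :
    (∃ w ∈ W, w ≠ 0 ∧ ρ z w = w) ∨ ∃ i : ℕ, ∃ w ∈ W, w ≠ 0 ∧ ρ (y * z ^ i) w = w := by
  by_contra! hcon
  obtain ⟨h1, h2⟩ := hcon
  obtain ⟨w, hw, hw0⟩ := Submodule.exists_mem_ne_zero_of_ne_bot hW
  have hpow : ∀ (x : G), (∀ u ∈ W, ρ x u ∈ W) → ∀ (k : ℕ), ∀ u ∈ W, ρ (x ^ k) u ∈ W := by
    intro x hx k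
    induction k with
    | zero => intro u hu; simpa using hu
    | succ k ih =>
      intro u hu
      rw [pow_succ, map_mul, LinearEquiv.mul_apply]
      exact ih _ (hx u hu)
  have hsum : ∀ (x : G), x ^ r = 1 → (∀ u ∈ W, ρ x u ∈ W) → (∀ u ∈ W, u ≠ 0 → ρ x u ≠ u) →
      ∀ u ∈ W, ∑ j ∈ Finset.range r, ρ (x ^ j) u = 0 := by
    intro x hx hxW hfree u hu
    by_contra hne
    refine hfree _ (W.sum_mem fun j _ => hpow x hxW j u hu) hne ?_
    have e := Finset.sum_range_succ' (fun j => ρ (x ^ j) u) r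
    rw [Finset.sum_range_succ] at e
    simp only [hx, pow_zero, map_one] at e
    rw [map_sum]
    calc ∑ j ∈ Finset.range r, ρ x (ρ (x ^ j) u)
        = ∑ j ∈ Finset.range r, ρ (x ^ (j + 1)) u := Finset.sum_congr rfl fun j _ => by
          rw [pow_succ', map_mul, LinearEquiv.mul_apply]
      _ = ∑ j ∈ Finset.range r, ρ (x ^ j) u := (add_right_cancel e).symm
  have hcomm : Commute y z := hyz
  have hA : ∀ i : ℕ, ∑ j ∈ Finset.range r, ρ ((y * z ^ i) ^ j) w = 0 := fun i => by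
    refine hsum _ ?_ (fun u hu => ?_) (h2 i) w hw
    · rw [(hcomm.pow_right i).mul_pow, hy, ← pow_mul, mul_comm i r, pow_mul, hz, one_pow, one_mul]
    · rw [map_mul, LinearEquiv.mul_apply]; exact hyW _ (hpow z hzW i u hu)
  have hB : ∀ j, 0 < j → j < r → ∑ i ∈ Finset.range r, ρ ((z ^ j) ^ i) w = 0 := by
    intro j hj0 hjr
    refine hsum _ (by rw [← pow_mul, mul_comm, pow_mul, hz, one_pow]) (hpow z hzW j)
      (fun u hu hu0 hfix => ?_) w hw
    have hco : Nat.Coprime j r := ((hr.coprime_iff_not_dvd).2 fun h => absurd (Nat.le_of_dvd hj0 h) (by omega)).symm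
    have hz' : ∀ k : ℕ, ρ ((z ^ j) ^ k) u = u := by
      intro k
      induction k with
      | zero => simp
      | succ k ih => rw [pow_succ, map_mul, LinearEquiv.mul_apply, hfix, ih]
    obtain ⟨k, hk⟩ := Nat.exists_mul_mod_eq_one_of_coprime hco hr.one_lt
    refine h1 u hu hu0 ?_
    have := hz' k
    rwa [← pow_mul, pow_eq_pow_mod _ hz, hk.2, pow_one] at this
  have hzero : ∑ i ∈ Finset.range r, ∑ j ∈ Finset.range r, ρ ((y * z ^ i) ^ j) w = 0 :=
    Finset.sum_eq_zero fun i _ => hA i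
  rw [Finset.sum_comm, Finset.sum_eq_single 0] at hzero
  · simp only [pow_zero, map_one, Finset.sum_const, Finset.card_range] at hzero
    rw [← Nat.cast_smul_eq_nsmul (ZMod p)] at hzero
    rcases smul_eq_zero.1 hzero with h | h
    · rw [ZMod.natCast_eq_zero_iff] at h
      exact hrp ((Nat.prime_dvd_prime_iff_eq Fact.out hr).1 h).symm
    · exact hw0 h
  · intro j hj hj0
    have : ∀ i : ℕ, ρ ((y * z ^ i) ^ j) w = ρ (y ^ j) (ρ ((z ^ j) ^ i) w) := fun i => by
      rw [(hcomm.pow_right i).mul_pow, ← pow_mul, mul_comm i j, pow_mul, map_mul, LinearEquiv.mul_apply]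
    rw [Finset.sum_congr rfl fun i _ => this i, ← map_sum,
      hB j (Nat.pos_of_ne_zero hj0) (Finset.mem_range.1 hj), map_zero]
  · intro h; exact absurd (Finset.mem_range.2 hr.pos) h

/-- An element of exponent `r` agreeing with a power of `y` on both parts is such a power. -/
theorem mem_zpowers_of_parts [Finite G] [Finite V] {ρ : G →* (V ≃ₗ[ZMod p] V)}
    (hρ : Function.Injective ρ) {r : ℕ} (hr : r.Prime) (hrp : r ≠ p)
    {U W : Submodule (ZMod p) V} (hs : U ⊔ W = ⊤) (hW0 : W ≠ ⊥) {y z : G} (hy : y ^ r = 1)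
    (hz : z ^ r = 1) (hyz : z * y = y * z) (hyU : ∀ u ∈ U, ρ y u = u) (hzU : ∀ u ∈ U, ρ z u = u)
    (hyW : ∀ w ∈ W, ρ y w ∈ W) (hzW : ∀ w ∈ W, ρ z w ∈ W) (hirr : IrrOn ρ y W)
    (hfree : ∀ w ∈ W, ρ y w = w → w = 0) : z ∈ Subgroup.zpowers y := by
  rcases exists_fixed_combination ρ hr hrp hz hy hyz hW0 hzW hyW with ⟨w, hw, hw0, hfix⟩ |
    ⟨i, w, hw, hw0, hfix⟩
  · exact absurd (hfree w hw hfix) hw0
  have hc : y * (z * y ^ i) = (z * y ^ i) * y := by
    rw [← mul_assoc, ← hyz, mul_assoc, ← pow_succ', pow_succ, mul_assoc]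
  have hWfix : W ⊓ fixV ρ (z * y ^ i) = W :=
    (hirr _ inf_le_left fun u hu => ⟨hyW u hu.1, map_fixV_mem hc.symm hu.2⟩).resolve_left fun h => by
      have : w ∈ W ⊓ fixV ρ (z * y ^ i) := ⟨hw, hfix⟩
      rw [h] at this
      exact hw0 ((Submodule.mem_bot _).1 this)
  have hyUi : ∀ (k : ℕ), ∀ u ∈ U, ρ (y ^ k) u = u := by
    intro k
    induction k with
    | zero => intro u _; simp
    | succ k ih => intro u hu; rw [pow_succ, map_mul, LinearEquiv.mul_apply, hyU u hu, ih u hu]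
  have h1 : z * y ^ i = 1 := by
    refine eq_of_sup hρ hs (fun u hu => ?_) (fun u hu => ?_) <;> rw [map_one]
    · rw [map_mul, LinearEquiv.mul_apply, hyUi i u hu, hzU u hu]; rfl
    · exact (inf_eq_left.1 hWfix) hu
  exact (eq_inv_of_mul_eq_one_left h1) ▸ inv_mem (Subgroup.pow_mem _ (Subgroup.mem_zpowers y) i)

theorem pow_bound {p m : ℕ} (hp : 7 ≤ p) (hm : 3 ≤ m) :
    64 * m ^ 4 < p ^ (2 * m - 1) ∧ 4 * m ^ 2 < p ^ (m - 1) := by
  induction m, hm using Nat.le_induction with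
  | base =>
    refine ⟨lt_of_lt_of_le ?_ (Nat.pow_le_pow_left hp _), lt_of_lt_of_le ?_ (Nat.pow_le_pow_left hp _)⟩ <;>
      norm_num
  | succ n hn ih =>
    obtain ⟨h1, h2⟩ := ih
    constructor
    · rw [show 2 * (n + 1) - 1 = (2 * n - 1) + 2 by omega, pow_add]
      have hp2 : 49 ≤ p ^ 2 := by nlinarith
      have : 64 * (n + 1) ^ 4 ≤ 64 * (2 * n) ^ 4 :=
        Nat.mul_le_mul_left _ (Nat.pow_le_pow_left (by omega) _)
      calc 64 * (n + 1) ^ 4 ≤ 64 * (2 * n) ^ 4 := this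
        _ = 16 * (64 * n ^ 4) := by ring
        _ < 16 * p ^ (2 * n - 1) := Nat.mul_lt_mul_of_pos_left h1 (by norm_num)
        _ ≤ p ^ 2 * p ^ (2 * n - 1) := Nat.mul_le_mul_right _ (by omega)
        _ = p ^ (2 * n - 1) * p ^ 2 := mul_comm _ _
    · rw [show n + 1 - 1 = (n - 1) + 1 by omega, pow_succ]
      calc 4 * (n + 1) ^ 2 ≤ 4 * (2 * n) ^ 2 := Nat.mul_le_mul_left _ (Nat.pow_le_pow_left (by omega) _)
        _ = 4 * (4 * n ^ 2) := by ring
        _ < 4 * p ^ (n - 1) := Nat.mul_lt_mul_of_pos_left h2 (by norm_num)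
        _ ≤ p * p ^ (n - 1) := Nat.mul_le_mul_right _ (by omega)
        _ = p ^ (n - 1) * p := mul_comm _ _

/-- The final comparison. -/
theorem final_le {p N k B : ℕ} (hp : 2 ≤ p) (hN : 1 ≤ N) (h : p ^ N - 1 ≤ 2 * k * B)
    (hB : B < p ^ (N - 1)) : p - 1 < 2 * k := by
  by_contra! hle
  have h1 : p ^ N - 1 ≤ (p - 1) * B := h.trans (Nat.mul_le_mul_right _ hle)
  have h2 : (p - 1) * B < (p - 1) * p ^ (N - 1) := Nat.mul_lt_mul_of_pos_left hB (by omega)
  have h3 : (p - 1) * p ^ (N - 1) ≤ p ^ N - 1 := by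
    rw [Nat.sub_mul, ← pow_succ', show N - 1 + 1 = N by omega, one_mul]
    have := Nat.one_le_pow (N - 1) p (by omega)
    omega
  omega

theorem exists_orderOf [Finite G] {r : ℕ} (hr : r.Prime) (Y : Subgroup G) (hne : Y ≠ ⊥)
    (hYr : IsPGroup r Y) : ∃ y ∈ Y, orderOf y = r := by
  haveI : Fact r.Prime := ⟨hr⟩
  haveI : Nontrivial Y := (Subgroup.nontrivial_iff_ne_bot Y).2 hne
  obtain ⟨n, hn0, hn⟩ := hYr.nontrivial_iff_card.1 inferInstance
  obtain ⟨y, hy⟩ := exists_prime_orderOf_dvd_card' r (hn ▸ dvd_pow_self r hn0.ne' : r ∣ Nat.card Y)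
  exact ⟨y, y.2, (Subgroup.orderOf_coe y).trans hy⟩

theorem orderOf_of_pow {r : ℕ} (hr : r.Prime) {x : G} (hx : x ^ r = 1) (hx1 : x ≠ 1) :
    orderOf x = r := by
  haveI : Fact r.Prime := ⟨hr⟩
  exact orderOf_eq_prime hx hx1

theorem ppd_ne {n r : ℕ} (hn : 0 < n) (hr : Ppd p n r) : r ≠ p := by
  intro h
  subst h
  have h1 : r ∣ r ^ n := dvd_pow_self r hn.ne'
  have h2 := Nat.dvd_sub h1 hr.2.1
  rw [Nat.sub_sub_self (Nat.one_le_pow _ _ hr.1.pos)] at h2
  exact hr.1.one_lt.ne' (Nat.dvd_one.1 h2)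

/-- Semilinear groups. -/
theorem semilinear_count [Finite G] [Finite V] {ρ : G →* (V ≃ₗ[ZMod p] V)} (H : Hyp2 ρ) (h7 : 7 ≤ p)
    {r : ℕ} (hn : 3 ≤ finrank (ZMod p) V) (hr : Ppd p (finrank (ZMod p) V) r) (Y : Subgroup G)
    (hY : Y.Normal) (hne : Y ≠ ⊥) (hab : ∀ a ∈ Y, ∀ b ∈ Y, a * b = b * a) (hYr : IsPGroup r Y) :
    p - 1 < 2 * Nat.card (ConjClasses G) := by
  set n := finrank (ZMod p) V with hndef
  haveI : Fact r.Prime := ⟨hr.1⟩
  have hrp : r ≠ p := ppd_ne (by omega) hr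
  haveI : Nontrivial V := Module.finrank_pos_iff.1 (show 0 < finrank (ZMod p) V by omega)
  obtain ⟨y, hyY, hy⟩ := exists_orderOf hr.1 Y hne hYr
  obtain ⟨hsr, hirr⟩ := irreducible_of_primitive H.inj hrp hr.2.2 hy
  set A := Subgroup.centralizer ({y} : Set G)
  have hA : ∀ a ∈ A, ∀ b ∈ A, a * b = b * a := fun a ha b hb =>
    commute_of_irreducible H.inj hirr (Subgroup.mem_centralizer_singleton_iff.1 ha)
      (Subgroup.mem_centralizer_singleton_iff.1 hb)
  have hidx : A.index ≤ n := by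
    refine le_trans ?_ ((ncard_conj_powers_le H.inj hr.1 hrp hy).trans (minpoly_natDegree_le _))
    refine index_centralizer_le y _ fun g => ⟨?_, isConj_iff.2 ⟨g, rfl⟩⟩
    have hzY : g * y * g⁻¹ ∈ Y := hY.conj_mem y hyY g
    have hzy := hab _ hzY _ hyY
    have hzr : (g * y * g⁻¹) ^ r = 1 := by rw [conj_pow, ← hy, pow_orderOf_eq_one, mul_one, mul_inv_cancel]
    refine mem_zpowers_of_parts H.inj hr.1 hrp (U := ⊥) (W := ⊤) (bot_sup_eq _) top_ne_bot
      (hy ▸ pow_orderOf_eq_one y) hzr hzy (fun u hu => by rw [(Submodule.mem_bot _).1 hu, map_zero])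
      (fun u hu => by rw [(Submodule.mem_bot _).1 hu, map_zero]) (fun _ _ => trivial) (fun _ _ => trivial)
      (fun U _ hU => hirr U hU) fun w _ hw => hsr w hw
  have hG := card_le_classes_mul_sq A hA hidx
  refine final_le (N := n) (B := n * n) (by omega) (by omega) ?_ ?_
  · exact H.card_le.trans (by rw [mul_assoc]; exact Nat.mul_le_mul_left 2 hG)
  · exact lt_of_le_of_lt (by rw [sq]; exact Nat.le_mul_of_pos_left _ (by norm_num))
      (pow_bound h7 hn).2

/-- The case with an element fixing a nonzero vector. -/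
theorem count_fixing [Finite G] [Finite V] {ρ : G →* (V ≃ₗ[ZMod p] V)} (H : Hyp2 ρ)
    {m r : ℕ} (hm3 : 3 ≤ m) (hn : finrank (ZMod p) V = 2 * m) (hr : Ppd p m r) (Y : Subgroup G)
    (hY : Y.Normal) (hab : ∀ a ∈ Y, ∀ b ∈ Y, a * b = b * a) {y₁ : G} (hy₁Y : y₁ ∈ Y)
    (hy₁ : orderOf y₁ = r) (hfix : fixV ρ y₁ ≠ ⊥) :
    Nat.card G ≤ Nat.card (ConjClasses G) * (64 * m ^ 4) := by
  have hrp : r ≠ p := ppd_ne (by omega) hr
  have hy₁r : y₁ ^ r = 1 := hy₁ ▸ pow_orderOf_eq_one y₁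
  have hy₁1 : y₁ ≠ 1 := fun h => hr.1.one_lt.ne' (by rw [← hy₁, h, orderOf_one])
  set U := fixV ρ y₁ with hU
  have hUtop : U ≠ ⊤ := fun h => hy₁1 (H.inj (by
    rw [map_one]; exact LinearEquiv.ext fun v => mem_fixV.1 (by rw [← hU, h]; trivial : v ∈ fixV ρ y₁)))
  have hu : finrank (ZMod p) U ≤ m := by
    rcases le_fix_or_dim ρ hr.1 hrp hr.2.2 hy₁ ⊤ (fun _ _ => trivial) with h | h
    · exact absurd (top_le_iff.1 h) hUtop
    · rw [top_inf_eq, finrank_top, hn] at h
      change finrank (ZMod p) U + m ≤ 2 * m at h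
      omega
  obtain ⟨x, hxY, hxr, hxU⟩ : ∃ x ∈ Y, x ^ r = 1 ∧ ¬ U ≤ fixV ρ x := by
    by_contra! hcon
    let F : Submodule (ZMod p) V := ⨅ x : {x : G // x ∈ Y ∧ x ^ r = 1}, fixV ρ x.1
    have hUF : U ≤ F := le_iInf fun x => hcon x.1 x.2.1 x.2.2
    have hF : ∀ g, ∀ v ∈ F, ρ g v ∈ F := by
      intro g v hv
      simp only [F, Submodule.mem_iInf] at hv ⊢
      intro x
      have hx' := hv ⟨g⁻¹ * x.1 * g, by simpa using hY.conj_mem x.1 x.2.1 g⁻¹, by
        have := conj_pow (a := g⁻¹) (b := x.1) (i := r)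
        rwa [x.2.2, mul_one, inv_inv, inv_mul_cancel] at this⟩
      rw [mem_fixV] at hx' ⊢
      calc ρ x.1 (ρ g v) = ρ g (ρ (g⁻¹ * x.1 * g) v) := by
            simp only [← LinearEquiv.mul_apply, ← map_mul]; group
        _ = ρ g v := by rw [hx']
    rcases H.irr F hF with h | h
    · exact hfix (le_bot_iff.1 (h ▸ hUF))
    · exact hUtop (top_le_iff.1 (h ▸ iInf_le (fun x : {x : G // x ∈ Y ∧ x ^ r = 1} => fixV ρ x.1) ⟨y₁, hy₁Y, hy₁r⟩))
  have hx1 : x ≠ 1 := fun h => hxU (fun v _ => mem_fixV.2 (by rw [h, map_one]; rfl))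
  have hxy : x * y₁ = y₁ * x := hab x hxY y₁ hy₁Y
  have hUx : ∀ w ∈ U, ρ x w ∈ U := fun w hw => map_fixV_mem hxy.symm hw
  obtain ⟨hum, -, -⟩ := irrOn_of_small ρ hr.1 hrp hr.2.2 (orderOf_of_pow hr.1 hxr hx1) hUx hxU hu
  set U2 := LinearMap.range (endHom ρ y₁ - 1) with hU2
  have hU2inv : ∀ a : G, a * y₁ = y₁ * a → ∀ w ∈ U2, ρ a w ∈ U2 := by
    rintro a ha _ ⟨v, rfl⟩
    refine ⟨ρ a v, ?_⟩
    show ρ y₁ (ρ a v) - ρ a v = ρ a (ρ y₁ v - v)
    rw [map_sub, apply_comm ha]
  have hker : LinearMap.ker (endHom ρ y₁ - 1) = U := by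
    ext v
    rw [LinearMap.mem_ker, LinearMap.sub_apply, sub_eq_zero, hU, mem_fixV]
    rfl
  have hU2dim : finrank (ZMod p) U2 = m := by
    have := LinearMap.finrank_range_add_finrank_ker (endHom ρ y₁ - 1)
    rw [hker, hum, hn] at this
    change finrank (ZMod p) U2 + m = 2 * m at this
    omega
  have hdis : U ⊓ U2 = ⊥ := by
    rw [Submodule.eq_bot_iff]
    rintro v ⟨hv, w, rfl⟩
    set d := (endHom ρ y₁ - 1) w with hd
    have hk : ∀ k : ℕ, ρ (y₁ ^ k) w = w + k • d := by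
      intro k
      induction k with
      | zero => simp
      | succ k ih =>
        rw [pow_succ', map_mul, LinearEquiv.mul_apply, ih, map_add, map_nsmul, mem_fixV.1 hv,
          add_smul, one_smul]
        have : ρ y₁ w = w + d := by rw [hd, LinearMap.sub_apply]; simp
        rw [this]; abel
    have h := hk r
    rw [hy₁r, map_one, ← Nat.cast_smul_eq_nsmul (ZMod p)] at h
    have h' : (r : ZMod p) • d = 0 := by simpa using h
    refine (smul_eq_zero.1 h').resolve_left fun h0 => ?_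
    rw [ZMod.natCast_eq_zero_iff] at h0
    exact hrp ((Nat.prime_dvd_prime_iff_eq Fact.out hr.1).1 h0).symm
  have hs : U ⊔ U2 = ⊤ := by
    refine Submodule.eq_top_of_finrank_eq ?_
    have := Submodule.finrank_sup_add_finrank_inf_eq U U2
    rw [hdis, finrank_bot, hum, hU2dim] at this
    omega
  have hU20 : U2 ≠ ⊥ := fun h => by rw [h, finrank_bot] at hU2dim; omega
  have hy₁U2 : ∀ w ∈ U2, ρ y₁ w = w → w = 0 := fun w hw h => by
    have : w ∈ U ⊓ U2 := ⟨mem_fixV.2 h, hw⟩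
    rwa [hdis, Submodule.mem_bot] at this
  have hirr2 : IrrOn ρ y₁ U2 := by
    refine (irrOn_of_small ρ hr.1 hrp hr.2.2 hy₁ (hU2inv y₁ rfl) (fun h => hU20 ?_) hU2dim.le).2.2
    exact (Submodule.eq_bot_iff _).2 fun w hw => hy₁U2 w hw (h hw)
  obtain ⟨y₂, hy₂Y, hy₂r, hy₂U2, hy₂U⟩ : ∃ y₂ ∈ Y, y₂ ^ r = 1 ∧
      (∀ w ∈ U2, ρ y₂ w = w) ∧ ¬ U ≤ fixV ρ y₂ := by
    rcases exists_fixed_combination ρ hr.1 hrp hxr hy₁r hxy hU20 (hU2inv x hxy) (hU2inv y₁ rfl)
      with ⟨w, hw, hw0, h⟩ | ⟨i, w, hw, hw0, h⟩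
    · exact absurd (hy₁U2 w hw h) hw0
    have hmem : x * y₁ ^ i ∈ Y := Y.mul_mem hxY (Y.pow_mem hy₁Y i)
    refine ⟨_, hmem, ?_, fun u hu => ?_, fun hle => hxU fun u hu => ?_⟩
    · rw [((show Commute x y₁ from hxy).pow_right i).mul_pow, hxr, one_mul, ← pow_mul, mul_comm,
        pow_mul, hy₁r, one_pow]
    · have hcy : (x * y₁ ^ i) * y₁ = y₁ * (x * y₁ ^ i) := hab _ hmem _ hy₁Y
      have := (hirr2 (U2 ⊓ fixV ρ (x * y₁ ^ i)) inf_le_left fun v hv =>
        ⟨hU2inv y₁ rfl v hv.1, map_fixV_mem hcy hv.2⟩).resolve_left fun e => by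
          have : w ∈ U2 ⊓ fixV ρ (x * y₁ ^ i) := ⟨hw, h⟩
          rw [e] at this
          exact hw0 ((Submodule.mem_bot _).1 this)
      exact mem_fixV.1 ((inf_eq_left.1 this) hu)
    · have h1 := mem_fixV.1 (hle hu)
      rw [map_mul, LinearEquiv.mul_apply] at h1
      have hfixi : ∀ k : ℕ, ρ (y₁ ^ k) u = u := by
        intro k
        induction k with
        | zero => simp
        | succ k ih => rw [pow_succ, map_mul, LinearEquiv.mul_apply, mem_fixV.1 hu, ih]
      rw [hfixi] at h1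
      exact mem_fixV.2 h1
  have hy₂1 : y₂ ≠ 1 := fun h => hy₂U (fun v _ => mem_fixV.2 (by rw [h, map_one]; rfl))
  have hy₂o : orderOf y₂ = r := orderOf_of_pow hr.1 hy₂r hy₂1
  have hy21 : y₂ * y₁ = y₁ * y₂ := hab _ hy₂Y _ hy₁Y
  have hy₂inv : ∀ w ∈ U, ρ y₂ w ∈ U := fun w hw => map_fixV_mem hy21.symm hw
  obtain ⟨-, hy₂free, hirr1⟩ := irrOn_of_small ρ hr.1 hrp hr.2.2 hy₂o hy₂inv hy₂U hum.le
  have hU0 : U ≠ ⊥ := hfix
  have hmem1 : ∀ z ∈ Y, z ^ r = 1 → (∀ u ∈ U, ρ z u = u) → z ∈ Subgroup.zpowers y₁ :=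
    fun z hz hzr hzU => mem_zpowers_of_parts H.inj hr.1 hrp hs hU20 hy₁r hzr (hab z hz y₁ hy₁Y)
      (fun u hu => mem_fixV.1 hu) hzU (hU2inv y₁ rfl) (hU2inv z (hab z hz y₁ hy₁Y)) hirr2 hy₁U2
  have hmem2 : ∀ z ∈ Y, z ^ r = 1 → (∀ u ∈ U2, ρ z u = u) → z ∈ Subgroup.zpowers y₂ :=
    fun z hz hzr hzU => mem_zpowers_of_parts H.inj hr.1 hrp (sup_comm U U2 ▸ hs) hU0 hy₂r hzr
      (hab z hz y₂ hy₂Y) hy₂U2 hzU hy₂inv
      (fun w hw => map_fixV_mem (hab z hz y₁ hy₁Y).symm hw) hirr1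
      (fun w hw h => by
        have : w ∈ U ⊓ fixV ρ y₂ := ⟨hw, h⟩
        rwa [hy₂free, Submodule.mem_bot] at this)
  have hdeg : ∀ z : G, orderOf z = r →
      {z' : G | z' ∈ Subgroup.zpowers z ∧ IsConj z z'}.ncard ≤ 2 * m := fun z hz =>
    hn ▸ (ncard_conj_powers_le H.inj hr.1 hrp hz).trans (minpoly_natDegree_le _)
  have hC1 : (Subgroup.centralizer ({y₁} : Set G)).index ≤ 4 * m := by
    refine (index_centralizer_le y₁ ({z | z ∈ Subgroup.zpowers y₁ ∧ IsConj y₁ z} ∪
      {z | z ∈ Subgroup.zpowers y₂ ∧ IsConj y₁ z}) fun g => ?_).trans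
      ((Set.ncard_union_le _ _).trans ?_)
    · set z := g * y₁ * g⁻¹ with hz
      have hc : IsConj y₁ z := isConj_iff.2 ⟨g, rfl⟩
      have hzY : z ∈ Y := hY.conj_mem y₁ hy₁Y g
      have hzr : z ^ r = 1 := by rw [hz, conj_pow, hy₁r, mul_one, mul_inv_cancel]
      by_cases h1 : ∀ u ∈ U, ρ z u = u
      · exact Or.inl ⟨hmem1 z hzY hzr h1, hc⟩
      by_cases h2 : ∀ u ∈ U2, ρ z u = u
      · exact Or.inr ⟨hmem2 z hzY hzr h2, hc⟩
      exfalso
      obtain ⟨u₀, hu₀, hu₀0⟩ := Submodule.exists_mem_ne_zero_of_ne_bot hfix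
      have hzv : ρ z (ρ g u₀) = ρ g u₀ := by
        rw [hz]
        calc ρ (g * y₁ * g⁻¹) (ρ g u₀) = ρ g (ρ y₁ u₀) := by
              simp only [← LinearEquiv.mul_apply, ← map_mul]; group
          _ = ρ g u₀ := by rw [mem_fixV.1 hu₀]
      have hv0 : ρ g u₀ ≠ 0 := fun h => hu₀0 ((ρ g).map_eq_zero_iff.1 h)
      have hzy : z * y₁ = y₁ * z := hab z hzY y₁ hy₁Y
      obtain ⟨a, ha, b, hb, he⟩ := Submodule.mem_sup.1 (hs ▸ Submodule.mem_top : ρ g u₀ ∈ U ⊔ U2)
      have hd : ρ z a - a ∈ U ⊓ U2 := by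
        refine ⟨U.sub_mem (map_fixV_mem hzy.symm ha) ha, ?_⟩
        have : ρ z a - a = b - ρ z b := by
          rw [← he, map_add] at hzv
          rw [sub_eq_sub_iff_add_eq_add, hzv, add_comm]
        rw [this]
        exact U2.sub_mem hb (hU2inv z hzy b hb)
      rw [hdis, Submodule.mem_bot, sub_eq_zero] at hd
      have hdb : ρ z b = b := by
        rw [← he, map_add, hd] at hzv
        exact add_left_cancel hzv
      have ea : a = 0 := by
        by_contra ha0
        apply h1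
        have := (hirr1 (U ⊓ fixV ρ z) inf_le_left fun v hv =>
          ⟨hy₂inv v hv.1, map_fixV_mem (hab z hzY y₂ hy₂Y) hv.2⟩).resolve_left fun e => ha0 (by
            have : a ∈ U ⊓ fixV ρ z := ⟨ha, hd⟩
            rwa [e, Submodule.mem_bot] at this)
        exact fun u hu => mem_fixV.1 ((inf_eq_left.1 this) hu)
      have eb : b = 0 := by
        by_contra hb0
        apply h2
        have := (hirr2 (U2 ⊓ fixV ρ z) inf_le_left fun v hv =>
          ⟨hU2inv y₁ rfl v hv.1, map_fixV_mem hzy hv.2⟩).resolve_left fun e => hb0 (by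
            have : b ∈ U2 ⊓ fixV ρ z := ⟨hb, hdb⟩
            rwa [e, Submodule.mem_bot] at this)
        exact fun u hu => mem_fixV.1 ((inf_eq_left.1 this) hu)
      exact hv0 (by rw [← he, ea, eb, add_zero])
    · have h1 := hdeg y₁ hy₁
      have h2 : {z | z ∈ Subgroup.zpowers y₂ ∧ IsConj y₁ z}.ncard ≤ 2 * m := by
        rcases Set.eq_empty_or_nonempty {z | z ∈ Subgroup.zpowers y₂ ∧ IsConj y₁ z} with h | ⟨z₀, hz₀, hc₀⟩
        · rw [h, Set.ncard_empty]; exact Nat.zero_le _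
        · have ho : orderOf z₀ = r := by
            obtain ⟨g, rfl⟩ := isConj_iff.1 hc₀
            rw [← hy₁]
            exact (orderOf_injective (MulAut.conj g).toMonoidHom (MulAut.conj g).injective y₁)
          refine le_trans (Set.ncard_le_ncard ?_ (Set.toFinite _)) (hdeg z₀ ho)
          rintro z ⟨hz, hc⟩
          refine ⟨?_, hc₀.symm.trans hc⟩
          have : Subgroup.zpowers z₀ = Subgroup.zpowers y₂ := Subgroup.eq_of_le_of_card_ge
            ((Subgroup.zpowers_le).2 hz₀) (by rw [Nat.card_zpowers, Nat.card_zpowers, ho, hy₂o])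
          rw [this]; exact hz
      omega
  set C1 := Subgroup.centralizer ({y₁} : Set G) with hC1def
  set C2 := Subgroup.centralizer ({y₂} : Set G) with hC2def
  have hC2 : C2.relIndex C1 ≤ 2 * m := by
    refine (relIndex_centralizer_le y₂ C1 {z | z ∈ Subgroup.zpowers y₂ ∧ IsConj y₂ z}
      fun h hh => ⟨?_, isConj_iff.2 ⟨h, rfl⟩⟩).trans (hdeg y₂ hy₂o)
    refine hmem2 _ (hY.conj_mem y₂ hy₂Y h) (by rw [conj_pow, hy₂r, mul_one, mul_inv_cancel]) fun u hu => ?_
    have hh' : h⁻¹ * y₁ = y₁ * h⁻¹ :=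
      Subgroup.mem_centralizer_singleton_iff.1 (C1.inv_mem hh)
    rw [map_mul, map_mul, LinearEquiv.mul_apply, LinearEquiv.mul_apply,
      hy₂U2 _ (hU2inv h⁻¹ hh' u hu), apply_inv_apply]
  have hidx : (C1 ⊓ C2).index ≤ 8 * m ^ 2 := by
    rw [← Subgroup.relIndex_mul_index (inf_le_left : C1 ⊓ C2 ≤ C1), Subgroup.inf_relIndex_left]
    calc C2.relIndex C1 * C1.index ≤ (2 * m) * (4 * m) := Nat.mul_le_mul hC2 hC1
      _ = 8 * m ^ 2 := by ring
  have hA : ∀ a ∈ C1 ⊓ C2, ∀ b ∈ C1 ⊓ C2, a * b = b * a := by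
    rintro a ⟨ha1, ha2⟩ b ⟨hb1, hb2⟩
    have ha1' := Subgroup.mem_centralizer_singleton_iff.1 ha1
    have hb1' := Subgroup.mem_centralizer_singleton_iff.1 hb1
    exact comm_of_two H.inj hs hy₂inv (hU2inv y₁ rfl) hirr1 hirr2
      (Subgroup.mem_centralizer_singleton_iff.1 ha2) (Subgroup.mem_centralizer_singleton_iff.1 hb2)
      ha1' hb1' (fun w hw => map_fixV_mem ha1'.symm hw) (fun w hw => map_fixV_mem hb1'.symm hw)
      (hU2inv a ha1') (hU2inv b hb1')
  refine (card_le_classes_mul_sq _ hA hidx).trans_eq ?_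
  ring

/-- The case with every element of order `r` semiregular. -/
theorem count_semireg [Finite G] [Finite V] {ρ : G →* (V ≃ₗ[ZMod p] V)} (H : Hyp2 ρ)
    {m r : ℕ} (hm3 : 3 ≤ m) (hn : finrank (ZMod p) V = 2 * m) (hr : Ppd p m r) (Y : Subgroup G)
    (hY : Y.Normal) (hab : ∀ a ∈ Y, ∀ b ∈ Y, a * b = b * a)
    (hall : ∀ x ∈ Y, orderOf x = r → fixV ρ x = ⊥) {y : G} (hyY : y ∈ Y) (hy : orderOf y = r) :
    Nat.card G ≤ Nat.card (ConjClasses G) * (64 * m ^ 4) ∨
      p ^ m - 1 ≤ 2 * Nat.card (ConjClasses G) * (4 * m ^ 2) := by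
  classical
  have hp : p.Prime := Fact.out
  haveI : Fact r.Prime := ⟨hr.1⟩
  haveI : Nontrivial V := Module.finrank_pos_iff.1 (show 0 < finrank (ZMod p) V by omega)
  have hrp : r ≠ p := ppd_ne (by omega) hr
  have hyr : y ^ r = 1 := hy ▸ pow_orderOf_eq_one y
  have hfree : ∀ v : V, ρ y v = v → v = 0 := fun v hv => by
    have : v ∈ fixV ρ y := mem_fixV.2 hv
    rwa [hall y hyY hy, Submodule.mem_bot] at this
  have hmin : ∀ W : Submodule (ZMod p) V, (∀ w ∈ W, ρ y w ∈ W) → W = ⊥ ∨ m ≤ finrank (ZMod p) W := by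
    intro W hW
    rcases le_fix_or_dim ρ hr.1 hrp hr.2.2 hy W hW with h | h
    · exact Or.inl (le_bot_iff.1 (h.trans (hall y hyY hy).le))
    · exact Or.inr (le_trans (Nat.le_add_left _ _) h)
  have hirrOf : ∀ W : Submodule (ZMod p) V, (∀ w ∈ W, ρ y w ∈ W) → W ≠ ⊥ →
      finrank (ZMod p) W ≤ m → finrank (ZMod p) W = m ∧ IrrOn ρ y W := fun W hW h0 hd => by
    obtain ⟨h1, -, h2⟩ := irrOn_of_small ρ hr.1 hrp hr.2.2 hy hW
      (fun h => h0 (le_bot_iff.1 (h.trans (hall y hyY hy).le))) hd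
    exact ⟨h1, h2⟩
  have honly : ∀ x ∈ Y, x ^ r = 1 → x ∈ Subgroup.zpowers y := by
    intro x hx hxr
    rcases exists_fixed_combination ρ hr.1 hrp hxr hyr (hab x hx y hyY) top_ne_bot
      (fun _ _ => trivial) (fun _ _ => trivial) with ⟨w, -, hw0, hw⟩ | ⟨i, w, -, hw0, hw⟩
    · exact absurd (hfree w hw) hw0
    have h1 : x * y ^ i = 1 := by
      by_contra hne
      have hpow : (x * y ^ i) ^ r = 1 := by
        rw [((show Commute x y from hab x hx y hyY).pow_right i).mul_pow, hxr, one_mul, ← pow_mul,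
          mul_comm, pow_mul, hyr, one_pow]
      have : w ∈ fixV ρ (x * y ^ i) := mem_fixV.2 hw
      rw [hall _ (Y.mul_mem hx (Y.pow_mem hyY i)) (orderOf_of_pow hr.1 hpow hne), Submodule.mem_bot] at this
      exact hw0 this
    exact (eq_inv_of_mul_eq_one_left h1) ▸ inv_mem (Subgroup.pow_mem _ (Subgroup.mem_zpowers y) i)
  set C := Subgroup.centralizer ({y} : Set G) with hCdef
  set cl : Set G := {z | z ∈ Subgroup.zpowers y ∧ IsConj y z} with hcl
  have hmemcl : ∀ g : G, g * y * g⁻¹ ∈ cl := fun g =>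
    ⟨honly _ (hY.conj_mem y hyY g) (by rw [conj_pow, hyr, mul_one, mul_inv_cancel]),
      isConj_iff.2 ⟨g, rfl⟩⟩
  have hcomC : ∀ a ∈ C, a * y = y * a := fun a ha => Subgroup.mem_centralizer_singleton_iff.1 ha
  set T := endHom ρ y with hT
  set f := minpoly (ZMod p) T with hf
  have hclcard : cl.ncard ≤ f.natDegree := ncard_conj_powers_le H.inj hr.1 hrp hy
  have hCidx : C.index ≤ f.natDegree := (index_centralizer_le y cl hmemcl).trans hclcard
  have hint : IsIntegral (ZMod p) T := Algebra.IsIntegral.isIntegral T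
  obtain ⟨q₀, hq₀i, hq₀f⟩ := WfDvdMonoid.exists_irreducible_factor
    (minpoly.not_isUnit (ZMod p) T) (minpoly.ne_zero hint)
  set q := normalize q₀ with hqdef
  have hqi : Irreducible q := (normalize_associated q₀).symm.irreducible hq₀i
  have hqm : q.Monic := Polynomial.monic_normalize hq₀i.ne_zero
  have hqf : q ∣ f := (normalize_associated q₀).dvd.trans hq₀f
  -- the degree
  have hd : q.natDegree ≤ m := by
    refine Nat.le_of_dvd (by omega) (hqi.natDegree_dvd_of_dvd_X_pow_card_pow_sub_X ?_)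
    rw [Nat.card_zmod]
    refine (hqf.trans (minpoly_dvd_pow ρ hyr)).trans ?_
    have h1 : (X ^ r - 1 : (ZMod p)[X]) ∣ X ^ (p ^ m - 1) - 1 := by
      obtain ⟨c, hc⟩ := hr.2.1
      rw [hc, pow_mul]
      simpa using sub_dvd_pow_sub_pow (X ^ r : (ZMod p)[X]) 1 c
    refine h1.trans ⟨X, ?_⟩
    rw [sub_mul, one_mul, ← pow_succ, Nat.sub_add_cancel (Nat.one_le_pow _ _ hp.pos)]
  -- the kernel
  set K := LinearMap.ker (aeval T q) with hK
  have hKne : K ≠ ⊥ := by
    intro h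
    obtain ⟨g, hg⟩ := hqf
    have hinj : Function.Injective (aeval T q) := LinearMap.ker_eq_bot.1 h
    have h0 : aeval T g = 0 := LinearMap.ext fun v => hinj (by
      rw [LinearMap.zero_apply, map_zero, ← Module.End.mul_apply, ← map_mul, ← hg, hf, minpoly.aeval,
        LinearMap.zero_apply])
    have hg0 : g ≠ 0 := fun e => minpoly.ne_zero hint (by rw [← hf, hg, e, mul_zero])
    have hdd := natDegree_le_of_dvd (minpoly.dvd _ T h0) hg0
    rw [← hf, hg, natDegree_mul hqi.ne_zero hg0] at hdd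
    have := hqi.natDegree_pos
    omega
  have hKinv : ∀ a ∈ C, ∀ w ∈ K, ρ a w ∈ K := by
    intro a ha w hw
    have hca : Commute T (endHom ρ a) := by
      show _ * _ = _ * _
      rw [hT, ← map_mul, ← map_mul, hcomC a ha]
    have h := LinearMap.congr_fun (aeval_commute hca q).eq w
    rw [Module.End.mul_apply, Module.End.mul_apply, LinearMap.mem_ker.1 hw, map_zero] at h
    rw [hK, LinearMap.mem_ker]
    exact h
  have hyC : y ∈ C := Subgroup.mem_centralizer_singleton_iff.2 rfl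
  -- invariant complements
  have hcompl : ∀ (A : Subgroup G) (W : Submodule (ZMod p) V), (∀ a ∈ A, ∀ w ∈ W, ρ a w ∈ W) →
      ∃ W' : Submodule (ZMod p) V, (∀ a ∈ A, ∀ w ∈ W', ρ a w ∈ W') ∧ IsCompl W W' := by
    intro A W hW
    let σ : Representation (ZMod p) A V := (endHom ρ).comp A.subtype
    have hne : (Nat.card A : ZMod p) ≠ 0 := fun h => H.cop
      (((ZMod.natCast_eq_zero_iff _ _).1 h).trans (Subgroup.card_subgroup_dvd_card A))
    obtain ⟨W', h1, h2⟩ := H45.SDInv.exists_compl (ρ := σ) hne (X := W) fun a w hw => hW a.1 a.2 w hw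
    exact ⟨W', fun a ha w hw => h1 ⟨a, ha⟩ w hw, h2⟩
  by_cases hKtop : K = ⊤
  swap
  · -- two non-isomorphic parts
    left
    obtain ⟨K', hK'inv, hKK'⟩ := hcompl C K hKinv
    have hK'ne : K' ≠ ⊥ := fun h => hKtop (by simpa [h] using hKK'.sup_eq_top)
    have h1 := (hmin K (hKinv y hyC)).resolve_left hKne
    have h2 := (hmin K' (hK'inv y hyC)).resolve_left hK'ne
    have h3 := Submodule.finrank_add_eq_of_isCompl hKK'
    rw [hn] at h3
    have hi1 := (hirrOf K (hKinv y hyC) hKne (by omega)).2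
    have hi2 := (hirrOf K' (hK'inv y hyC) hK'ne (by omega)).2
    have hA : ∀ a ∈ C, ∀ b ∈ C, a * b = b * a := fun a ha b hb =>
      comm_of_two H.inj hKK'.sup_eq_top (hKinv y hyC) (hK'inv y hyC) hi1 hi2 (hcomC a ha) (hcomC b hb)
        (hcomC a ha) (hcomC b hb) (hKinv a ha) (hKinv b hb) (hK'inv a ha) (hK'inv b hb)
    refine (card_le_classes_mul_sq C hA (hCidx.trans ((minpoly_natDegree_le T).trans hn.le))).trans
      (Nat.mul_le_mul_left _ ?_)
    have : m ^ 2 ≤ m ^ 4 := Nat.pow_le_pow_right (by omega) (by norm_num)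
    calc 2 * m * (2 * m) = 4 * m ^ 2 := by ring
      _ ≤ 64 * m ^ 4 := by omega
  -- the homogeneous case
  right
  have hq0 : aeval T q = 0 := LinearMap.ker_eq_top.1 (hK ▸ hKtop)
  have hfd : f.natDegree ≤ m := (natDegree_le_of_dvd (minpoly.dvd _ T hq0) hqi.ne_zero).trans hd
  obtain ⟨W, hWinv, hWne, hWdim⟩ : ∃ W : Submodule (ZMod p) V,
      (∀ w ∈ W, ρ y w ∈ W) ∧ W ≠ ⊥ ∧ finrank (ZMod p) W ≤ m := by
    obtain ⟨v₀, hv₀⟩ := exists_ne (0 : V)
    let L : (ZMod p)[X] →ₗ[ZMod p] V := (LinearMap.applyₗ v₀).comp (aeval T).toLinearMap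
    have hL : ∀ P, L P = aeval T P v₀ := fun P => rfl
    refine ⟨LinearMap.range L, ?_, ?_, ?_⟩
    · rintro _ ⟨P, rfl⟩
      exact ⟨X * P, by rw [hL, hL, map_mul, aeval_X, Module.End.mul_apply]; rfl⟩
    · intro h
      have : v₀ ∈ LinearMap.range L := ⟨1, by rw [hL, map_one]; rfl⟩
      rw [h] at this
      exact hv₀ ((Submodule.mem_bot _).1 this)
    · have hle : LinearMap.range L ≤ (Polynomial.degreeLT (ZMod p) q.natDegree).map L := by
        rintro _ ⟨P, rfl⟩
        refine ⟨P %ₘ q, ?_, ?_⟩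
        · rw [SetLike.mem_coe, mem_degreeLT]
          exact (degree_modByMonic_lt P hqm).trans_eq (degree_eq_natDegree hqi.ne_zero)
        · rw [hL, hL]
          conv_rhs => rw [← modByMonic_add_div P q]
          rw [map_add, map_mul, hq0, zero_mul, add_zero]
      haveI : Module.Finite (ZMod p) (Polynomial.degreeLT (ZMod p) q.natDegree) :=
        Module.Finite.equiv (degreeLTEquiv (ZMod p) q.natDegree).symm
      refine (Submodule.finrank_mono hle).trans ((Submodule.finrank_map_le _ _).trans ?_)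
      rw [(degreeLTEquiv (ZMod p) q.natDegree).finrank_eq, Module.finrank_fin_fun]
      exact hd
  obtain ⟨hWm, hWirr⟩ := hirrOf W hWinv hWne hWdim
  -- the stabiliser of `W`
  have hmapeq : ∀ g : G, (∀ w ∈ W, ρ g w ∈ W) → W.map (endHom ρ g) = W := fun g h =>
    Submodule.eq_of_le_of_finrank_le (Submodule.map_le_iff_le_comap.2 h)
      (Submodule.equivMapOfInjective _ (ρ g).injective W).finrank_eq.le
  let N : Subgroup G :=
    { carrier := {g | W.map (endHom ρ g) = W}
      one_mem' := by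
        show W.map (endHom ρ 1) = W
        rw [map_one]; exact Submodule.map_id W
      mul_mem' := fun {a b} ha hb => by
        show W.map (endHom ρ (a * b)) = W
        rw [map_mul]
        show W.map ((endHom ρ a) ∘ₗ (endHom ρ b)) = W
        rw [Submodule.map_comp, hb, ha]
      inv_mem' := fun {a} ha => by
        show W.map (endHom ρ a⁻¹) = W
        conv_lhs => rw [← ha, ← Submodule.map_comp]
        show W.map (endHom ρ a⁻¹ * endHom ρ a) = W
        rw [← map_mul, inv_mul_cancel, map_one]; exact Submodule.map_id W }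
  have hN : ∀ g ∈ N, ∀ w ∈ W, ρ g w ∈ W := fun g hg w hw =>
    (show W.map (endHom ρ g) = W from hg).le ⟨w, hw, rfl⟩
  set A := C ⊓ N with hA'
  have hyN : y ∈ N := hmapeq y hWinv
  obtain ⟨W', hW'inv, hWW'⟩ := hcompl A W fun a ha => hN a ha.2
  have hyA : y ∈ A := ⟨hyC, hyN⟩
  have hW'm : finrank (ZMod p) W' = m := by
    have := Submodule.finrank_add_eq_of_isCompl hWW'
    omega
  have hW'ne : W' ≠ ⊥ := fun h => by rw [h, finrank_bot] at hW'm; omega
  have hW'irr := (hirrOf W' (hW'inv y hyA) hW'ne hW'm.le).2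
  -- classes
  have hAcl : ∀ a ∈ A, {b : G | b ∈ A ∧ IsConj a b}.ncard ≤ 4 * m := by
    intro a ha
    have hca : Commute T (endHom ρ a) := by
      show _ * _ = _ * _
      rw [hT, ← map_mul, ← map_mul, hcomC a ha.1]
    obtain ⟨P, hP⟩ := exists_poly hWinv hWirr hca (fun w hw => hN a ha.2 w hw)
    obtain ⟨Q, hQ⟩ := exists_poly (hW'inv y hyA) hW'irr hca (fun w hw => hW'inv a ha w hw)
    set D := endHom ρ a - aeval T P with hD
    set D' := endHom ρ a - aeval T Q with hD'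
    have hprod : D * D' = 0 := by
      refine LinearMap.ext fun v => ?_
      have hv : v ∈ W ⊔ W' := hWW'.sup_eq_top ▸ Submodule.mem_top
      obtain ⟨w, hw, w', hw', rfl⟩ := Submodule.mem_sup.1 hv
      have e1 : D w = 0 := by rw [hD, LinearMap.sub_apply, hP w hw, sub_self]
      have e2 : D' w' = 0 := by rw [hD', LinearMap.sub_apply, hQ w' hw', sub_self]
      have hcc : Commute D D' := by
        have h1 : Commute (endHom ρ a) (aeval T P) := (aeval_commute hca P).symm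
        have h2 : Commute (endHom ρ a) (aeval T Q) := (aeval_commute hca Q).symm
        have h3 : Commute (aeval T P) (aeval T Q) := (Commute.all P Q).map (aeval T)
        exact ((Commute.refl _).sub_right h2).sub_left (h1.symm.sub_right h3)
      rw [LinearMap.zero_apply, map_add, Module.End.mul_apply D D' w', e2, map_zero, add_zero,
        hcc.eq, Module.End.mul_apply, e1, map_zero]
    have key : ∀ b ∈ {b : G | b ∈ A ∧ IsConj a b}, ∃ k : G × (Bool × Bool), k.1 ∈ cl ∧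
        (∀ w ∈ W, ρ b w = aeval (endHom ρ k.1) (if k.2.1 then P else Q) w) ∧
        (∀ w ∈ W', ρ b w = aeval (endHom ρ k.1) (if k.2.2 then P else Q) w) := by
      rintro b ⟨hb, hab'⟩
      obtain ⟨g, hg⟩ := isConj_iff.1 hab'
      set z := g * y * g⁻¹ with hz
      have hzcl : z ∈ cl := hmemcl g
      obtain ⟨j, hj⟩ := mem_powers_iff_mem_zpowers.2 hzcl.1
      simp only at hj
      have hzT : endHom ρ z = T ^ j := by rw [← hj, map_pow]
      have hsb : SemiconjBy (endHom ρ g) (endHom ρ a) (endHom ρ b) := by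
        show _ * _ = _ * _
        rw [← map_mul, ← map_mul, ← hg]; congr 1; group
      have hsz : SemiconjBy (endHom ρ g) T (endHom ρ z) := by
        show endHom ρ g * endHom ρ y = _ * _
        rw [← map_mul, ← map_mul, hz]; congr 1; group
      have hsP : ∀ R : (ZMod p)[X],
          SemiconjBy (endHom ρ g) (aeval T R) (aeval (endHom ρ z) R) := by
        intro R
        induction R using Polynomial.induction_on with
        | C c => rw [aeval_C, aeval_C]; exact (Algebra.commutes c _).symm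
        | add R S hR hS => rw [map_add, map_add]; exact hR.add_right hS
        | monomial k c _ =>
          rw [map_mul, map_mul, aeval_C, aeval_C, aeval_X_pow, aeval_X_pow]
          exact SemiconjBy.mul_right (Algebra.commutes c _).symm (hsz.pow_right (k + 1))
      set E1 := endHom ρ b - aeval (endHom ρ z) P with hE1
      set E2 := endHom ρ b - aeval (endHom ρ z) Q with hE2
      have hzero : E1 * E2 = 0 := by
        have h := ((hsb.sub_right (hsP P)).mul_right (hsb.sub_right (hsP Q))).eq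
        rw [← hD, ← hD', hprod, mul_zero, ← hE1, ← hE2] at h
        have hu : endHom ρ g * endHom ρ g⁻¹ = 1 := by rw [← map_mul, mul_inv_cancel, map_one]
        calc E1 * E2 = E1 * E2 * (endHom ρ g * endHom ρ g⁻¹) := by rw [hu, mul_one]
          _ = 0 := by rw [← mul_assoc (E1 * E2), ← h, zero_mul]
      have hcb : Commute T (endHom ρ b) := by
        show _ * _ = _ * _
        rw [hT, ← map_mul, ← map_mul, hcomC b hb.1]
      have hzc : ∀ R : (ZMod p)[X], Commute T (aeval (endHom ρ z) R) := fun R => by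
        refine (aeval_commute ?_ R).symm
        rw [hzT]; exact (Commute.refl T).pow_left j
      have hone : ∀ U : Submodule (ZMod p) V, U ≠ ⊥ → (∀ w ∈ U, ρ y w ∈ U) → IrrOn ρ y U →
          (∀ w ∈ U, ρ b w ∈ U) →
          ∃ c : Bool, ∀ w ∈ U, ρ b w = aeval (endHom ρ z) (if c then P else Q) w := by
        intro U hU0 hUy hUirr hbU
        have hzU : ∀ R : (ZMod p)[X], ∀ w ∈ U, aeval (endHom ρ z) R w ∈ U := by
          intro R
          refine aeval_mem (fun w hw => ?_) R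
          rw [hzT, ← aeval_X_pow (R := ZMod p)]
          exact aeval_mem hUy _ w hw
        have hkill : ∀ E : Module.End (ZMod p) V, Commute T E →
            U ⊓ LinearMap.ker E = ⊥ ∨ U ⊓ LinearMap.ker E = U := fun E hE =>
          hUirr _ inf_le_left fun u hu => ⟨hUy u hu.1, by
            rw [SetLike.mem_coe, LinearMap.mem_ker]
            show E (T u) = 0
            rw [← Module.End.mul_apply, ← hE.eq, Module.End.mul_apply, LinearMap.mem_ker.1 hu.2, map_zero]⟩
        rcases hkill E2 (hcb.sub_right (hzc Q)) with h | h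
        · refine ⟨true, fun w hw => ?_⟩
          rcases hkill E1 (hcb.sub_right (hzc P)) with h' | h'
          · exfalso
            obtain ⟨u, hu, hu0⟩ := Submodule.exists_mem_ne_zero_of_ne_bot hU0
            have hm1 : E2 u ∈ U ⊓ LinearMap.ker E1 := by
              refine ⟨?_, ?_⟩
              · rw [hE2, LinearMap.sub_apply]
                exact U.sub_mem (hbU u hu) (hzU Q u hu)
              · rw [SetLike.mem_coe, LinearMap.mem_ker, ← Module.End.mul_apply, hzero, LinearMap.zero_apply]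
            rw [h', Submodule.mem_bot] at hm1
            have hm2 : u ∈ U ⊓ LinearMap.ker E2 := ⟨hu, hm1⟩
            rw [h, Submodule.mem_bot] at hm2
            exact hu0 hm2
          · have := (inf_eq_left.1 h') hw
            rw [LinearMap.mem_ker, hE1, LinearMap.sub_apply, sub_eq_zero] at this
            simpa using this
        · refine ⟨false, fun w hw => ?_⟩
          have := (inf_eq_left.1 h) hw
          rw [LinearMap.mem_ker, hE2, LinearMap.sub_apply, sub_eq_zero] at this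
          simpa using this
      obtain ⟨c, hc⟩ := hone W hWne hWinv hWirr (hN b hb.2)
      obtain ⟨c', hc'⟩ := hone W' hW'ne (hW'inv y hyA) hW'irr (hW'inv b hb)
      exact ⟨(z, c, c'), hzcl, hc, hc'⟩
    choose! k hk hk1 hk2 using key
    refine (Set.ncard_le_ncard_of_injOn k (t := cl ×ˢ (Set.univ : Set (Bool × Bool)))
      (fun b hb => ⟨hk b hb, trivial⟩) (fun b hb b' hb' h => ?_) (Set.toFinite _)).trans ?_
    · refine eq_of_sup H.inj hWW'.sup_eq_top (fun w hw => ?_) (fun w hw => ?_)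
      · rw [hk1 b hb w hw, hk1 b' hb' w hw, h]
      · rw [hk2 b hb w hw, hk2 b' hb' w hw, h]
    · rw [Set.ncard_prod, Set.ncard_univ, Nat.card_prod, Nat.card_eq_fintype_card, Fintype.card_bool]
      have := hclcard.trans hfd
      omega
  have hAcard := card_le_classes_mul A (4 * m) hAcl
  -- the orbit of `W`
  have horb : A.relIndex C ≤ p ^ m + 1 := by
    rw [hA', Subgroup.inf_relIndex_left, Subgroup.relIndex, Subgroup.index_eq_card]
    let F : C ⧸ N.subgroupOf C → Submodule (ZMod p) V := fun c => W.map (endHom ρ c.out.1)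
    have hFinj : Function.Injective F := by
      intro c c' h
      rw [← QuotientGroup.out_eq' c, ← QuotientGroup.out_eq' c', QuotientGroup.eq, Subgroup.mem_subgroupOf]
      show W.map (endHom ρ (c.out.1⁻¹ * c'.out.1)) = W
      rw [map_mul]
      show W.map ((endHom ρ c.out.1⁻¹) ∘ₗ (endHom ρ c'.out.1)) = W
      have h' : W.map (endHom ρ c'.out.1) = W.map (endHom ρ c.out.1) := h.symm
      rw [Submodule.map_comp, h', ← Submodule.map_comp]
      show W.map (endHom ρ c.out.1⁻¹ * endHom ρ c.out.1) = W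
      rw [← map_mul, inv_mul_cancel, map_one]; exact Submodule.map_id W
    have hFinv : ∀ c, ∀ w ∈ F c, ρ y w ∈ F c := by
      rintro c _ ⟨w, hw, rfl⟩
      exact ⟨ρ y w, hWinv w hw, apply_comm (hcomC _ c.out.2) w⟩
    have hFm : ∀ c, finrank (ZMod p) (F c) = m := fun c =>
      (Submodule.equivMapOfInjective _ (ρ c.out.1).injective W).finrank_eq.symm.trans hWm
    have hdisj : ∀ c c', c ≠ c' → ∀ v ∈ F c, v ∈ F c' → v = 0 := by
      intro c c' hne v hv hv'
      by_contra hv0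
      rcases hmin (F c ⊓ F c') (fun w hw => ⟨hFinv c w hw.1, hFinv c' w hw.2⟩) with h | h
      · have : v ∈ F c ⊓ F c' := ⟨hv, hv'⟩
        rw [h, Submodule.mem_bot] at this
        exact hv0 this
      · refine hne (hFinj ?_)
        have e1 := Submodule.eq_of_le_of_finrank_le (inf_le_left : F c ⊓ F c' ≤ F c) (by rw [hFm]; exact h)
        have e2 := Submodule.eq_of_le_of_finrank_le (inf_le_right : F c ⊓ F c' ≤ F c') (by rw [hFm]; exact h)
        exact e1.symm.trans e2
    haveI := Fintype.ofFinite (C ⧸ N.subgroupOf C)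
    let φ : (Σ c, {v : F c // v ≠ 0}) → {v : V // v ≠ 0} := fun s =>
      ⟨s.2.1.1, fun h => s.2.2 (Subtype.ext h)⟩
    have hφ : Function.Injective φ := by
      rintro ⟨c, v, hv⟩ ⟨c', v', hv'⟩ h
      have e : (v : V) = (v' : V) := congrArg Subtype.val h
      have hc : c = c' := by
        by_contra hne
        exact hv (Subtype.ext (hdisj c c' hne _ v.2 (e ▸ v'.2)))
      subst hc
      obtain rfl : v = v' := Subtype.ext e
      rfl
    have hcount := Nat.card_le_card_of_injective φ hφ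
    have hcomplcard : ∀ U : Submodule (ZMod p) V, Nat.card {v : U // v ≠ 0} = p ^ finrank (ZMod p) U - 1 := by
      intro U
      have := Fintype.ofFinite U
      rw [Nat.card_eq_fintype_card, Fintype.card_subtype_compl, Fintype.card_subtype_eq,
        ← Nat.card_eq_fintype_card, card_V (p := p) (V := U)]
    have hVcard : Nat.card {v : V // v ≠ 0} = p ^ (2 * m) - 1 := by
      have := Fintype.ofFinite V
      rw [Nat.card_eq_fintype_card, Fintype.card_subtype_compl, Fintype.card_subtype_eq,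
        ← Nat.card_eq_fintype_card, card_V (p := p) (V := V), hn]
    rw [hVcard, Nat.card_sigma, Finset.sum_congr rfl fun c _ => by rw [hcomplcard (F c), hFm c],
      Finset.sum_const, Finset.card_univ, smul_eq_mul, ← Nat.card_eq_fintype_card] at hcount
    have hfac : p ^ (2 * m) - 1 = (p ^ m + 1) * (p ^ m - 1) := by
      rw [← Nat.sq_sub_sq, one_pow, ← pow_mul, mul_comm m 2]
    rw [hfac] at hcount
    exact Nat.le_of_mul_le_mul_right hcount (Nat.sub_pos_of_lt (Nat.one_lt_pow (by omega) hp.one_lt))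
  have hidx : A.index ≤ (p ^ m + 1) * m := by
    rw [← Subgroup.relIndex_mul_index (inf_le_left : A ≤ C)]
    exact Nat.mul_le_mul horb (hCidx.trans hfd)
  have hG : p ^ (2 * m) - 1 ≤ 2 * Nat.card (ConjClasses G) * (4 * m ^ 2) * (p ^ m + 1) := by
    have h := H.card_le
    rw [hn] at h
    refine h.trans ?_
    rw [← A.card_mul_index]
    calc 2 * (Nat.card A * A.index) ≤ 2 * (Nat.card (ConjClasses G) * (4 * m) * ((p ^ m + 1) * m)) :=
          Nat.mul_le_mul_left _ (Nat.mul_le_mul hAcard hidx)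
      _ = _ := by ring
  rw [show p ^ (2 * m) - 1 = (p ^ m - 1) * (p ^ m + 1) by
    rw [mul_comm (p ^ m - 1), ← Nat.sq_sub_sq, one_pow, ← pow_mul, mul_comm m 2]] at hG
  exact Nat.le_of_mul_le_mul_right hG (by omega)

/-- Two components. -/
theorem two_component_count [Finite G] [Finite V] {ρ : G →* (V ≃ₗ[ZMod p] V)} (H : Hyp2 ρ) (h7 : 7 ≤ p)
    {m r : ℕ} (hm : 3 ≤ m) (hn : finrank (ZMod p) V = 2 * m) (hr : Ppd p m r) (Y : Subgroup G)
    (hY : Y.Normal) (hne : Y ≠ ⊥) (hab : ∀ a ∈ Y, ∀ b ∈ Y, a * b = b * a) (hYr : IsPGroup r Y) :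
    p - 1 < 2 * Nat.card (ConjClasses G) := by
  obtain ⟨hb1, hb2⟩ := pow_bound h7 hm
  have hbig : Nat.card G ≤ Nat.card (ConjClasses G) * (64 * m ^ 4) →
      p - 1 < 2 * Nat.card (ConjClasses G) := fun h => by
    refine final_le (N := 2 * m) (B := 64 * m ^ 4) (by omega) (by omega) ?_ hb1
    have h' := H.card_le
    rw [hn] at h'
    exact h'.trans (by rw [mul_assoc]; exact Nat.mul_le_mul_left 2 h)
  by_cases hall : ∀ x ∈ Y, orderOf x = r → fixV ρ x = ⊥
  · obtain ⟨y, hyY, hy⟩ := exists_orderOf hr.1 Y hne hYr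
    rcases count_semireg H hm hn hr Y hY hab hall hyY hy with h | h
    · exact hbig h
    · exact final_le (N := m) (B := 4 * m ^ 2) (by omega) (by omega) h hb2
  · push Not at hall
    obtain ⟨y, hyY, hy, hfix⟩ := hall
    exact hbig (count_fixing H hm hn hr Y hY hab hyY hy hfix)

end Cfsg.Agent.H27.ThreeCl
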