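import Cfsg.Agent.H27.ThreeCl.Count
import Cfsg.Agent.H27.ThreeCl.OrbitR
import Cfsg.Agent.H27.ThreeCl.Semi
import Cfsg.Agent.S4504
import Mathlib.LinearAlgebra.Charpoly.ToMatrix
import Mathlib.LinearAlgebra.Matrix.GeneralLinearGroup.Card

/-!
Two orbits in dimension `8` over the field of `47` elements: many conjugacy classes.
-/

set_option autoImplicit false
set_option linter.unusedSectionVars false
set_option linter.style.haveILetI false

namespace Cfsg.Agent.H27.ThreeCl.Exceptional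

open Module Cfsg.Agent.H45.Trans Polynomial
open scoped Classical

universe u v

variable {p : ℕ} [Fact p.Prime] {V : Type v} [AddCommGroup V] [Module (ZMod p) V] [Finite V]
  {G : Type u} [Group G] [Finite G]

local notation "K" => AlgebraicClosure (ZMod p)

/-! ### Restrictions -/

/-- The action of a subgroup on an invariant subspace. -/
def resRep (ρ : G →* (V ≃ₗ[ZMod p] V)) (P : Subgroup G) (W : Submodule (ZMod p) V)
    (hW : ∀ g ∈ P, ∀ w ∈ W, ρ g w ∈ W) : P →* (W ≃ₗ[ZMod p] W) where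
  toFun g :=
    { toFun := fun w => ⟨ρ g.1 w.1, hW g.1 g.2 w.1 w.2⟩
      map_add' := fun a b => Subtype.ext (map_add _ _ _)
      map_smul' := fun c a => Subtype.ext (map_smul _ _ _)
      invFun := fun w => ⟨ρ g.1⁻¹ w.1, hW _ (inv_mem g.2) w.1 w.2⟩
      left_inv := fun w => Subtype.ext (by
        show ρ g.1⁻¹ (ρ g.1 w.1) = w.1
        rw [← LinearEquiv.mul_apply, ← map_mul, inv_mul_cancel, map_one]; rfl)
      right_inv := fun w => Subtype.ext (apply_inv_apply ρ g.1 w.1) }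
  map_one' := LinearEquiv.ext fun w => Subtype.ext (by show ρ (1 : G) w.1 = w.1; simp)
  map_mul' a b := LinearEquiv.ext fun w => Subtype.ext (by
    show ρ (a.1 * b.1) w.1 = ρ a.1 (ρ b.1 w.1)
    rw [map_mul]; rfl)

theorem resRep_apply {ρ : G →* (V ≃ₗ[ZMod p] V)} {P : Subgroup G} {W : Submodule (ZMod p) V}
    {hW : ∀ g ∈ P, ∀ w ∈ W, ρ g w ∈ W} (g : P) (w : W) :
    ((resRep ρ P W hW g w : W) : V) = ρ g.1 w.1 := rfl

theorem resRep_eq_one_iff {ρ : G →* (V ≃ₗ[ZMod p] V)} {P : Subgroup G} {W : Submodule (ZMod p) V}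
    {hW : ∀ g ∈ P, ∀ w ∈ W, ρ g w ∈ W} (g : P) :
    resRep ρ P W hW g = 1 ↔ ∀ w ∈ W, ρ g.1 w = w := by
  refine ⟨fun h w hw => ?_, fun h => LinearEquiv.ext fun w => Subtype.ext (h w.1 w.2)⟩
  have := congrArg (fun f : W ≃ₗ[ZMod p] W => ((f ⟨w, hw⟩ : W) : V)) h
  exact this

/-- No subgroup of order `17 ^ 2` acts faithfully in dimension at most `7`. -/
theorem small_dim (ρ : G →* (V ≃ₗ[ZMod p] V)) (hp : p = 47) (P : Subgroup G)
    (hP : Nat.card P = 17 ^ 2) (W : Submodule (ZMod p) V) (hW : ∀ g ∈ P, ∀ w ∈ W, ρ g w ∈ W)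
    (hdim : finrank (ZMod p) W < 8) :
    (∀ g ∈ P, ∀ w ∈ W, ρ (g ^ 17) w = w) ∧
      ∃ g ∈ P, orderOf g = 17 ∧ ∀ w ∈ W, ρ g w = w := by
  subst hp
  set σ := resRep ρ P W hW with hσ
  let e : (W ≃ₗ[ZMod 47] W) ≃* GL (Fin (finrank (ZMod 47) W)) (ZMod 47) :=
    (LinearMap.GeneralLinearGroup.generalLinearEquiv (ZMod 47) W).symm.trans
      (Units.mapEquiv (algEquivMatrix (Module.finBasis (ZMod 47) W)).toMulEquiv)
  have hGL : Nat.card (W ≃ₗ[ZMod 47] W) =
      ∏ i : Fin (finrank (ZMod 47) W), (47 ^ finrank (ZMod 47) W - 47 ^ (i : ℕ)) := by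
    rw [Nat.card_congr e.toEquiv, Matrix.card_GL_field, ZMod.card]
  haveI : Finite (W ≃ₗ[ZMod 47] W) := Finite.of_equiv _ e.toEquiv.symm
  have h17 : Nat.Prime 17 := by norm_num
  have hr : Nat.card σ.range ∣ 17 := by
    have h1 : Nat.card σ.range ∣ 17 ^ 2 := hP ▸ Subgroup.card_range_dvd σ
    obtain ⟨i, hi, hi'⟩ := (Nat.dvd_prime_pow h17).1 h1
    have h2 : Nat.card σ.range ∣ Nat.card (W ≃ₗ[ZMod 47] W) := Subgroup.card_subgroup_dvd_card _
    rw [hGL] at h2
    have key : ∀ k < 8, ¬ 17 ^ 2 ∣ ∏ i : Fin k, (47 ^ k - 47 ^ (i : ℕ)) := by decide +kernel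
    have hi2 : i ≠ 2 := fun h => key _ hdim (by rw [← h, ← hi']; exact h2)
    rw [hi']
    interval_cases i <;> simp_all
  refine ⟨fun g hg => ?_, ?_⟩
  · have h1 : (⟨σ ⟨g, hg⟩, ⟨_, rfl⟩⟩ : σ.range) ^ 17 = 1 :=
      orderOf_dvd_iff_pow_eq_one.1 ((orderOf_dvd_natCard _).trans hr)
    have h2 : σ (⟨g, hg⟩ ^ 17) = 1 := by
      rw [map_pow]; exact congrArg Subtype.val h1
    exact (resRep_eq_one_iff _).1 h2
  · have hker : 17 ∣ Nat.card σ.ker := by
      have h1 : Nat.card σ.ker * σ.ker.index = 17 ^ 2 := hP ▸ σ.ker.card_mul_index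
      rw [Subgroup.index_ker] at h1
      obtain ⟨c, hc⟩ := hr
      have h2 : Nat.card σ.ker * Nat.card σ.range = 17 * (Nat.card σ.range * c) := by
        rw [h1, ← hc]; norm_num
      refine ⟨c, Nat.eq_of_mul_eq_mul_right (Nat.card_pos (α := σ.range)) ?_⟩
      rw [h2]; ring
    haveI : Fact (Nat.Prime 17) := ⟨h17⟩
    obtain ⟨g, hg⟩ := exists_prime_orderOf_dvd_card' 17 hker
    refine ⟨g.1.1, g.1.2, ?_, (resRep_eq_one_iff _).1 g.2⟩
    rw [Subgroup.orderOf_coe, Subgroup.orderOf_coe, hg]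

/-- A Sylow subgroup of order `17 ^ 2` contains two elements fixing complementary subspaces. -/
theorem exists_pair {ρ : G →* (V ≃ₗ[ZMod p] V)} (hρ : Function.Injective ρ) (hp : p = 47)
    (hn : finrank (ZMod p) V = 8) (hsq : 17 ^ 2 ∣ Nat.card G) :
    ∃ (P : Subgroup G) (U U' : Submodule (ZMod p) V) (y y' : G), y ∈ P ∧ y' ∈ P ∧ IsCompl U U' ∧
      finrank (ZMod p) U = 4 ∧ finrank (ZMod p) U' = 4 ∧
      (∀ g ∈ P, ∀ w ∈ U, ρ g w ∈ U) ∧ (∀ g ∈ P, ∀ w ∈ U', ρ g w ∈ U') ∧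
      y ^ 17 = 1 ∧ y' ^ 17 = 1 ∧ (∀ w ∈ U', ρ y w = w) ∧ (∀ w ∈ U, ρ y' w = w) ∧
      ¬ (∀ w ∈ U, ρ y w = w) ∧ ¬ (∀ w ∈ U', ρ y' w = w) := by
  subst hp
  haveI : Fact (Nat.Prime 17) := ⟨by norm_num⟩
  have hr : Ppd 47 4 17 :=
    ⟨by norm_num, by norm_num, fun k hk hk' => by interval_cases k <;> norm_num⟩
  obtain ⟨P, hP⟩ := Sylow.exists_subgroup_card_pow_prime 17 hsq
  have hPp : IsPGroup 17 P := IsPGroup.of_card hP
  have hPc : ∀ a ∈ P, ∀ b ∈ P, a * b = b * a := fun a ha b hb =>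
    congrArg Subtype.val (IsPGroup.commutative_of_card_eq_prime_sq hP ⟨a, ha⟩ ⟨b, hb⟩)
  haveI : Nontrivial P := Finite.one_lt_card_iff_nontrivial.1 (by rw [hP]; norm_num)
  obtain ⟨W, hW0, hWt, hW⟩ := exists_proper_invariant hρ (d := 4) (by norm_num) (by omega) hr
    (by norm_num) P hPp
  obtain ⟨y, hyP, hy, hyW⟩ :=
    (small_dim ρ rfl P hP W hW (hn ▸ Submodule.finrank_lt hWt)).2
  have hy17 : y ^ 17 = 1 := hy ▸ pow_orderOf_eq_one y
  have hy1 : y ≠ 1 := fun h => by rw [h, orderOf_one] at hy; omega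
  obtain ⟨U, hUdef⟩ : ∃ U, U = fixV ρ y := ⟨_, rfl⟩
  have memU : ∀ {w : V}, w ∈ U ↔ ρ y w = w := by intro w; rw [hUdef]; exact mem_fixV
  obtain ⟨D, hDdef⟩ : ∃ D : Module.End (ZMod 47) V, D = endHom ρ y - 1 := ⟨_, rfl⟩
  have hD : ∀ v, D v = ρ y v - v := by intro v; rw [hDdef]; rfl
  have hker : LinearMap.ker D = U := by
    ext w; rw [LinearMap.mem_ker, hD, sub_eq_zero, memU]
  obtain ⟨U', hU'def⟩ : ∃ U', U' = LinearMap.range D := ⟨_, rfl⟩
  have hU : ∀ g ∈ P, ∀ w ∈ U, ρ g w ∈ U := fun g hg w hw => by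
    rw [memU] at hw ⊢
    rw [apply_comm (hPc y hyP g hg), hw]
  have hU' : ∀ g ∈ P, ∀ w ∈ U', ρ g w ∈ U' := fun g hg w hw => by
    rw [hU'def] at hw ⊢
    obtain ⟨v, rfl⟩ := hw
    exact ⟨ρ g v, by rw [hD, hD, map_sub, apply_comm (hPc y hyP g hg)]⟩
  have hdis : U ⊓ U' = ⊥ := by
    refine (Submodule.eq_bot_iff _).2 fun u hu => ?_
    obtain ⟨hu1, hu2⟩ := Submodule.mem_inf.1 hu
    rw [hU'def] at hu2
    obtain ⟨v, hv⟩ := hu2
    rw [hD] at hv
    have hu3 := memU.1 hu1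
    have hj : ∀ j : ℕ, ρ (y ^ j) v = v + (j : ZMod 47) • u := by
      intro j
      induction j with
      | zero => simp
      | succ j ih =>
        rw [pow_succ', map_mul, LinearEquiv.mul_apply, ih, map_add, map_smul, hu3, Nat.cast_succ,
          add_smul, one_smul, show ρ y v = v + u by rw [← hv]; abel]
        abel
    have h := hj 17
    rw [hy17, map_one, LinearEquiv.coe_one, id_eq, left_eq_add, smul_eq_zero] at h
    exact h.resolve_left fun e => by
      rw [ZMod.natCast_eq_zero_iff] at e; norm_num at e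
  have hUW : W ≤ U := fun w hw => memU.2 (hyW w hw)
  have hU0 : U ≠ ⊥ := fun h => hW0 (le_bot_iff.1 (h ▸ hUW))
  have hUt : U ≠ ⊤ := fun h => hy1 (hρ (LinearEquiv.ext fun v => by
    rw [map_one, LinearEquiv.coe_one, id_eq]
    exact memU.1 (h ▸ Submodule.mem_top)))
  have hsum : finrank (ZMod 47) U' + finrank (ZMod 47) U = 8 := by
    rw [hU'def, ← hker, D.finrank_range_add_finrank_ker, hn]
  have hsup : U ⊔ U' = ⊤ := Submodule.eq_top_of_finrank_eq (by
    have := Submodule.finrank_sup_add_finrank_inf_eq U U'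
    rw [hdis, finrank_bot] at this
    omega)
  have hU1 : finrank (ZMod 47) U ≠ 0 := fun h => hU0 (Submodule.finrank_eq_zero.1 h)
  have hU8 : finrank (ZMod 47) U < 8 := hn ▸ Submodule.finrank_lt hUt
  have hU'8 : finrank (ZMod 47) U' < 8 := by omega
  have hU'0 : U' ≠ ⊥ := fun h => hUt (by rwa [h, sup_bot_eq] at hsup)
  have hexp : ∀ g ∈ P, g ^ 17 = 1 := fun g hg => by
    refine eq_of_sup hρ hsup (fun w hw => ?_) fun w hw => ?_
    · rw [(small_dim ρ rfl P hP U hU hU8).1 g hg w hw]; simp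
    · rw [(small_dim ρ rfl P hP U' hU' hU'8).1 g hg w hw]; simp
  obtain ⟨x, hxP, hxU⟩ : ∃ x ∈ P, ¬ ∀ w ∈ U, ρ x w = w := by
    by_contra! hall
    obtain ⟨g, hg, hgo, hgU'⟩ := (small_dim ρ rfl P hP U' hU' hU'8).2
    have : g = 1 := eq_of_sup hρ hsup (fun w hw => by rw [hall g hg w hw]; simp)
      (fun w hw => by rw [hgU' w hw]; simp)
    rw [this, orderOf_one] at hgo
    omega
  have hord : ∀ g ∈ P, g ≠ 1 → orderOf g = 17 := fun g hg h =>
    orderOf_eq_prime (hexp g hg) h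
  have hx1 : x ≠ 1 := fun h => hxU fun w _ => by rw [h]; simp
  have hdU : 4 ≤ finrank (ZMod 47) U := by
    rcases le_fix_or_dim ρ (r := 17) (m := 4) hr.1 (by norm_num) hr.2.2 (hord x hxP hx1) U
      (hU x hxP) with h | h
    · exact absurd (fun w hw => mem_fixV.1 (h hw)) hxU
    · omega
  have hyfree : ∀ w ∈ U', ρ y w = w → w = 0 := fun w hw h =>
    (Submodule.mem_bot _).1 (hdis ▸ Submodule.mem_inf.2 ⟨memU.2 h, hw⟩)
  have hynf : ¬ ∀ w ∈ U', ρ y w = w := fun h =>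
    hU'0 ((Submodule.eq_bot_iff _).2 fun w hw => hyfree w hw (h w hw))
  have hdU' : 4 ≤ finrank (ZMod 47) U' := by
    rcases le_fix_or_dim ρ (r := 17) (m := 4) hr.1 (by norm_num) hr.2.2 hy U'
      (hU' y hyP) with h | h
    · exact absurd (fun w hw => mem_fixV.1 (h hw)) hynf
    · omega
  rcases exists_fixed_combination ρ hr.1 (by norm_num) (hexp x hxP) hy17 (hPc x hxP y hyP)
    hU'0 (hU' x hxP) (hU' y hyP) with ⟨w, hw, hw0, hfix⟩ | ⟨i, w, hw, hw0, hfix⟩
  · exact absurd (hyfree w hw hfix) hw0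
  have hxiP : x * y ^ i ∈ P := P.mul_mem hxP (P.pow_mem hyP i)
  have hxiU : ∀ u ∈ U, ρ (x * y ^ i) u = ρ x u := by
    intro u hu
    have : ∀ k : ℕ, ρ (y ^ k) u = u := by
      intro k
      induction k with
      | zero => simp
      | succ k ih => rw [pow_succ, map_mul, LinearEquiv.mul_apply, memU.1 hu, ih]
    rw [map_mul, LinearEquiv.mul_apply, this]
  have hxi : ¬ ∀ u ∈ U, ρ (x * y ^ i) u = u := fun h => hxU fun u hu => (hxiU u hu) ▸ h u hu
  have hxi1 : x * y ^ i ≠ 1 := fun h => hxi fun u _ => by rw [h]; simp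
  have hxiU' : ∀ u ∈ U', ρ (x * y ^ i) u = u := by
    rcases le_fix_or_dim ρ (r := 17) (m := 4) hr.1 (by norm_num) hr.2.2 (hord _ hxiP hxi1) U'
      (hU' _ hxiP) with h | h
    · exact fun u hu => mem_fixV.1 (h hu)
    · have h0 : U' ⊓ fixV ρ (x * y ^ i) = ⊥ := Submodule.finrank_eq_zero.1 (by omega)
      exact absurd ((Submodule.mem_bot _).1 (h0 ▸ Submodule.mem_inf.2 ⟨hw, mem_fixV.2 hfix⟩)) hw0
  exact ⟨P, U, U', x * y ^ i, y, hxiP, hyP, ⟨disjoint_iff.2 hdis, codisjoint_iff.2 hsup⟩,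
    by omega, by omega, hU, hU', hexp _ hxiP, hy17, hxiU', fun u hu => memU.1 hu, hxi, hynf⟩

/-! ### Eigenvalues -/

theorem eig_eq_roots (ρ : G →* (V ≃ₗ[ZMod p] V)) (g : G) :
    eig ρ g = ((endHom ρ g).charpoly.map (algebraMap (ZMod p) K)).roots.toFinset := by
  rw [eig, ← LinearMap.charpoly_toMatrix (endHom ρ g) (Module.finBasis (ZMod p) V),
    ← Matrix.charpoly_map]
  rfl

theorem eig_union {ρ : G →* (V ≃ₗ[ZMod p] V)} {P : Subgroup G} {U U' : Submodule (ZMod p) V}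
    (hc : IsCompl U U') (hU : ∀ g ∈ P, ∀ w ∈ U, ρ g w ∈ U) (hU' : ∀ g ∈ P, ∀ w ∈ U', ρ g w ∈ U')
    (g : P) : eig ρ (g : G) = eig (resRep ρ P U hU) g ∪ eig (resRep ρ P U' hU') g := by
  obtain ⟨e, he⟩ : ∃ e : (U × U') ≃ₗ[ZMod p] V, e = Submodule.prodEquivOfIsCompl U U' hc :=
    ⟨_, rfl⟩
  have h1 : endHom ρ (g : G) =
      e.conj ((endHom (resRep ρ P U hU) g).prodMap (endHom (resRep ρ P U' hU') g)) := by
    refine LinearMap.ext fun v => ?_
    obtain ⟨⟨a, b⟩, rfl⟩ := e.surjective v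
    rw [LinearEquiv.conj_apply_apply, LinearEquiv.symm_apply_apply, he]
    show ρ (g : G) ((a : V) + (b : V)) = ρ (g : G) a + ρ (g : G) b
    rw [map_add]
  rw [eig_eq_roots, eig_eq_roots, eig_eq_roots, h1, LinearEquiv.charpoly_conj,
    LinearMap.charpoly_prodMap, Polynomial.map_mul, Polynomial.roots_mul, Multiset.toFinset_add]
  exact mul_ne_zero ((LinearMap.charpoly_monic _).map _).ne_zero
    ((LinearMap.charpoly_monic _).map _).ne_zero

theorem frob_mem_eig {σ : G →* (V ≃ₗ[ZMod p] V)} {g : G} {a : K} (h : a ∈ eig σ g) :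
    a ^ p ∈ eig σ g := by
  rw [eig_eq_roots, Multiset.mem_toFinset] at h ⊢
  have h0 := ((LinearMap.charpoly_monic (endHom σ g)).map (algebraMap (ZMod p) K)).ne_zero
  rw [Polynomial.mem_roots h0, IsRoot, eval_map] at h ⊢
  have h2 : (frobenius K p).comp (algebraMap (ZMod p) K) = algebraMap (ZMod p) K :=
    RingHom.ext_zmod _ _
  have h3 := Polynomial.hom_eval₂ (endHom σ g).charpoly (algebraMap (ZMod p) K) (frobenius K p) a
  rw [h2, h, map_zero] at h3
  exact h3.symm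

/-- The eigenvalues of the powers of an element of order `17` in dimension `4`. -/
theorem exists_exponents (σ : G →* (V ≃ₗ[ZMod p] V)) (hp : p = 47)
    (hn : finrank (ZMod p) V = 4) {y : G} (hy : y ^ 17 = 1) (hne : σ y ≠ 1) :
    ∃ ω : K, orderOf ω = 17 ∧ ∀ a : ℕ,
      eig σ (y ^ a) = ({1, 13, 16, 4} : Finset ℕ).image fun h => ω ^ (a * h) := by
  haveI : Fact (Nat.Prime 17) := ⟨by norm_num⟩
  have hy1 : y ≠ 1 := fun h => hne (by rw [h, map_one])
  have ho : orderOf y = 17 := orderOf_eq_prime hy hy1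
  have hcard : Nat.card (Subgroup.zpowers y) = 17 := by rw [Nat.card_zpowers, ho]
  let τ : Subgroup.zpowers y →* (V ≃ₗ[ZMod p] V) := σ.comp (Subgroup.zpowers y).subtype
  have hinj : Function.Injective τ := by
    rw [← MonoidHom.ker_eq_bot_iff]
    refine (Subgroup.eq_bot_or_eq_top_of_prime_card (hp := hcard.symm ▸ ‹Fact (Nat.Prime 17)›) τ.ker
      ).resolve_right fun h => hne ?_
    have hm : (⟨y, Subgroup.mem_zpowers y⟩ : Subgroup.zpowers y) ∈ τ.ker := h ▸ Subgroup.mem_top _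
    exact hm
  obtain ⟨ω, hω, hωo⟩ := exists_eig_orderOf hinj (x := ⟨y, Subgroup.mem_zpowers y⟩)
    (by rw [hcard, hp]; norm_num) (r := 17) (e := 0) (by norm_num)
    (by rw [← Subgroup.orderOf_coe]; simpa using ho)
  have hω' : ω ∈ eig σ y := hω
  rw [show 17 ^ (0 + 1) = 17 by norm_num] at hωo
  refine ⟨ω, hωo, fun a => ?_⟩
  have hω17 : ω ^ 17 = 1 := hωo ▸ pow_orderOf_eq_one ω
  have hmem : ∀ h ∈ ({1, 13, 16, 4} : Finset ℕ), ω ^ (a * h) ∈ eig σ (y ^ a) := by
    have hr : ω ^ a ∈ eig σ (y ^ a) := pow_mem_eig hω' a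
    have hstep : ∀ k, (ω ^ a) ^ p ^ k ∈ eig σ (y ^ a) := by
      intro k
      induction k with
      | zero => simpa using hr
      | succ k ih => rw [pow_succ, pow_mul]; exact frob_mem_eig ih
    intro h hh
    obtain ⟨k, hk⟩ : ∃ k, p ^ k % 17 = h % 17 := by
      rw [hp]
      simp only [Finset.mem_insert, Finset.mem_singleton] at hh
      rcases hh with rfl | rfl | rfl | rfl
      exacts [⟨0, rfl⟩, ⟨1, rfl⟩, ⟨2, rfl⟩, ⟨3, rfl⟩]
    have := hstep k
    rw [← pow_mul, pow_eq_pow_mod _ hω17, Nat.mul_mod, hk, ← Nat.mul_mod,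
      ← pow_eq_pow_mod _ hω17] at this
    exact this
  symm
  refine Finset.eq_of_subset_of_card_le (fun z hz => ?_) ?_
  · obtain ⟨h, hh, rfl⟩ := Finset.mem_image.1 hz
    exact hmem h hh
  · by_cases ha : a % 17 = 0
    · have hya : y ^ a = 1 := by rw [pow_eq_pow_mod _ hy, ha, pow_zero]
      refine le_trans (Finset.card_le_card (t := {1}) fun z hz => ?_) ?_
      · rw [hya, mem_eig, map_one] at hz
        haveI : Nonempty (Fin (finrank (ZMod p) V)) := Fin.pos_iff_nonempty.1 (by omega)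
        simpa [spectrum.one_eq] using hz
      · rw [Finset.card_singleton]
        exact Finset.card_pos.2 (Finset.image_nonempty.2 ⟨1, by simp⟩)
    · refine (card_eig_le σ _).trans (le_of_eq ?_)
      rw [hn, Finset.card_image_of_injOn]
      · rfl
      intro h hh h' hh' e
      simp only at e
      rw [pow_eq_pow_mod _ hω17, pow_eq_pow_mod (a * h') hω17] at e
      have e' : a * h % 17 = a * h' % 17 :=
        pow_injOn_Iio_orderOf (x := ω) (show a * h % 17 < orderOf ω by rw [hωo]; omega)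
          (show a * h' % 17 < orderOf ω by rw [hωo]; omega) e
      have hco : Nat.Coprime 17 a := (Nat.Prime.coprime_iff_not_dvd (by norm_num)).2 fun hd =>
        ha (Nat.mod_eq_zero_of_dvd hd)
      have e2 : h ≡ h' [MOD 17] := Nat.ModEq.cancel_left_of_coprime hco e'
      simp only [Finset.coe_insert, Finset.coe_singleton, Set.mem_insert_iff,
        Set.mem_singleton_iff] at hh hh'
      rcases hh with rfl | rfl | rfl | rfl <;> rcases hh' with rfl | rfl | rfl | rfl <;>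
        simp_all [Nat.ModEq]

/-! ### The count -/

/-- Exponents of elements of the subgroup of order `17 ^ 2` with different eigenvalues. -/
def reps : List (ℕ × ℕ) :=
  [(0, 1), (0, 2), (0, 3), (0, 6), (1, 1), (2, 2), (3, 3), (6, 6),
    (1, 2), (1, 3), (1, 6), (2, 3), (2, 6), (3, 6)]

/-- The exponents of the eigenvalues. -/
def orbExp (q : ℕ × ℕ) : Finset ℕ :=
  ({1, 13, 16, 4} : Finset ℕ).image (fun h => q.1 * h % 17) ∪
    ({1, 13, 16, 4} : Finset ℕ).image (fun h => q.2 * h % 17)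

theorem orbExp_injOn : ∀ q ∈ reps, ∀ q' ∈ reps, orbExp q = orbExp q' → q = q' := by
  decide +kernel

theorem fourteen_eig {ρ : G →* (V ≃ₗ[ZMod p] V)} (hρ : Function.Injective ρ) (hp : p = 47)
    (hn : finrank (ZMod p) V = 8) (hsq : 17 ^ 2 ∣ Nat.card G) :
    ∃ T : Finset (ConjClasses G), 14 ≤ T.card ∧ ∀ g : G, ConjClasses.mk g ∈ T → g ^ 17 = 1 := by
  obtain ⟨P, U, U', y, y', hyP, hy'P, hc, hdU, hdU', hU, hU', hy, hy', hyU', hy'U, hynf, hy'nf⟩ :=
    exists_pair hρ hp hn hsq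
  set σ := resRep ρ P U hU with hσ
  set σ' := resRep ρ P U' hU' with hσ'
  have h17 : (⟨y, hyP⟩ : P) ^ 17 = 1 := Subtype.ext hy
  have h17' : (⟨y', hy'P⟩ : P) ^ 17 = 1 := Subtype.ext hy'
  obtain ⟨ω, hωo, hω⟩ := exists_exponents σ hp hdU h17 fun h => hynf ((resRep_eq_one_iff _).1 h)
  obtain ⟨ω', hω'o, hω'⟩ :=
    exists_exponents σ' hp hdU' h17' fun h => hy'nf ((resRep_eq_one_iff _).1 h)
  have hω17 : ω ^ 17 = 1 := hωo ▸ pow_orderOf_eq_one ω
  obtain ⟨j, -, hj⟩ := (hω'o ▸ IsPrimitiveRoot.orderOf ω' : IsPrimitiveRoot ω' 17).eq_pow_of_pow_eq_one hω17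
  have h1 : σ ⟨y', hy'P⟩ = 1 := (resRep_eq_one_iff _).2 hy'U
  have h1' : σ' ⟨y, hyP⟩ = 1 := (resRep_eq_one_iff _).2 hyU'
  have heq : ∀ {H : Type u} [Group H] {W : Submodule (ZMod p) V} (τ : H →* (W ≃ₗ[ZMod p] W))
      (g g' : H), τ g = τ g' → eig τ g = eig τ g' := by
    intro H _ W τ g g' h
    rw [eig, eig]
    have : matK τ g = matK τ g' := by
      show Matrix.map (LinearMap.toMatrix _ _ (τ g).toLinearMap) _ = _
      rw [h]; rfl
    rw [this]
  let el : ℕ × ℕ → P := fun q => ⟨y, hyP⟩ ^ q.1 * ⟨y', hy'P⟩ ^ (j * q.2)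
  have hel : ∀ q, eig ρ (el q : G) = (orbExp q).image fun i => ω ^ i := by
    intro q
    rw [eig_union hc hU hU', orbExp, Finset.image_union, Finset.image_image, Finset.image_image]
    congr 1
    · rw [heq σ (el q) (⟨y, hyP⟩ ^ q.1) (by rw [show el q = _ from rfl, map_mul, map_pow σ _ (j * q.2), h1, one_pow, mul_one]), hω]
      refine Finset.image_congr fun h _ => ?_
      exact pow_eq_pow_mod _ hω17
    · rw [heq σ' (el q) (⟨y', hy'P⟩ ^ (j * q.2)) (by rw [show el q = _ from rfl, map_mul, map_pow σ' _ q.1, h1', one_pow, one_mul]), hω']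
      refine Finset.image_congr fun h _ => ?_
      show ω' ^ (j * q.2 * h) = ω ^ (q.2 * h % 17)
      rw [← pow_eq_pow_mod _ hω17, mul_assoc, pow_mul, hj]
  refine ⟨reps.toFinset.image fun q => ConjClasses.mk (el q : G), ?_, fun g hg => ?_⟩
  · rw [Finset.card_image_of_injOn]
    · decide
    intro q hq q' hq' e
    simp only [List.coe_toFinset, Set.mem_ofPred_eq] at hq hq'
    obtain ⟨c, hc'⟩ := isConj_iff.1 (ConjClasses.mk_eq_mk_iff_isConj.1 e)
    have he : eig ρ (el q : G) = eig ρ (el q' : G) := by rw [← hc', eig_conj]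
    rw [hel, hel] at he
    refine orbExp_injOn q hq q' hq' ?_
    have hsub : ∀ r, ∀ i ∈ orbExp r, i < 17 := by
      intro r i hi
      simp only [orbExp, Finset.mem_union, Finset.mem_image] at hi
      rcases hi with ⟨h, -, rfl⟩ | ⟨h, -, rfl⟩ <;> exact Nat.mod_lt _ (by norm_num)
    have key : ∀ r r', (orbExp r).image (fun i => ω ^ i) = (orbExp r').image (fun i => ω ^ i) →
        orbExp r ⊆ orbExp r' := by
      intro r r' h i hi
      have hm : ω ^ i ∈ (orbExp r').image (fun i => ω ^ i) := h ▸ Finset.mem_image_of_mem _ hi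
      obtain ⟨i', hi', hii⟩ := Finset.mem_image.1 hm
      have : i' = i := pow_injOn_Iio_orderOf (x := ω) (show i' < orderOf ω by
        rw [hωo]; exact hsub r' i' hi') (show i < orderOf ω by rw [hωo]; exact hsub r i hi) hii
      exact this ▸ hi'
    exact Finset.Subset.antisymm (key q q' he) (key q' q he.symm)
  · obtain ⟨q, -, hq⟩ := Finset.mem_image.1 hg
    obtain ⟨c, hc'⟩ := isConj_iff.1 (ConjClasses.mk_eq_mk_iff_isConj.1 hq)
    have hel17 : el q ^ 17 = 1 := by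
      have hcomm : Commute ((⟨y, hyP⟩ : P) ^ q.1) (⟨y', hy'P⟩ ^ (j * q.2)) := by
        refine Commute.pow_pow (Subtype.ext (eq_of_sup hρ hc.sup_eq_top (fun w hw => ?_) fun w hw => ?_)) _ _
        · show ρ (y * y') w = ρ (y' * y) w
          rw [map_mul, map_mul, LinearEquiv.mul_apply, LinearEquiv.mul_apply, hy'U w hw,
            hy'U _ (hU y hyP w hw)]
        · show ρ (y * y') w = ρ (y' * y) w
          rw [map_mul, map_mul, LinearEquiv.mul_apply, LinearEquiv.mul_apply, hyU' w hw,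
            hyU' _ (hU' y' hy'P w hw)]
      show (⟨y, hyP⟩ ^ q.1 * ⟨y', hy'P⟩ ^ (j * q.2) : P) ^ 17 = 1
      rw [hcomm.mul_pow, ← pow_mul, ← pow_mul, mul_comm q.1, mul_comm (j * q.2), pow_mul, pow_mul,
        h17, h17', one_pow, one_pow, one_mul]
    rw [← hc', conj_pow, ← SubgroupClass.coe_pow, hel17, OneMemClass.coe_one, mul_one,
      mul_inv_cancel]

end Cfsg.Agent.H27.ThreeCl.Exceptional

namespace Cfsg.Agent.H27.ThreeCl

open Module Cfsg.Agent.H45.Trans Exceptional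

universe u v

variable {p : ℕ} [Fact p.Prime] {V : Type v} [AddCommGroup V] [Module (ZMod p) V]
  {G : Type u} [Group G]

/-- The exceptional pair `p = 47`, dimension `8`. -/
theorem exceptional_count [Finite G] [Finite V] {ρ : G →* (V ≃ₗ[ZMod p] V)} (H : Hyp2 ρ)
    (hp : p = 47) (hn : finrank (ZMod p) V = 8)
    (hidx : ∀ v : V, v ≠ 0 → p ^ 4 - 1 ∣ (stab ρ v).index) (u : Fin 2 → V) (hu0 : ∀ i, u i ≠ 0)
    (hdis : ∀ i j, i ≠ j → ¬ SameOrb ρ (u i) (u j))
    (hclosed : ∀ i, ∀ c : ZMod p, c ≠ 0 → SameOrb ρ (u i) (c • u i)) :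
    p - 1 < 2 * Nat.card (ConjClasses G) := by
  classical
  subst hp
  haveI : Fact (Nat.Prime 17) := ⟨by norm_num⟩
  have hr : Ppd 47 4 17 :=
    ⟨by norm_num, by norm_num, fun k hk hk' => by interval_cases k <;> norm_num⟩
  have h17 : 17 ∣ Nat.card G :=
    (show 17 ∣ 47 ^ 4 - 1 by norm_num).trans
      ((hidx _ (hu0 0)).trans (Subgroup.index_dvd_card _))
  haveI := Fintype.ofFinite G
  haveI : Fintype (ConjClasses G) := Fintype.ofFinite _
  by_cases hsq : 17 ^ 2 ∣ Nat.card G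
  · obtain ⟨T, hT, hT17⟩ := fourteen_eig H.inj rfl hn hsq
    obtain ⟨L, hL⟩ : ∃ L : Finset (ZMod 47), L = (Finset.univ.erase 0).erase 1 := ⟨_, rfl⟩
    have hLc : L.card = 45 := by
      rw [hL, Finset.card_erase_of_mem (by simp), Finset.card_erase_of_mem (Finset.mem_univ _),
        Finset.card_univ, ZMod.card]
    have hLm : ∀ c ∈ L, c ≠ 0 ∧ c ≠ 1 := fun c hc => by
      rw [hL, Finset.mem_erase, Finset.mem_erase] at hc
      exact ⟨hc.2.1, hc.1⟩
    have hgi : ∀ q : ZMod 47 × Fin 2, ∃ g : G, q.1 ∈ L → ρ g (u q.2) = q.1 • u q.2 := fun q => by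
      by_cases hq : q.1 ∈ L
      · obtain ⟨g, hg⟩ := hclosed q.2 q.1 (hLm _ hq).1
        exact ⟨g, fun _ => hg⟩
      · exact ⟨1, fun h => absurd h hq⟩
    choose gg hgg using hgi
    obtain ⟨E, hE⟩ : ∃ E, E = (L ×ˢ (Finset.univ : Finset (Fin 2))).image
        (fun q => ConjClasses.mk (gg q)) := ⟨_, rfl⟩
    have hev : ∀ q : ZMod 47 × Fin 2, q.1 ∈ L → ∀ h, ConjClasses.mk (gg q) = ConjClasses.mk h →
        ∃ w, SameOrb ρ (u q.2) w ∧ w ≠ 0 ∧ ρ h w = q.1 • w := by
      intro q hq h e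
      obtain ⟨b, hb⟩ := isConj_iff.1 (ConjClasses.mk_eq_mk_iff_isConj.1 e)
      refine ⟨ρ b (u q.2), ⟨b, rfl⟩, fun e0 => hu0 _ ((ρ b).map_eq_zero_iff.1 e0), ?_⟩
      have hm : h * b = b * gg q := by rw [← hb]; group
      rw [← LinearEquiv.mul_apply, ← map_mul, hm, map_mul, LinearEquiv.mul_apply, hgg q hq,
        map_smul]
    have hEc : 90 ≤ 8 * E.card := by
      rw [hE]
      refine le_trans (le_of_eq ?_) (Finset.card_le_mul_card_image _ 8 fun c _ => ?_)
      · rw [Finset.card_product, hLc, Finset.card_univ, Fintype.card_fin]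
      obtain ⟨h, rfl⟩ := ConjClasses.exists_rep c
      refine (card_pairs_le le_rfl u hu0 hdis (fun _ => hclosed) h _ fun q hq => ?_).trans_eq hn
      obtain ⟨hq1, hq2⟩ := Finset.mem_filter.1 hq
      obtain ⟨w, hw, -, hw'⟩ := hev q (Finset.mem_product.1 hq1).1 h hq2
      exact ⟨w, hw, hw'⟩
    have hdj : Disjoint T E := by
      rw [Finset.disjoint_left]
      intro c hcT hcE
      rw [hE] at hcE
      obtain ⟨q, hq, rfl⟩ := Finset.mem_image.1 hcE
      have hqL := (Finset.mem_product.1 hq).1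
      obtain ⟨w, -, hw0, hw⟩ := hev q hqL _ rfl
      have h3 := pow_orderOf_eq_one_of_mem_eig (algebraMap_mem_eig hw0 hw) 17 (hT17 _ hcT)
      rw [← map_pow, ← map_one (algebraMap (ZMod 47) (AlgebraicClosure (ZMod 47)))] at h3
      have h4 := (algebraMap (ZMod 47) (AlgebraicClosure (ZMod 47))).injective h3
      refine (hLm _ hqL).2 (orderOf_eq_one_iff.1 (Nat.eq_one_of_dvd_coprimes
        (show Nat.Coprime 17 (47 - 1) by norm_num) (orderOf_dvd_of_pow_eq_one h4)
        (orderOf_dvd_of_pow_eq_one (ZMod.pow_card_sub_one_eq_one (hLm _ hqL).1))))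
    have hk : T.card + E.card ≤ Nat.card (ConjClasses G) := by
      rw [← Finset.card_union_of_disjoint hdj, Nat.card_eq_fintype_card]
      exact Finset.card_le_univ _
    omega
  · by_cases hN : ∃ N : Subgroup G, N.Normal ∧ Nat.card N = 17
    · obtain ⟨N, hNn, hNc⟩ := hN
      haveI := isCyclic_of_prime_card hNc
      refine two_component_count (r := 17) (m := 4) H (by norm_num) (by norm_num) (by omega) hr N
        hNn (fun h => by rw [h, Subgroup.card_bot] at hNc; omega) (fun a ha b hb => ?_)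
        (IsPGroup.of_card (n := 1) (by rw [hNc, pow_one]))
      letI := IsCyclic.commGroup (α := N)
      exact congrArg Subtype.val (mul_comm (⟨a, ha⟩ : N) ⟨b, hb⟩)
    · push Not at hN
      obtain ⟨χ, hχ, hdeg, hfaith⟩ := exists_lift ρ H.inj H.cop
      obtain ⟨e⟩ := Cfsg.Agent.S4504.result 17 (by norm_num) h17 hsq hN χ hχ hfaith
        (by rw [hdeg, hn])
      have hq : Nat.card (G ⧸ Subgroup.center G) ≤ 17 ^ 4 := by
        rw [Nat.card_congr e.toEquiv]
        refine (Nat.card_le_card_of_surjective _ (QuotientGroup.mk'_surjective _)).trans ?_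
        refine (Nat.card_le_card_of_injective (fun A : Matrix.SpecialLinearGroup (Fin 2) (ZMod 17) =>
          (A : Matrix (Fin 2) (Fin 2) (ZMod 17))) Subtype.val_injective).trans (le_of_eq ?_)
        rw [Matrix, Nat.card_fun, Nat.card_fun, Nat.card_zmod, Nat.card_fin]
        norm_num
      have hz : Nat.card (Subgroup.center G) ≤ Nat.card (ConjClasses G) := by
        refine Nat.card_le_card_of_injective (fun z : Subgroup.center G => ConjClasses.mk (z : G))
          fun a b h => Subtype.ext ?_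
        obtain ⟨c, hc⟩ := isConj_iff.1 (ConjClasses.mk_eq_mk_iff_isConj.1 h)
        rw [← hc, Subgroup.mem_center_iff.1 a.2 c, mul_inv_cancel_right]
      have hG := H.card_le
      rw [hn, Subgroup.card_eq_card_quotient_mul_card_subgroup (Subgroup.center G)] at hG
      have := hG.trans (Nat.mul_le_mul_left 2 (Nat.mul_le_mul hq hz))
      norm_num at this ⊢
      omega

end Cfsg.Agent.H27.ThreeCl
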