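import Cfsg.Agent.H27.ThreeCl.Semi
import Cfsg.Agent.H43.DegreeTwoPrimitive
import Cfsg.Agent.H45.Transitive.Lift
import Cfsg.Agent.H45.Transitive.Plane
import Cfsg.Agent.H69.SL2Classes
import Cfsg.Agent.H45.Transitive.Classes

/-!
Coprime irreducible groups of a plane with at most two orbits: many conjugacy classes.
-/

set_option autoImplicit false
set_option maxHeartbeats 800000

namespace Cfsg.Agent.H27.ThreeCl

open Module Cfsg.Agent.H45.Trans

universe u v

variable {G : Type u} [Group G]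

/-- A faithful degree two representation with an invariant line has commutative image. -/
theorem comm_of_invariant_line [Finite G] (τ : Representation ℂ G (Fin 2 → ℂ))
    (hτ : Function.Injective τ) (W : Submodule ℂ (Fin 2 → ℂ))
    (hW : ∀ g, ∀ w ∈ W, τ g w ∈ W) (h0 : W ≠ ⊥) (h1 : W ≠ ⊤) (a b : G) : a * b = b * a := by
  classical
  have hfr : finrank ℂ W = 1 := by
    have h2 := Submodule.finrank_lt h1
    have h3 : finrank ℂ W ≠ 0 := fun h => h0 (Submodule.finrank_eq_zero.1 h)
    rw [Module.finrank_fin_fun] at h2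
    omega
  have hq : finrank ℂ ((Fin 2 → ℂ) ⧸ W) = 1 := by
    have h2 := W.finrank_quotient_add_finrank
    rw [hfr, Module.finrank_fin_fun] at h2
    omega
  obtain ⟨w0, hw0, hspan⟩ := finrank_eq_one_iff'.1 hfr
  obtain ⟨q0, hq0, hqspan⟩ := finrank_eq_one_iff'.1 hq
  have hscal : ∀ g : G, ∃ μ lam : ℂ, (∀ w ∈ W, τ g w = μ • w) ∧
      ∀ u, τ g u - lam • u ∈ W := by
    intro g
    obtain ⟨μ, hμ⟩ := hspan ⟨τ g w0.1, hW g _ w0.2⟩
    let f := W.mapQ W (τ g) (fun w hw => hW g w hw)
    obtain ⟨lam, hlam⟩ := hqspan (f q0)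
    refine ⟨μ, lam, fun w hw => ?_, fun u => ?_⟩
    · obtain ⟨c, hc⟩ := hspan ⟨w, hw⟩
      have hc' : c • w0.1 = w := congrArg Subtype.val hc
      have hμ' : μ • w0.1 = τ g w0.1 := congrArg Subtype.val hμ
      rw [← hc', map_smul, ← hμ', smul_comm]
    · obtain ⟨c, hc⟩ := hqspan (Submodule.Quotient.mk u)
      rw [← Submodule.Quotient.eq, Submodule.Quotient.mk_smul]
      show f (Submodule.Quotient.mk u) = _
      rw [← hc, map_smul, ← hlam, smul_comm]
  set c := a * b * (b * a)⁻¹ with hcdef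
  suffices hc : c = 1 by exact mul_inv_eq_one.1 hc
  obtain ⟨μa, la, ha1, ha2⟩ := hscal a
  obtain ⟨μb, lb, hb1, hb2⟩ := hscal b
  have e1 : ∀ w ∈ W, τ (a * b) w = τ (b * a) w := fun w hw => by
    rw [map_mul, map_mul, Module.End.mul_apply, Module.End.mul_apply, hb1 w hw, ha1 w hw,
      map_smul, map_smul, hb1 w hw, ha1 w hw, smul_comm]
  have e2 : ∀ u, τ (a * b) u - τ (b * a) u ∈ W := fun u => by
    rw [map_mul, map_mul, Module.End.mul_apply, Module.End.mul_apply]
    have h2 : τ a (τ b u) - τ b (τ a u) = (τ a (τ b u) - la • τ b u) + la • (τ b u - lb • u) -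
        ((τ b (τ a u) - lb • τ a u) + lb • (τ a u - la • u)) := by
      rw [smul_sub, smul_sub, smul_comm la lb]; abel
    rw [h2]
    exact W.sub_mem (W.add_mem (ha2 _) (W.smul_mem _ (hb2 _)))
      (W.add_mem (hb2 _) (W.smul_mem _ (ha2 _)))
  have f1 : ∀ w ∈ W, τ c w = w := fun w hw => by
    have h := e1 _ (hW (b * a)⁻¹ w hw)
    rw [← Module.End.mul_apply, ← map_mul, ← hcdef] at h
    rw [h, ← Module.End.mul_apply, ← map_mul, mul_inv_cancel, map_one, Module.End.one_apply]
  have f2 : ∀ u, τ c u - u ∈ W := fun u => by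
    have h := e2 (τ (b * a)⁻¹ u)
    rwa [← Module.End.mul_apply, ← Module.End.mul_apply, ← map_mul, ← map_mul, ← hcdef,
      mul_inv_cancel, map_one, Module.End.one_apply] at h
  have hit : ∀ (j : ℕ) u, τ (c ^ j) u = u + (j : ℂ) • (τ c u - u) := by
    intro j
    induction j with
    | zero => intro u; simp
    | succ j ih =>
      intro u
      rw [pow_succ', map_mul, Module.End.mul_apply, ih, map_add, map_smul, f1 _ (f2 u),
        Nat.cast_succ, add_smul, one_smul]
      abel
  refine hτ (LinearMap.ext fun u => ?_)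
  have h := hit (orderOf c) u
  rw [pow_orderOf_eq_one, map_one, Module.End.one_apply] at h
  have h' : (orderOf c : ℂ) • (τ c u - u) = 0 := by simpa using h.symm
  rcases smul_eq_zero.1 h' with h3 | h3
  · exact absurd (Nat.cast_eq_zero.1 h3) (orderOf_pos c).ne'
  · rw [sub_eq_zero.1 h3, map_one, Module.End.one_apply]

/-- A faithful group of degree two has a commutative subgroup of index at most two, or its centre
has index 12, 24 or 60. -/
theorem degree_two_cases [Finite G] {χ : G → ℂ} (hχ : Cfsg.IsCharacter G χ)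
    (h2 : Cfsg.charDegree χ = 2) (hf : ∀ g : G, χ g = χ 1 → g = 1) :
    (∃ A : Subgroup G, (∀ a ∈ A, ∀ b ∈ A, a * b = b * a) ∧ A.index ≤ 2) ∨
      (Subgroup.center G).index = 12 ∨ (Subgroup.center G).index = 24 ∨
        (Subgroup.center G).index = 60 := by
  classical
  have := Fintype.ofFinite G
  obtain ⟨m, τ, e⟩ := hχ
  have hm : m = 2 := by
    rw [← e, Cfsg.charDegree, τ.char_one, Complex.natCast_re, Nat.floor_natCast,
      Module.finrank_fin_fun] at h2
    exact h2
  subst hm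
  have hinj : Function.Injective τ := by
    intro a b hab
    refine inv_mul_eq_one.1 (hf _ ?_)
    rw [← e, Representation.character, Representation.character, map_mul, ← hab, ← map_mul,
      inv_mul_cancel]
  by_cases hirr : τ.IsIrreducible
  swap
  · rw [H26.isIrreducible_iff_forall] at hirr
    have hnt : Nontrivial (Fin 2 → ℂ) := inferInstance
    push Not at hirr
    obtain ⟨W, hW, h0, h1⟩ := hirr hnt
    exact Or.inl ⟨⊤, fun a _ b _ => comm_of_invariant_line τ hinj W hW h0 h1 a b,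
      by rw [Subgroup.index_top]; omega⟩
  by_cases hprim : ∀ H : Subgroup G, H ≠ ⊤ → ∀ θ : H → ℂ, Cfsg.IsCharacter H θ →
      τ.character ≠ Cfsg.indFun H θ
  · exact Or.inr (H43.index_center_of_primitive_two τ hinj hprim)
  push Not at hprim
  obtain ⟨H, hH, θ, ⟨r, σ, hσ⟩, hind⟩ := hprim
  rw [e] at hind
  have hH0 : (Nat.card H : ℂ) ≠ 0 := Nat.cast_ne_zero.2 Nat.card_pos.ne'
  have hidxC : (H.index : ℂ) * (Nat.card H : ℂ) = Fintype.card G := by
    rw [← Nat.cast_mul, H.index_mul_card, Nat.card_eq_fintype_card]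
  have hθ1 : θ 1 = r := by rw [← hσ, σ.char_one, Module.finrank_fin_fun]
  have hχ1 : χ 1 = (H.index : ℂ) * r := by
    rw [hind, Cfsg.indFun, Finset.sum_congr rfl fun x _ => show
      Cfsg.extendByZero H θ (x⁻¹ * 1 * x) = (r : ℂ) by
        rw [Cfsg.extendByZero, mul_one, inv_mul_cancel, ← hθ1]
        exact Subtype.val_injective.extend_apply θ 0 1]
    rw [Finset.sum_const, Finset.card_univ, nsmul_eq_mul, ← hidxC]
    field_simp
  have hdeg : H.index * r = 2 := by
    have h3 : χ 1 = ((2 : ℕ) : ℂ) := by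
      rw [← e, τ.char_one, Module.finrank_fin_fun]
    rw [hχ1] at h3
    exact_mod_cast h3
  have hi1 : H.index ≠ 1 := fun h => hH (Subgroup.index_eq_one.1 h)
  have hi2 : H.index = 2 := by
    rcases (Nat.dvd_prime Nat.prime_two).1 ⟨r, hdeg.symm⟩ with h | h
    exacts [absurd h hi1, h]
  have hr : r = 1 := by rw [hi2] at hdeg; omega
  subst hr
  have hHn : H.Normal := Subgroup.normal_of_index_eq_two hi2
  refine Or.inl ⟨H, fun a ha b hb => ?_, hi2.le⟩
  have hcomm : ∀ x y : H, σ x * σ y = σ y * σ x := by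
    intro x y
    refine LinearMap.ext fun w => ?_
    have hsc : ∀ (f : Module.End ℂ (Fin 1 → ℂ)) (u : Fin 1 → ℂ), f u = f (fun _ => 1) 0 • u := by
      intro f u
      have hu : u = u 0 • (fun _ => (1 : ℂ)) := funext fun i => by simp [Subsingleton.elim i 0]
      conv_lhs => rw [hu, map_smul]
      funext i
      simp [Subsingleton.elim i 0, mul_comm]
    simp only [Module.End.mul_apply]
    rw [hsc (σ x) (σ y w), hsc (σ y) w, hsc (σ y) (σ x w), hsc (σ x) w, smul_comm]
  have hone : ∀ x y : H, θ (x * y * x⁻¹ * y⁻¹) = θ 1 := by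
    intro x y
    rw [← hσ, Representation.character, Representation.character]
    congr 1
    rw [map_mul, map_mul, map_mul, hcomm x y, mul_assoc (σ y), ← map_mul σ x, mul_inv_cancel,
      map_one, mul_one, ← map_mul, mul_inv_cancel, map_one]
  have hval : χ (a * b * a⁻¹ * b⁻¹) = χ 1 := by
    rw [hind, Cfsg.indFun, Cfsg.indFun]
    refine congrArg _ (Finset.sum_congr rfl fun x _ => ?_)
    have hx : ∀ t ∈ H, x⁻¹ * t * x ∈ H := fun t ht => by simpa using hHn.conj_mem t ht x⁻¹
    have hmem := hx _ (H.mul_mem (H.mul_mem (H.mul_mem ha hb) (H.inv_mem ha)) (H.inv_mem hb))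
    rw [Cfsg.extendByZero]
    refine (Subtype.val_injective.extend_apply θ 0 ⟨_, hmem⟩).trans (Eq.trans ?_
      (Subtype.val_injective.extend_apply θ 0 ⟨_, hx 1 H.one_mem⟩).symm)
    rw [show (⟨x⁻¹ * 1 * x, hx 1 H.one_mem⟩ : H) = 1 from Subtype.ext (by simp),
      ← hone ⟨_, hx a ha⟩ ⟨_, hx b hb⟩]
    congr 1
    refine Subtype.ext ?_
    simp only [Subgroup.coe_mul, Subgroup.coe_inv]
    group
  have h := hf _ hval
  calc a * b = a * b * a⁻¹ * b⁻¹ * (b * a) := by group
    _ = b * a := by rw [h, one_mul]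

variable {p : ℕ} [Fact p.Prime] {V : Type v} [AddCommGroup V] [Module (ZMod p) V]

/-- For `p ≡ 3 mod 4` a plane group of order divisible by four has even centre. -/
theorem two_dvd_card_center [Finite G] [Finite V] {ρ : G →* (V ≃ₗ[ZMod p] V)}
    (hρ : Function.Injective ρ) (hn : finrank (ZMod p) V = 2) (hp4 : p % 4 = 3)
    (h4 : 4 ∣ Nat.card G) : 2 ∣ Nat.card (Subgroup.center G) := by
  classical
  let δ : G →* (ZMod p)ˣ := LinearEquiv.det.comp ρ
  have hδ : δ.ker.index ∣ p - 1 := by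
    rw [Subgroup.index_ker]
    have h := Subgroup.card_subgroup_dvd_card δ.range
    rwa [Nat.card_units, Nat.card_zmod] at h
  have h2K : 2 ∣ Nat.card δ.ker := by
    by_contra hodd
    have hco : Nat.Coprime (Nat.card δ.ker) 4 :=
      (Nat.Prime.coprime_iff_not_dvd Nat.prime_two).2 hodd |>.symm |>.pow_right 2
    rw [← δ.ker.card_mul_index] at h4
    have h5 := (hco.symm.dvd_of_dvd_mul_left h4).trans hδ
    omega
  obtain ⟨t, ht⟩ := exists_prime_orderOf_dvd_card' 2 h2K
  have ht2 : orderOf (t : G) = 2 := by rw [Subgroup.orderOf_coe, ht]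
  have hdet : δ t.1 = 1 := t.2
  let b := Module.finBasisOfFinrankEq (ZMod p) V hn
  set M := LinearMap.toMatrix b b (ρ t.1).toLinearMap with hM
  have hdetM : M.det = 1 := by
    rw [hM, LinearMap.det_toMatrix]
    have h := congrArg Units.val hdet
    simpa [δ] using h
  have hMM : M * M = 1 := by
    rw [hM, ← LinearMap.toMatrix_mul]
    have h : (ρ t.1).toLinearMap * (ρ t.1).toLinearMap = (ρ (t.1 ^ 2)).toLinearMap := by
      rw [pow_two, map_mul]; rfl
    have ht1 : t.1 ^ 2 = 1 := ht2 ▸ pow_orderOf_eq_one _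
    rw [h, ht1, map_one]
    exact LinearMap.toMatrix_id b
  have hsq := Cfsg.Agent.H69.mul_self_fin_two M
  rw [hMM, hdetM, one_smul, eq_sub_iff_add_eq] at hsq
  have hne : (2 : ZMod p) ≠ 0 := by
    intro h
    have : p ∣ 2 := (ZMod.natCast_eq_zero_iff 2 p).1 (by exact_mod_cast h)
    have := Nat.le_of_dvd two_pos this
    omega
  have htr : M.trace ≠ 0 := fun h => by
    rw [h, zero_smul] at hsq
    have := congrFun (congrFun hsq 0) 0
    simp only [Matrix.add_apply, Matrix.one_apply_eq, Matrix.zero_apply, one_add_one_eq_two] at this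
    exact hne this
  have hMs : M = (M.trace⁻¹ * 2) • (1 : Matrix (Fin 2) (Fin 2) (ZMod p)) := by
    rw [mul_smul, two_smul, hsq, smul_smul, inv_mul_cancel₀ htr, one_smul]
  have hscal : IsScalar ρ t.1 := by
    refine ⟨M.trace⁻¹ * 2, fun v => ?_⟩
    have h : (ρ t.1).toLinearMap = (M.trace⁻¹ * 2) • LinearMap.id := by
      apply (LinearMap.toMatrix b b).injective
      rw [map_smul, LinearMap.toMatrix_id, ← hM]
      exact hMs
    exact LinearMap.congr_fun h v
  have hord : orderOf (⟨t.1, hscal.mem_center hρ⟩ : Subgroup.center G) = 2 := by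
    rw [← Subgroup.orderOf_coe, ht2]
  exact hord ▸ orderOf_dvd_natCard _

theorem plane_numeric {p g z d : ℕ} (hp : p.Prime) (h7 : 7 ≤ p) (hg : g = 12 ∨ g = 24 ∨ g = 60)
    (hd : p - 1 = z * d) (hdiv : d * (p + 1) ∣ 2 * g) (hev : p % 4 = 3 → 2 ∣ z) : d ≤ 5 := by
  have hle := Nat.le_of_dvd (by omega) hdiv
  have hz : 0 < z := Nat.pos_of_ne_zero fun h => by rw [h, zero_mul] at hd; omega
  by_contra hd5
  have hp20 : p + 1 ≤ 20 := by
    by_contra hbig
    have : 6 * 21 ≤ d * (p + 1) := Nat.mul_le_mul (by omega) (by omega)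
    omega
  have hdd : p + 1 ∣ 2 * g := (dvd_mul_left _ _).trans hdiv
  have hp19 : p ≤ 19 := by omega
  interval_cases p <;> (try norm_num at hp) <;> (try norm_num at hev)
  · obtain ⟨z', rfl⟩ := hev
    have : 2 * d ≤ 2 * z' * d := Nat.mul_le_mul_right d (by omega)
    omega
  · obtain ⟨z', rfl⟩ := hev
    have : 2 * d ≤ 2 * z' * d := Nat.mul_le_mul_right d (by omega)
    omega
  · rcases hg with rfl | rfl | rfl <;> omega
  · rcases hg with rfl | rfl | rfl <;> omega
  · obtain rfl : d = 6 := by omega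
    omega

theorem plane_count [Finite G] [Finite V] {ρ : G →* (V ≃ₗ[ZMod p] V)} (H : Hyp2 ρ) (h7 : 7 ≤ p)
    (hn : finrank (ZMod p) V = 2) (hdiv : p ^ 2 - 1 ∣ 2 * Nat.card G) :
    p - 1 < 2 * Nat.card (ConjClasses G) := by
  classical
  have hp : p.Prime := Fact.out
  haveI : Nontrivial V := Module.nontrivial_of_finrank_pos (R := ZMod p) (by omega)
  set k := Nat.card (ConjClasses G) with hk
  have hsq : p ^ 2 - 1 = (p - 1) * (p + 1) := by
    have := Nat.sq_sub_sq p 1
    rw [one_pow] at this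
    rw [this, mul_comm]
  rw [hsq] at hdiv
  obtain ⟨χ, hχ, hdeg, hf⟩ := Cfsg.Agent.H45.Trans.exists_lift ρ H.inj H.cop
  rw [hn] at hdeg
  rcases degree_two_cases hχ hdeg hf with ⟨A, hab, hA⟩ | hg
  · have h1 := card_le_classes_mul_sq A hab hA
    rw [← hk] at h1
    have h2 := Nat.le_of_dvd (Nat.mul_pos two_pos Nat.card_pos) hdiv
    have h3 : (p - 1) * 8 ≤ (p - 1) * (p + 1) := Nat.mul_le_mul_left _ (by omega)
    omega
  set Z := Subgroup.center G with hZ
  set g := Z.index with hgdef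
  set z := Nat.card Z with hzdef
  have hz : 0 < z := Nat.card_pos
  have hG : Nat.card G = z * g := Z.card_mul_index.symm
  have hg5 : 5 ≤ g := by omega
  have hna : ¬ ∀ a b : G, a * b = b * a := fun h => by
    have hZt : Z = ⊤ := eq_top_iff.2 fun a _ => Subgroup.mem_center_iff.2 fun b => h b a
    rw [hgdef, hZt, Subgroup.index_top] at hg5
    omega
  obtain ⟨d, hd⟩ : z ∣ p - 1 := card_dvd_of_scalar H.inj Z fun x hx =>
    isScalar_of_mem_center H.inj hn hna hx
  have hdiv' : d * (p + 1) ∣ 2 * g := by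
    rw [hd, hG, mul_assoc, show 2 * (z * g) = z * (2 * g) by ring] at hdiv
    exact Nat.dvd_of_mul_dvd_mul_left hz hdiv
  have hd5 : d ≤ 5 := plane_numeric hp h7 hg hd hdiv' fun h3 =>
    two_dvd_card_center H.inj hn h3 (hG ▸ Dvd.dvd.mul_left (by omega) z)
  have hM : ∀ x : G, x ∉ Z → 2 * z ≤ Nat.card (Subgroup.centralizer ({x} : Set G)) := by
    intro x hx
    set C := Subgroup.centralizer ({x} : Set G)
    have hle : Z ≤ C := fun y hy =>
      Subgroup.mem_centralizer_singleton_iff.2 (Subgroup.mem_center_iff.1 hy x).symm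
    obtain ⟨c, hc⟩ := Subgroup.card_dvd_of_le hle
    have hc0 : c ≠ 0 := fun h => Nat.card_pos.ne' (hc.trans (by rw [h, mul_zero]))
    have hc1 : c ≠ 1 := fun h => hx (by
      rw [Subgroup.eq_of_le_of_card_ge hle (hc.le.trans (by rw [h, mul_one]))]
      exact Subgroup.mem_centralizer_singleton_iff.2 rfl)
    rw [hc, mul_comm 2 z]
    exact Nat.mul_le_mul_left _ (by omega)
  have hcl := le_card_classes Z le_rfl (2 * z) hM
  rw [← hzdef, ← hk, hG] at hcl
  have hkey : z * g + (g - 1) * (2 * z) ≤ k * g := by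
    refine Nat.le_of_mul_le_mul_right (le_trans (le_of_eq ?_) (hcl.trans_eq (by ring))) hz
    obtain ⟨g', hg'⟩ : ∃ g', g = g' + 1 := ⟨g - 1, by omega⟩
    rw [hg', Nat.add_sub_cancel, show z * (g' + 1) - z = z * g' by rw [Nat.mul_succ, Nat.add_sub_cancel]]
    ring
  by_contra hlt
  have h1 : 2 * k ≤ z * d := by omega
  obtain ⟨g', hg'⟩ : ∃ g', g = g' + 1 := ⟨g - 1, by omega⟩
  rw [hg', Nat.add_sub_cancel] at hkey
  have h2 : 2 * (k * (g' + 1)) ≤ (z * d) * (g' + 1) := by
    rw [← mul_assoc]; exact Nat.mul_le_mul_right _ h1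
  have h3 : z * d * (g' + 1) ≤ z * 5 * (g' + 1) :=
    Nat.mul_le_mul_right _ (Nat.mul_le_mul_left _ hd5)
  have h4 : 0 < z * g' := Nat.mul_pos hz (by omega)
  have h5 : z * 4 ≤ z * g' := Nat.mul_le_mul_left _ (by omega)
  ring_nf at h2 h3 hkey h5
  omega

end Cfsg.Agent.H27.ThreeCl
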