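import Cfsg.Agent.H27.ThreeCl.Defs

/-!
The orbit sizes of a linear group with two scalar closed orbits on nonzero vectors: counting the
intersections of an orbit with hyperplanes.
-/

set_option autoImplicit false
set_option linter.unusedSectionVars false

namespace Cfsg.Agent.H27.ThreeCl

open Module Finset Cfsg.Agent.H45.Trans
open scoped Classical

universe u v

variable {p : ℕ} [Fact p.Prime] {V : Type v} [AddCommGroup V] [Module (ZMod p) V]
  {G : Type u} [Group G]

namespace Sizes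

section counting

variable {W : Type*} [AddCommGroup W] [Module (ZMod p) W] [Fintype W] [Fintype V]

/-- The kernel of a surjective map has the expected number of elements. -/
theorem card_ker_mul {M : Type*} [AddCommGroup M] [Module (ZMod p) M] [Finite M]
    (L : W →ₗ[ZMod p] M) (hL : Function.Surjective L) :
    (univ.filter fun f => L f = 0).card * Nat.card M = Fintype.card W := by
  have h1 : (univ.filter fun f => L f = 0).card = Nat.card (LinearMap.ker L) := by
    rw [Nat.card_eq_fintype_card, ← Fintype.card_subtype]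
    exact Fintype.card_congr (Equiv.subtypeEquivRight fun f => LinearMap.mem_ker.symm)
  have h2 := L.finrank_range_add_finrank_ker
  rw [LinearMap.range_eq_top.2 hL, finrank_top] at h2
  rw [h1, ← Nat.card_eq_fintype_card (α := W), card_V (p := p) (V := LinearMap.ker L),
    card_V (p := p) (V := M), card_V (p := p) (V := W), ← pow_add, add_comm, h2]

/-- The vectors of `O` proportional to a member. -/
theorem card_proportional {O : Finset V} (h0 : (0 : V) ∉ O)
    (hsc : ∀ u ∈ O, ∀ c : ZMod p, c ≠ 0 → c • u ∈ O) {u : V} (hu : u ∈ O) :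
    (O.filter fun u' => u' ∈ Submodule.span (ZMod p) {u}).card = p - 1 := by
  have hu0 : u ≠ 0 := fun h => h0 (h ▸ hu)
  have he : (O.filter fun u' => u' ∈ Submodule.span (ZMod p) {u}) =
      ((univ : Finset (ZMod p)).erase 0).image (fun c => c • u) := by
    ext x
    simp only [mem_filter, mem_image, mem_erase, mem_univ, and_true, Submodule.mem_span_singleton]
    constructor
    · rintro ⟨hx, c, rfl⟩
      exact ⟨c, fun h => h0 (by simpa [h] using hx), rfl⟩
    · rintro ⟨c, hc, rfl⟩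
      exact ⟨hsc u hu c hc, c, rfl⟩
  rw [he, card_image_of_injective _ (smul_left_injective (ZMod p) hu0), card_erase_of_mem (mem_univ _),
    card_univ, ZMod.card]

/-- A scalar closed set of nonzero vectors has size divisible by `p - 1`. -/
theorem dvd_card {O : Finset V} (h0 : (0 : V) ∉ O)
    (hsc : ∀ u ∈ O, ∀ c : ZMod p, c ≠ 0 → c • u ∈ O) : p - 1 ∣ O.card := by
  rw [card_eq_sum_card_image (fun u => Submodule.span (ZMod p) ({u} : Set V)) O]
  refine dvd_sum fun X hX => ?_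
  obtain ⟨u, hu, rfl⟩ := mem_image.1 hX
  rw [← card_proportional h0 hsc hu]
  refine dvd_of_eq (congrArg card (filter_congr fun x hx => ?_))
  refine ⟨fun h => ?_, fun h => h ▸ Submodule.mem_span_singleton_self x⟩
  obtain ⟨c, rfl⟩ := Submodule.mem_span_singleton.1 h
  exact Submodule.span_singleton_smul_eq (isUnit_iff_ne_zero.2 fun hc => h0 (by simpa [hc] using hx)) u

variable (e : W ≃ₗ[ZMod p] Dual (ZMod p) V)

/-- The number of members of `O` in a hyperplane. -/
noncomputable def cnt (O : Finset V) (f : W) : ℕ := (O.filter fun u => e f u = 0).card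

theorem sum_cnt {O : Finset V} (h0 : (0 : V) ∉ O) :
    p * ∑ f, cnt e O f = O.card * Fintype.card W := by
  have h1 : ∑ f, cnt e O f = ∑ u ∈ O, (univ.filter fun f => e f u = 0).card := by
    simp only [cnt, card_filter]
    exact sum_comm
  rw [h1, mul_sum, ← smul_eq_mul, ← sum_const]
  refine sum_congr rfl fun u hu => ?_
  have hu0 : u ≠ 0 := fun h => h0 (h ▸ hu)
  obtain ⟨φ, hφ⟩ : ∃ φ : Dual (ZMod p) V, φ u ≠ 0 := by
    by_contra h
    push Not at h
    exact hu0 ((forall_dual_apply_eq_zero_iff (ZMod p) u).1 h)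
  have hsurj : Function.Surjective (e.toLinearMap.flip u) := fun y =>
    ⟨e.symm ((y * (φ u)⁻¹) • φ), by simp [hφ]⟩
  have := card_ker_mul (e.toLinearMap.flip u) hsurj
  rw [Nat.card_zmod, mul_comm] at this
  convert this using 3
  ext f
  simp only [mem_filter, mem_univ, true_and]
  simp

theorem sum_cnt_sq {O : Finset V} (h0 : (0 : V) ∉ O)
    (hsc : ∀ u ∈ O, ∀ c : ZMod p, c ≠ 0 → c • u ∈ O) :
    p * p * ∑ f, cnt e O f ^ 2 =
      Fintype.card W * (O.card * O.card + O.card * ((p - 1) * (p - 1))) := by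
  have h1 : ∑ f, cnt e O f ^ 2 =
      ∑ u ∈ O, ∑ u' ∈ O, (univ.filter fun f => e f u = 0 ∧ e f u' = 0).card := by
    have : ∀ f, cnt e O f ^ 2 = ∑ u ∈ O, ∑ u' ∈ O, if e f u = 0 ∧ e f u' = 0 then 1 else 0 := by
      intro f
      rw [cnt, sq, card_filter, sum_mul_sum]
      refine sum_congr rfl fun u _ => sum_congr rfl fun u' _ => ?_
      split_ifs <;> simp_all
    simp only [this, card_filter]
    rw [sum_comm]
    exact sum_congr rfl fun u _ => sum_comm
  have h2 : ∀ u ∈ O, ∀ u' ∈ O, p * p * (univ.filter fun f => e f u = 0 ∧ e f u' = 0).card =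
      Fintype.card W + if u' ∈ Submodule.span (ZMod p) {u} then Fintype.card W * (p - 1) else 0 := by
    intro u hu u' hu'
    have hu0 : u ≠ 0 := fun h => h0 (h ▸ hu)
    obtain ⟨φ, hφ⟩ : ∃ φ : Dual (ZMod p) V, φ u ≠ 0 := by
      by_contra h
      push Not at h
      exact hu0 ((forall_dual_apply_eq_zero_iff (ZMod p) u).1 h)
    split_ifs with hdep
    · obtain ⟨c, rfl⟩ := Submodule.mem_span_singleton.1 hdep
      have hc : c ≠ 0 := fun h => h0 (by simpa [h] using hu')
      have hsurj : Function.Surjective (e.toLinearMap.flip u) := fun y =>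
        ⟨e.symm ((y * (φ u)⁻¹) • φ), by simp [hφ]⟩
      have h3 := card_ker_mul (e.toLinearMap.flip u) hsurj
      rw [Nat.card_zmod] at h3
      have h4 : (univ.filter fun f => e f u = 0 ∧ e f (c • u) = 0) =
          univ.filter fun f => e.toLinearMap.flip u f = 0 := by
        refine filter_congr fun f _ => ?_
        simp [hc]
      rw [h4, ← h3]
      obtain ⟨k, hk⟩ : ∃ k, p = k + 1 := ⟨p - 1, by have := (Fact.out : p.Prime).pos; omega⟩
      subst hk
      simp only [Nat.add_sub_cancel]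
      ring_nf
    · have hu'0 : u' ≠ 0 := fun h => hdep (h ▸ zero_mem _)
      obtain ⟨ψ, hψ, hψ'⟩ := Submodule.exists_dual_map_eq_bot_of_notMem hdep inferInstance
      have hψu : ψ u = 0 := by
        have := Submodule.mem_map_of_mem (f := ψ) (Submodule.mem_span_singleton_self u)
        rwa [hψ', Submodule.mem_bot] at this
      have hsurj : Function.Surjective ((e.toLinearMap.flip u).prod (e.toLinearMap.flip u')) := by
        rintro ⟨x, y⟩
        refine ⟨e.symm ((x * (φ u)⁻¹) • φ + ((y - x * (φ u)⁻¹ * φ u') * (ψ u')⁻¹) • ψ), ?_⟩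
        simp [hφ, hψ, hψu, mul_assoc]
      have h3 := card_ker_mul _ hsurj
      rw [Nat.card_prod, Nat.card_zmod] at h3
      have h4 : (univ.filter fun f => e f u = 0 ∧ e f u' = 0) =
          univ.filter fun f => (e.toLinearMap.flip u).prod (e.toLinearMap.flip u') f = 0 := by
        refine filter_congr fun f _ => ?_
        simp [Prod.ext_iff]
      rw [h4, ← h3, add_zero]
      ring_nf
  rw [h1, mul_sum]
  have h5 : ∀ u ∈ O, p * p * ∑ u' ∈ O, (univ.filter fun f => e f u = 0 ∧ e f u' = 0).card =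
      Fintype.card W * (O.card + (p - 1) * (p - 1)) := by
    intro u hu
    rw [mul_sum, sum_congr rfl (h2 u hu), sum_add_distrib, sum_const, smul_eq_mul, ← sum_filter,
      sum_const, smul_eq_mul, card_proportional h0 hsc hu]
    ring
  rw [sum_congr rfl h5, sum_const, smul_eq_mul]
  ring

/-- The two moments of the normalised intersection numbers over two classes of functionals. -/
theorem moments {O : Finset V} (h0 : (0 : V) ∉ O)
    (hsc : ∀ u ∈ O, ∀ c : ZMod p, c ≠ 0 → c • u ∈ O) {f₁ f₂ : W} {A B : Finset W}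
    (hAB : Disjoint A B) (hu : A ∪ B = univ.erase 0)
    (hA : ∀ f ∈ A, cnt e O f = cnt e O f₁) (hB : ∀ f ∈ B, cnt e O f = cnt e O f₂) :
    ∃ t₁ t₂ : ℤ, A.card * t₁ + B.card * t₂ = -(O.card : ℤ) ∧
      A.card * t₁ ^ 2 + B.card * t₂ ^ 2 =
        (Fintype.card W : ℤ) * O.card - (O.card : ℤ) ^ 2 := by
  have hp : 2 ≤ p := (Fact.out : p.Prime).two_le
  have hT : ∀ f : W, ∃ t : ℤ, ((p : ℤ) - 1) * t = (p : ℤ) * cnt e O f - O.card := by
    intro f
    obtain ⟨a, ha⟩ := dvd_card h0 hsc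
    obtain ⟨c, hc⟩ : p - 1 ∣ cnt e O f := dvd_card (fun h => h0 (mem_filter.1 h).1) fun u hu d hd => by
      rw [mem_filter] at hu ⊢
      exact ⟨hsc u hu.1 d hd, by rw [map_smul, hu.2, smul_zero]⟩
    refine ⟨p * c - a, ?_⟩
    rw [hc, ha]
    push_cast [Nat.cast_sub (show 1 ≤ p by omega)]
    ring
  choose t ht using hT
  have hp1 : ((p : ℤ) - 1) ≠ 0 := by omega
  have hc1 : (p : ℤ) * ∑ f : W, (cnt e O f : ℤ) = O.card * Fintype.card W := by
    exact_mod_cast sum_cnt e h0
  have hc2 : (p : ℤ) * p * ∑ f : W, (cnt e O f : ℤ) ^ 2 =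
      Fintype.card W * ((O.card : ℤ) * O.card + O.card * (((p : ℤ) - 1) * ((p : ℤ) - 1))) := by
    have h := congrArg (Nat.cast : ℕ → ℤ) (sum_cnt_sq e h0 hsc)
    push_cast [Nat.cast_sub (show 1 ≤ p by omega)] at h
    exact h
  have hcnt0 : cnt e O (0 : W) = O.card := by simp [cnt]
  have ht0 : t 0 = (O.card : ℤ) := by
    refine mul_left_cancel₀ hp1 ?_
    rw [ht, hcnt0]
    ring
  have hsum : ∑ f : W, t f = 0 := by
    refine mul_left_cancel₀ hp1 ?_
    rw [mul_sum, sum_congr rfl (fun f _ => ht f), sum_sub_distrib, ← mul_sum, hc1, sum_const, card_univ,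
      nsmul_eq_mul]
    ring
  have hsq : ∑ f : W, t f ^ 2 = (Fintype.card W : ℤ) * O.card := by
    refine mul_left_cancel₀ (pow_ne_zero 2 hp1) ?_
    have hf : ∀ f ∈ (univ : Finset W), ((p : ℤ) - 1) ^ 2 * t f ^ 2 =
        (p : ℤ) * p * (cnt e O f : ℤ) ^ 2 - 2 * (O.card : ℤ) * ((p : ℤ) * cnt e O f) + (O.card : ℤ) ^ 2 :=
      fun f _ => by rw [← mul_pow, ht]; ring
    rw [mul_sum, sum_congr rfl hf, sum_add_distrib, sum_sub_distrib, sum_const, card_univ, nsmul_eq_mul,
      ← mul_sum, ← mul_sum, ← mul_sum, hc1, hc2]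
    ring
  have hconst : ∀ (f f' : W), cnt e O f = cnt e O f' → t f = t f' := fun f f' h => by
    refine mul_left_cancel₀ hp1 ?_
    rw [ht, ht, h]
  refine ⟨t f₁, t f₂, ?_, ?_⟩
  · rw [← add_sum_erase _ _ (mem_univ (0 : W)), ← hu, sum_union hAB,
      sum_congr rfl (fun f hf => hconst f f₁ (hA f hf)),
      sum_congr rfl (fun f hf => hconst f f₂ (hB f hf)), sum_const, sum_const, nsmul_eq_mul,
      nsmul_eq_mul, ht0] at hsum
    linarith
  · rw [← add_sum_erase _ _ (mem_univ (0 : W)), ← hu, sum_union hAB,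
      sum_congr rfl (fun f hf => congrArg (· ^ 2) (hconst f f₁ (hA f hf))),
      sum_congr rfl (fun f hf => congrArg (· ^ 2) (hconst f f₂ (hB f hf))), sum_const, sum_const,
      nsmul_eq_mul, nsmul_eq_mul, ht0] at hsq
    linarith

end counting

/-- The contragredient representation. -/
noncomputable def dualRep (ρ : G →* (V ≃ₗ[ZMod p] V)) :
    G →* (Dual (ZMod p) V ≃ₗ[ZMod p] Dual (ZMod p) V) where
  toFun g := (ρ g⁻¹).dualMap
  map_one' := by
    refine LinearEquiv.ext fun f => LinearMap.ext fun x => ?_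
    simp
  map_mul' a b := by
    refine LinearEquiv.ext fun f => LinearMap.ext fun x => ?_
    simp [LinearEquiv.mul_apply]

theorem dualRep_apply (ρ : G →* (V ≃ₗ[ZMod p] V)) (g : G) (f : Dual (ZMod p) V) (x : V) :
    dualRep ρ g f x = f (ρ g⁻¹ x) := rfl

variable [Finite G]

/-- The orbit as a finite set. -/
noncomputable def orb [Fintype V] (ρ : G →* (V ≃ₗ[ZMod p] V)) (v : V) : Finset V :=
  univ.filter (SameOrb ρ v)

theorem card_orb [Fintype V] (ρ : G →* (V ≃ₗ[ZMod p] V)) (v : V) :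
    (orb ρ v).card = (stab ρ v).index := by
  rw [← card_orbit_eq ρ v, Nat.card_eq_fintype_card, Fintype.card_subtype]
  rfl

theorem zero_notMem_orb [Fintype V] {ρ : G →* (V ≃ₗ[ZMod p] V)} {v : V} (hv : v ≠ 0) :
    (0 : V) ∉ orb ρ v := by
  intro h
  obtain ⟨g, hg⟩ := (mem_filter.1 h).2
  exact hv ((ρ g).map_eq_zero_iff.1 hg)

theorem sum_index [Fintype V] {ρ : G →* (V ≃ₗ[ZMod p] V)} {v w : V}
    (hd : Disjoint (orb ρ v) (orb ρ w)) (hu : orb ρ v ∪ orb ρ w = univ.erase 0) :
    (stab ρ v).index + (stab ρ w).index + 1 = Fintype.card V := by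
  rw [← card_orb, ← card_orb, ← card_union_of_disjoint hd, hu, card_erase_add_one (mem_univ _),
    card_univ]

theorem orb_split [Fintype V] {ρ : G →* (V ≃ₗ[ZMod p] V)} {v w : V} (hv : v ≠ 0) (hw : w ≠ 0)
    (hcov : ∀ u : V, u ≠ 0 → SameOrb ρ v u ∨ SameOrb ρ w u) (hne : ¬ SameOrb ρ v w) :
    Disjoint (orb ρ v) (orb ρ w) ∧ orb ρ v ∪ orb ρ w = univ.erase 0 := by
  constructor
  · rw [disjoint_left]
    intro u h1 h2
    exact hne ((mem_filter.1 h1).2.trans (mem_filter.1 h2).2.symm)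
  · ext u
    simp only [mem_union, mem_erase, mem_univ, and_true]
    constructor
    · rintro (h | h) rfl
      · exact zero_notMem_orb hv h
      · exact zero_notMem_orb hw h
    · intro hu
      simpa [orb] using hcov u hu

/-- The contragredient has as many fixed vectors for each element. -/
theorem card_fixed_dual [Finite V] (ρ : G →* (V ≃ₗ[ZMod p] V)) (g : G) :
    Nat.card {f : Dual (ZMod p) V // dualRep ρ g f = f} = Nat.card {x : V // ρ g x = x} := by
  have : FiniteDimensional (ZMod p) V := Module.Finite.of_finite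
  have : Finite (Dual (ZMod p) V) := Module.finite_of_finite (ZMod p)
  set L : V →ₗ[ZMod p] V := (ρ g⁻¹).toLinearMap - LinearMap.id with hL
  have h1 : {f : Dual (ZMod p) V // dualRep ρ g f = f} ≃ LinearMap.ker L.dualMap :=
    Equiv.subtypeEquivRight fun f => by
      rw [LinearMap.mem_ker, LinearMap.ext_iff, LinearMap.ext_iff]
      simp [hL, dualRep_apply, sub_eq_zero]
  have h2 : {x : V // ρ g x = x} ≃ LinearMap.ker L :=
    Equiv.subtypeEquivRight fun x => by
      simp only [LinearMap.mem_ker, hL, LinearMap.sub_apply, LinearEquiv.coe_coe, LinearMap.id_coe,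
        id_eq, sub_eq_zero]
      constructor
      · intro h
        conv_lhs => rw [← h, ← LinearEquiv.mul_apply, ← map_mul, inv_mul_cancel, map_one]
        rfl
      · intro h
        conv_lhs => rw [← h]
        exact apply_inv_apply ρ g x
  rw [Nat.card_congr h1, Nat.card_congr h2, card_V (p := p) (V := LinearMap.ker L.dualMap),
    card_V (p := p) (V := LinearMap.ker L)]
  congr 1
  have a1 := L.finrank_range_add_finrank_ker
  have a2 := L.dualMap.finrank_range_add_finrank_ker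
  have a3 := L.finrank_range_dualMap_eq_finrank_range
  have a4 : finrank (ZMod p) (Dual (ZMod p) V) = finrank (ZMod p) V := Subspace.dual_finrank_eq
  omega

/-- The contragredient has exactly two orbits on nonzero functionals as well. -/
theorem exists_dual_orbits [Fintype V] [Fintype (Dual (ZMod p) V)] {ρ : G →* (V ≃ₗ[ZMod p] V)}
    {v w : V} (hv : v ≠ 0) (hw : w ≠ 0) (hcov : ∀ u : V, u ≠ 0 → SameOrb ρ v u ∨ SameOrb ρ w u)
    (hne : ¬ SameOrb ρ v w) :
    ∃ f₁ f₂ : Dual (ZMod p) V, f₁ ≠ 0 ∧ f₂ ≠ 0 ∧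
      (∀ f, f ≠ 0 → SameOrb (dualRep ρ) f₁ f ∨ SameOrb (dualRep ρ) f₂ f) ∧
      ¬ SameOrb (dualRep ρ) f₁ f₂ := by
  let _ : Fintype G := Fintype.ofFinite G
  let _ : MulAction G V := MulAction.compHom V ρ
  let _ : MulAction G (Dual (ZMod p) V) := MulAction.compHom _ (dualRep ρ)
  have hq : Fintype.card (Quotient (MulAction.orbitRel G V)) =
      Fintype.card (Quotient (MulAction.orbitRel G (Dual (ZMod p) V))) := by
    refine Nat.eq_of_mul_eq_mul_right (Fintype.card_pos (α := G)) ?_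
    rw [← MulAction.sum_card_fixedBy_eq_card_orbits_mul_card_group,
      ← MulAction.sum_card_fixedBy_eq_card_orbits_mul_card_group]
    refine sum_congr rfl fun g _ => ?_
    rw [← Nat.card_eq_fintype_card, ← Nat.card_eq_fintype_card]
    exact (card_fixed_dual ρ g).symm
  have hrel : ∀ x y : V, (⟦x⟧ : Quotient (MulAction.orbitRel G V)) = ⟦y⟧ ↔ SameOrb ρ y x := fun x y =>
    Quotient.eq.trans Iff.rfl
  have hreld : ∀ x y : Dual (ZMod p) V,
      (⟦x⟧ : Quotient (MulAction.orbitRel G (Dual (ZMod p) V))) = ⟦y⟧ ↔ SameOrb (dualRep ρ) y x :=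
    fun x y => Quotient.eq.trans Iff.rfl
  have h3 : Fintype.card (Quotient (MulAction.orbitRel G V)) = 3 := by
    rw [← card_univ, show (univ : Finset (Quotient (MulAction.orbitRel G V))) = {⟦0⟧, ⟦v⟧, ⟦w⟧} from ?_]
    · have n1 : (⟦(0 : V)⟧ : Quotient (MulAction.orbitRel G V)) ≠ ⟦v⟧ := fun h => by
        obtain ⟨g, hg⟩ := (hrel _ _).1 h
        exact hv ((ρ g).map_eq_zero_iff.1 hg)
      have n2 : (⟦(0 : V)⟧ : Quotient (MulAction.orbitRel G V)) ≠ ⟦w⟧ := fun h => by
        obtain ⟨g, hg⟩ := (hrel _ _).1 h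
        exact hw ((ρ g).map_eq_zero_iff.1 hg)
      have n3 : (⟦v⟧ : Quotient (MulAction.orbitRel G V)) ≠ ⟦w⟧ := fun h => hne ((hrel _ _).1 h).symm
      simp [n1, n2, n3]
    · refine (eq_univ_iff_forall.2 fun q => ?_).symm
      induction q using Quotient.ind with
      | _ u =>
        simp only [mem_insert, mem_singleton, hrel]
        by_cases hu : u = 0
        · exact Or.inl (hu ▸ SameOrb.refl ρ 0)
        · exact Or.inr (hcov u hu)
  rw [h3] at hq
  obtain ⟨φ, hφ⟩ : ∃ φ : Dual (ZMod p) V, φ v ≠ 0 := by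
    by_contra h
    push Not at h
    exact hv ((forall_dual_apply_eq_zero_iff (ZMod p) v).1 h)
  have hφ0 : φ ≠ 0 := fun h => hφ (by simp [h])
  have n1 : (⟦(0 : Dual (ZMod p) V)⟧ : Quotient (MulAction.orbitRel G (Dual (ZMod p) V))) ≠ ⟦φ⟧ :=
    fun h => by
      obtain ⟨g, hg⟩ := (hreld _ _).1 h
      exact hφ0 ((dualRep ρ g).map_eq_zero_iff.1 hg)
  obtain ⟨q, hq'⟩ : ∃ q, q ∉ ({⟦0⟧, ⟦φ⟧} : Finset (Quotient (MulAction.orbitRel G (Dual (ZMod p) V)))) := by
    by_contra h
    push Not at h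
    have := card_le_card (fun q (_ : q ∈ univ) => h q)
    rw [card_univ, ← hq, card_pair n1] at this
    omega
  induction q using Quotient.ind with
  | _ f =>
    simp only [mem_insert, mem_singleton, not_or] at hq'
    have hall : ({⟦0⟧, ⟦φ⟧, ⟦f⟧} : Finset (Quotient (MulAction.orbitRel G (Dual (ZMod p) V)))) = univ := by
      refine eq_univ_of_card _ ?_
      rw [← hq]
      simp [n1, Ne.symm hq'.1, Ne.symm hq'.2]
    refine ⟨φ, f, hφ0, fun h => hq'.1 (by rw [h]), fun k hk => ?_, fun h => hq'.2 ((hreld _ _).2 h)⟩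
    have := hall ▸ mem_univ (⟦k⟧ : Quotient (MulAction.orbitRel G (Dual (ZMod p) V)))
    simp only [mem_insert, mem_singleton, hreld] at this
    rcases this with ⟨g, hg⟩ | h | h
    · exact absurd (by simpa using hg.symm) hk
    · exact Or.inl h
    · exact Or.inr h

/-- The divisibility from the second moment, when the sizes are matched. -/
theorem dvd_of_moment {q a b : ℕ} {t₁ t₂ : ℤ} (hq : 2 ≤ q) (hsum : a + b + 1 = q * q)
    (h1 : (a : ℤ) * t₁ + b * t₂ = -(b : ℤ)) (hd : t₁ - t₂ = q ∨ t₁ - t₂ = -(q : ℤ)) :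
    ((q - 1 ∣ a ∧ q - 1 ∣ b) ∨ (q + 1 ∣ a ∧ q + 1 ∣ b)) := by
  have hs : (a : ℤ) + b + 1 = (q : ℤ) * q := by exact_mod_cast hsum
  have hq' : (1 : ℕ) ≤ q := by omega
  rcases hd with hd | hd
  · have h : ((q : ℤ) + 1) ∣ b := ⟨t₁, by
      refine mul_left_cancel₀ (show ((q : ℤ) - 1) ≠ 0 by omega) ?_
      linear_combination t₁ * hs - h1 - (b : ℤ) * hd⟩
    have hb : q + 1 ∣ b := by exact_mod_cast h
    refine Or.inr ⟨?_, hb⟩
    have h2 : q + 1 ∣ a + b := ⟨q - 1, by
      obtain ⟨k, rfl⟩ : ∃ k, q = k + 1 := ⟨q - 1, by omega⟩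
      simp only [Nat.add_sub_cancel]
      nlinarith⟩
    exact (Nat.dvd_add_left hb).1 h2
  · have h : ((q : ℤ) - 1) ∣ b := ⟨-t₁, by
      refine mul_left_cancel₀ (show ((q : ℤ) + 1) ≠ 0 by omega) ?_
      linear_combination -(t₁ * hs - h1 - (b : ℤ) * hd)⟩
    have hb : q - 1 ∣ b := by
      have : ((q - 1 : ℕ) : ℤ) ∣ b := by rwa [Nat.cast_sub hq', Nat.cast_one]
      exact_mod_cast this
    refine Or.inl ⟨?_, hb⟩
    have h2 : q - 1 ∣ a + b := ⟨q + 1, by
      obtain ⟨k, rfl⟩ : ∃ k, q = k + 1 := ⟨q - 1, by omega⟩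
      simp only [Nat.add_sub_cancel]
      nlinarith⟩
    exact (Nat.dvd_add_left hb).1 h2

/-- The square of the difference of the two values. -/
theorem sq_diff {Q A B a b : ℕ} {t₁ t₂ : ℤ} (hAB : A + B + 1 = Q) (hab : a + b + 1 = Q)
    (h1 : (A : ℤ) * t₁ + B * t₂ = -(b : ℤ))
    (h2 : (A : ℤ) * t₁ ^ 2 + B * t₂ ^ 2 = (Q : ℤ) * b - (b : ℤ) ^ 2) :
    (A : ℤ) * B * (t₁ - t₂) ^ 2 = Q * (a * b) := by
  have hA : (A : ℤ) + B + 1 = Q := by exact_mod_cast hAB
  have ha : (a : ℤ) + b + 1 = Q := by exact_mod_cast hab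
  linear_combination ((A : ℤ) + B) * h2 - ((A : ℤ) * t₁ + B * t₂ - b) * h1 +
    ((Q : ℤ) * b - b ^ 2) * hA - (Q : ℤ) * b * ha

end Sizes

open Sizes

/-- With two scalar closed orbits on nonzero vectors, the orbit sizes are equal or share a large
divisor. -/
theorem size_dichotomy [Finite G] [Finite V] {ρ : G →* (V ≃ₗ[ZMod p] V)} (H : Hyp2 ρ) {v w : V}
    (hv : v ≠ 0) (hw : w ≠ 0) (hcov : ∀ u : V, u ≠ 0 → SameOrb ρ v u ∨ SameOrb ρ w u)
    (hne : ¬ SameOrb ρ v w)
    (hscal : ∀ c : ZMod p, c ≠ 0 → SameOrb ρ v (c • v) ∧ SameOrb ρ w (c • w)) :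
    (stab ρ v).index = (stab ρ w).index ∨ ∃ m, finrank (ZMod p) V = 2 * m ∧
      ((p ^ m - 1 ∣ (stab ρ v).index ∧ p ^ m - 1 ∣ (stab ρ w).index) ∨
        (p ^ m + 1 ∣ (stab ρ v).index ∧ p ^ m + 1 ∣ (stab ρ w).index)) := by
  have : Fintype V := Fintype.ofFinite V
  have : FiniteDimensional (ZMod p) V := Module.Finite.of_finite
  have : Finite (Dual (ZMod p) V) := Module.finite_of_finite (ZMod p)
  have : Fintype (Dual (ZMod p) V) := Fintype.ofFinite _
  have hpr : p.Prime := Fact.out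
  obtain ⟨f₁, f₂, hf₁, hf₂, hcovd, hned⟩ := exists_dual_orbits hv hw hcov hne
  obtain ⟨hd, hu⟩ := orb_split hv hw hcov hne
  obtain ⟨hdd, hud⟩ := orb_split hf₁ hf₂ hcovd hned
  set ρd := dualRep ρ
  set n := finrank (ZMod p) V
  have hQV : Fintype.card V = p ^ n := by rw [← Nat.card_eq_fintype_card, card_V (p := p)]
  have hQD : Fintype.card (Dual (ZMod p) V) = p ^ n := by
    rw [← Nat.card_eq_fintype_card, card_V (p := p), Subspace.dual_finrank_eq]
  have hsum : (stab ρ v).index + (stab ρ w).index + 1 = p ^ n := (sum_index hd hu).trans hQV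
  have hsumd : (stab ρd f₁).index + (stab ρd f₂).index + 1 = p ^ n := (sum_index hdd hud).trans hQD
  -- scalar closure
  have hscw : ∀ (x : V), (∀ c : ZMod p, c ≠ 0 → SameOrb ρ x (c • x)) →
      ∀ u ∈ orb ρ x, ∀ c : ZMod p, c ≠ 0 → c • u ∈ orb ρ x := by
    intro x hx u hu c hc
    refine mem_filter.2 ⟨mem_univ _, ?_⟩
    obtain ⟨g, hg⟩ := (mem_filter.1 hu).2
    exact (hx c hc).trans ⟨g, by rw [map_smul, hg]⟩
  -- constancy of the intersection numbers
  have hconst : ∀ (x : V) (f f' : Dual (ZMod p) V), SameOrb ρd f f' →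
      cnt (LinearEquiv.refl (ZMod p) (Dual (ZMod p) V)) (orb ρ x) f' =
        cnt (LinearEquiv.refl (ZMod p) (Dual (ZMod p) V)) (orb ρ x) f := by
    rintro x f _ ⟨g, rfl⟩
    refine card_equiv (ρ g⁻¹).toEquiv fun u => mem_filter.trans (Iff.trans ?_ mem_filter.symm)
    refine and_congr ⟨fun h => mem_filter.2 ⟨mem_univ _, (mem_filter.1 h).2.trans ⟨g⁻¹, rfl⟩⟩,
      fun h => mem_filter.2 ⟨mem_univ _, (mem_filter.1 h).2.trans ⟨g, ?_⟩⟩⟩ Iff.rfl
    exact apply_inv_apply ρ g u
  have hconst' : ∀ (f : Dual (ZMod p) V) (x x' : V), SameOrb ρ x x' →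
      cnt (Module.evalEquiv (ZMod p) V) (orb ρd f) x' = cnt (Module.evalEquiv (ZMod p) V) (orb ρd f) x := by
    rintro f x _ ⟨g, rfl⟩
    refine card_equiv (ρd g⁻¹).toEquiv fun h => mem_filter.trans (Iff.trans ?_ mem_filter.symm)
    refine and_congr ⟨fun h' => mem_filter.2 ⟨mem_univ _, (mem_filter.1 h').2.trans ⟨g⁻¹, rfl⟩⟩,
      fun h' => mem_filter.2 ⟨mem_univ _, (mem_filter.1 h').2.trans ⟨g, ?_⟩⟩⟩ ?_
    · exact apply_inv_apply ρd g h
    · show h (ρ g x) = 0 ↔ h (ρ g⁻¹⁻¹ x) = 0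
      rw [inv_inv]
  -- first moments
  obtain ⟨t₁, t₂, e1, e2⟩ := moments (LinearEquiv.refl (ZMod p) (Dual (ZMod p) V))
    (zero_notMem_orb (ρ := ρ) hw) (hscw w fun c hc => (hscal c hc).2) (f₁ := f₁) (f₂ := f₂) hdd hud
    (fun f hf => hconst w f₁ f (mem_filter.1 hf).2) (fun f hf => hconst w f₂ f (mem_filter.1 hf).2)
  rw [card_orb, card_orb, card_orb] at e1 e2
  rw [hQD] at e2
  set a := (stab ρ v).index
  set b := (stab ρ w).index
  set a' := (stab ρd f₁).index
  set b' := (stab ρd f₂).index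
  have hcop : ∀ K : Subgroup G, ¬ p ∣ K.index := fun K h => H.cop (h.trans K.index_dvd_card)
  have d1 : (a' : ℤ) * b' * (t₁ - t₂) ^ 2 = (p ^ n : ℕ) * (a * b) := sq_diff hsumd hsum e1 e2
  obtain ⟨k, hk, hk'⟩ : ∃ k : ℕ, (t₁ - t₂) ^ 2 = (p ^ n * k : ℕ) ∧ a' * b' * k = a * b := by
    have h1 : a' * b' * (t₁ - t₂).natAbs ^ 2 = p ^ n * (a * b) := by
      have := congrArg Int.natAbs d1
      simpa [Int.natAbs_mul, Int.natAbs_pow] using this
    have h2 : p ^ n ∣ (t₁ - t₂).natAbs ^ 2 := by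
      refine Nat.Coprime.dvd_of_dvd_mul_left (m := a' * b') ?_ ⟨a * b, h1⟩
      exact (Nat.Coprime.mul_right (hpr.coprime_iff_not_dvd.2 (hcop _))
        (hpr.coprime_iff_not_dvd.2 (hcop _))).pow_left n
    obtain ⟨k, hk⟩ := h2
    refine ⟨k, by rw [← hk, Nat.cast_pow, Int.natAbs_sq], ?_⟩
    rw [hk, mul_left_comm] at h1
    exact Nat.eq_of_mul_eq_mul_left (pow_pos hpr.pos n) h1
  by_cases hab' : a' = b'
  · left
    have hk0 : 1 ≤ k := by
      rcases Nat.eq_zero_or_pos k with rfl | h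
      · rw [Nat.mul_zero] at hk'
        rcases Nat.mul_eq_zero.1 hk'.symm with h | h
        · exact absurd h (Subgroup.index_ne_zero_of_finite)
        · exact absurd h (Subgroup.index_ne_zero_of_finite)
      · exact h
    have hge : a' * a' ≤ a * b := by
      rw [← hk', ← hab']
      exact Nat.le_mul_of_pos_right _ hk0
    have hge' : (a' : ℤ) * a' ≤ (a : ℤ) * b := by exact_mod_cast hge
    have hss : (a : ℤ) + b = 2 * a' := by omega
    have h0 : ((a : ℤ) - b) ^ 2 ≤ 0 := by nlinarith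
    have := pow_eq_zero_iff (n := 2) (by norm_num) |>.1 (le_antisymm h0 (sq_nonneg _))
    omega
  -- the dual orbits are scalar closed
  have hscd : ∀ f : Dual (ZMod p) V, ∀ c : ZMod p, c ≠ 0 → f ≠ 0 → SameOrb ρd f (c • f) := by
    intro f c hc hf
    have himg : orb ρd (c • f) = (orb ρd f).image (c • ·) := by
      ext h
      simp only [orb, mem_filter, mem_univ, true_and, mem_image]
      constructor
      · rintro ⟨g, rfl⟩
        exact ⟨ρd g f, ⟨g, rfl⟩, (map_smul (ρd g) c f).symm⟩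
      · rintro ⟨_, ⟨g, rfl⟩, rfl⟩
        exact ⟨g, map_smul (ρd g) c f⟩
    have hcard : (stab ρd (c • f)).index = (stab ρd f).index := by
      rw [← card_orb, ← card_orb, himg, card_image_of_injective _ (smul_right_injective _ hc)]
    have hclass : ∀ h h' : Dual (ZMod p) V, SameOrb ρd h h' →
        (stab ρd h).index = (stab ρd h').index := fun h h' hh => by
      rw [← card_orb, ← card_orb]
      exact congrArg card (filter_congr fun x _ => ⟨hh.symm.trans, hh.trans⟩)
    rcases hcovd f hf with h | h <;> rcases hcovd (c • f) (smul_ne_zero hc hf) with h' | h'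
    · exact h.symm.trans h'
    · exact absurd ((hclass _ _ h).trans (hcard.symm.trans (hclass _ _ h').symm)) hab'
    · exact absurd ((hclass _ _ h').trans (hcard.trans (hclass _ _ h).symm)) hab'
    · exact h.symm.trans h'
  -- second moments
  obtain ⟨s₁, s₂, e3, e4⟩ := moments (Module.evalEquiv (ZMod p) V)
    (zero_notMem_orb (ρ := ρd) hf₂)
    (fun h hh c hc => by
      refine mem_filter.2 ⟨mem_univ _, (mem_filter.1 hh).2.trans (hscd h c hc ?_)⟩
      rintro rfl
      exact zero_notMem_orb hf₂ hh)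
    (f₁ := v) (f₂ := w) hd hu
    (fun x hx => hconst' f₂ v x (mem_filter.1 hx).2) (fun x hx => hconst' f₂ w x (mem_filter.1 hx).2)
  rw [card_orb, card_orb, card_orb] at e3 e4
  rw [hQV] at e4
  have d2 : (a : ℤ) * b * (s₁ - s₂) ^ 2 = (p ^ n : ℕ) * (a' * b') := sq_diff hsum hsumd e3 e4
  obtain ⟨k₂, hk₂⟩ : ∃ k₂ : ℕ, a * b * k₂ = a' * b' := by
    have h1 : a * b * (s₁ - s₂).natAbs ^ 2 = p ^ n * (a' * b') := by
      have := congrArg Int.natAbs d2
      simpa [Int.natAbs_mul, Int.natAbs_pow] using this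
    obtain ⟨l, hl⟩ : p ^ n ∣ (s₁ - s₂).natAbs ^ 2 :=
      Nat.Coprime.dvd_of_dvd_mul_left ((Nat.Coprime.mul_right (hpr.coprime_iff_not_dvd.2 (hcop _))
        (hpr.coprime_iff_not_dvd.2 (hcop _))).pow_left n) ⟨a' * b', h1⟩
    rw [hl, mul_left_comm] at h1
    exact ⟨l, Nat.eq_of_mul_eq_mul_left (pow_pos hpr.pos n) h1⟩
  have hpos : 0 < a' * b' := Nat.mul_pos (Nat.pos_of_ne_zero Subgroup.index_ne_zero_of_finite)
    (Nat.pos_of_ne_zero Subgroup.index_ne_zero_of_finite)
  have hk1 : k = 1 := by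
    rw [← hk', mul_assoc] at hk₂
    have h := Nat.eq_of_mul_eq_mul_left hpos (hk₂.trans (mul_one _).symm)
    exact Nat.eq_one_of_mul_eq_one_right h
  subst hk1
  rw [mul_one] at hk hk'
  right
  have hn : ((t₁ - t₂).natAbs) ^ 2 = p ^ n := by
    have := congrArg Int.natAbs hk
    simpa [Int.natAbs_pow] using this
  obtain ⟨i, -, hi⟩ := (Nat.dvd_prime_pow hpr).1 (hn ▸ dvd_pow_self _ (by norm_num : 2 ≠ 0))
  rw [hi, ← pow_mul] at hn
  have hn2 : n = 2 * i := (Nat.pow_right_injective hpr.two_le hn).symm.trans (mul_comm _ _)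
  refine ⟨i, hn2, ?_⟩
  have hqq : p ^ n = p ^ i * p ^ i := by rw [hn2, two_mul, pow_add]
  have hi1 : 2 ≤ p ^ i := by
    rcases Nat.eq_zero_or_pos i with rfl | h
    · simp [hn2] at hsum
      exact absurd hsum.1 Subgroup.index_ne_zero_of_finite
    · exact hpr.two_le.trans (Nat.le_self_pow h.ne' p)
  have hdiff : t₁ - t₂ = (p ^ i : ℕ) ∨ t₁ - t₂ = -((p ^ i : ℕ) : ℤ) := by
    rcases Int.natAbs_eq (t₁ - t₂) with h | h
    · left; rw [h, hi]
    · right; rw [h, hi]
  -- matching the sizes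
  have hmatch : (a' = a ∧ b' = b) ∨ (a' = b ∧ b' = a) := by
    have h1 : (a' : ℤ) + b' = a + b := by omega
    have h2 : (a' : ℤ) * b' = a * b := by exact_mod_cast hk'
    have : ((a' : ℤ) - a) * (a' - b) = 0 := by linear_combination (a' : ℤ) * h1 - h2
    rcases mul_eq_zero.1 this with h | h
    · left; omega
    · right; omega
  rcases hmatch with ⟨ha, hb⟩ | ⟨ha, hb⟩
  · rw [ha, hb] at e1
    exact dvd_of_moment hi1 (hsum.trans hqq) e1 hdiff
  · rw [ha, hb] at e1
    refine dvd_of_moment (t₁ := t₂) (t₂ := t₁) hi1 (hsum.trans hqq) (by linarith) ?_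
    rcases hdiff with h | h
    · right; linarith
    · left; linarith

end Cfsg.Agent.H27.ThreeCl
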