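import Cfsg.Agent.H27.ThreeCl.Count
import Cfsg.Agent.H27.ThreeCl.OrbitR
import Cfsg.Agent.H27.ThreeCl.Arith
import Cfsg.Agent.H27.ThreeCl.Semi
import Cfsg.Agent.H27.ThreeCl.Sizes
import Cfsg.Agent.H27.ThreeCl.Plane
import Cfsg.Agent.H27.ThreeCl.Exceptional

/-!
A coprime irreducible linear group of dimension at least two with at most two orbits on nonzero
vectors has more than `(p - 1) / 2` classes.
-/

set_option autoImplicit false
set_option linter.unusedSectionVars false

namespace Cfsg.Agent.H27.ThreeCl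

open Module Cfsg.Agent.H45.Trans
open scoped Classical

universe u v

variable {p : ℕ} [Fact p.Prime] {V : Type v} [AddCommGroup V] [Module (ZMod p) V] [Finite V]
  {G : Type u} [Group G] [Finite G]

theorem finish_count {p n k X : ℕ} (h : X ≤ n * (k - 1)) (h2 : n * (p - 3) < 2 * X) : p - 1 < 2 * k := by
  have h1 : n * (p - 3) < n * (2 * (k - 1)) := by rw [show n * (2 * (k - 1)) = 2 * (n * (k - 1)) by ring]; omega
  have := Nat.lt_of_mul_lt_mul_left h1
  omega

theorem card_le_two_of_classes (h : Nat.card (ConjClasses G) ≤ 2) : Nat.card G ≤ 2 := by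
  haveI := Fintype.ofFinite G
  by_contra hc
  haveI : Nontrivial G := Finite.one_lt_card_iff_nontrivial.1 (by omega)
  obtain ⟨g, hg⟩ := exists_ne (1 : G)
  have hall : ∀ x : G, x ≠ 1 → IsConj g x := by
    intro x hx
    by_contra hn
    have h3 : Function.Injective (![ConjClasses.mk 1, ConjClasses.mk g, ConjClasses.mk x] : Fin 3 → ConjClasses G) := by
      have e1 : ∀ y : G, y ≠ 1 → ConjClasses.mk 1 ≠ ConjClasses.mk y := fun y hy e =>
        hy ((isConj_one_right).1 (ConjClasses.mk_eq_mk_iff_isConj.1 e.symm).symm)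
      have e2 : ConjClasses.mk g ≠ ConjClasses.mk x := fun e => hn (ConjClasses.mk_eq_mk_iff_isConj.1 e)
      have a1 := e1 g hg
      have a2 := e1 x hx
      intro i j hij
      fin_cases i <;> fin_cases j <;> simp_all [eq_comm]
    have := Nat.card_le_card_of_injective _ h3
    rw [Nat.card_eq_fintype_card, Fintype.card_fin] at this
    omega
  have hcar : (ConjClasses.mk g).carrier = ({1}ᶜ : Set G) := by
    ext x
    rw [ConjClasses.mem_carrier_iff_mk_eq, ConjClasses.mk_eq_mk_iff_isConj, Set.mem_compl_singleton_iff]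
    refine ⟨fun hxg hx1 => hg ?_, fun hx => (hall x hx).symm⟩
    subst hx1
    exact (isConj_one_right).1 hxg
  have h4 : Nat.card (ConjClasses.mk g).carrier = Nat.card G - 1 := by
    rw [hcar, Nat.card_coe_set_eq, Set.ncard_compl, Set.ncard_singleton]
  have h5 : (ConjClasses.mk g).carrier.ncard ∣ Nat.card G := by
    rw [show (ConjClasses.mk g).carrier = MulAction.orbit (ConjAct G) g from (ConjAct.orbit_eq_carrier_conjClasses g).symm,
      ← MulAction.index_stabilizer]
    exact (Subgroup.index_dvd_card _).trans (dvd_of_eq (Nat.card_congr ConjAct.ofConjAct.toEquiv))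
  rw [← Nat.card_coe_set_eq, h4] at h5
  have h6 := Nat.dvd_sub h5 (dvd_refl (Nat.card G - 1))
  rw [show Nat.card G - (Nat.card G - 1) = 1 by omega, Nat.dvd_one] at h6
  omega

theorem index_eq_of_sameOrb {ρ : G →* (V ≃ₗ[ZMod p] V)} {v w : V} (h : SameOrb ρ v w) :
    (stab ρ v).index = (stab ρ w).index := by
  rw [← card_orbit_eq, ← card_orbit_eq]
  exact Nat.card_congr (Equiv.subtypeEquivRight fun u => ⟨fun h' => h.symm.trans h', fun h' => h.trans h'⟩)

theorem stab_smul (ρ : G →* (V ≃ₗ[ZMod p] V)) {v : V} {c : ZMod p} (hc : c ≠ 0) :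
    stab ρ (c • v) = stab ρ v := by
  ext g
  rw [mem_stab, mem_stab, map_smul]
  exact ⟨fun h => smul_right_injective V hc h, fun h => by rw [h]⟩

/-- The count with prime power elements. -/
theorem count_ppd {ρ : G →* (V ≃ₗ[ZMod p] V)} (hρ : Function.Injective ρ) (hcop : ¬ p ∣ Nat.card G)
    {t : ℕ} (ht : t ≤ 2) (u : Fin t → V)
    (hu0 : ∀ i, u i ≠ 0) (hdis : ∀ i j, i ≠ j → ¬ SameOrb ρ (u i) (u j))
    (hclosed : ∀ i, ∀ c : ZMod p, c ≠ 0 → SameOrb ρ (u i) (c • u i))
    (P : Finset ℕ) (e : ℕ → ℕ) (he : ∀ r ∈ P, r.Prime ∧ e r ≠ 0 ∧ ¬ r ∣ p - 1 ∧ ∃ x : G, orderOf x = r ^ e r) :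
    t * (p - 2) + ∑ r ∈ P, (r ^ e r - 1) ≤ finrank (ZMod p) V * (Nat.card (ConjClasses G) - 1) := by
  choose! x hx using fun r hr => (he r hr).2.2.2
  have hinj : Set.InjOn x P := by
    intro r hr s hs hrs
    have h1 := hx r hr
    rw [hrs, hx s hs] at h1
    exact ((Nat.prime_dvd_prime_iff_eq (he s hs).1 (he r hr).1).1
      ((he s hs).1.dvd_of_dvd_pow (h1 ▸ dvd_pow_self s (he s hs).2.1))).symm
  have h := count_classes hρ hcop ht u hu0 hdis (fun _ => hclosed)
    (((Finset.univ : Finset (ZMod p)).erase 0).erase 1)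
    (fun c hc => by simp at hc; exact ⟨hc.2, hc.1⟩)
    (fun i c hc => hclosed i c (by simp at hc; exact hc.2)) (P.image x)
    (fun y hy => by
      obtain ⟨r, hr, rfl⟩ := Finset.mem_image.1 hy
      exact ⟨r, e r, (he r hr).1, hx r hr, (he r hr).2.2.1⟩)
    (fun y hy z hz hyz => by
      obtain ⟨r, hr, rfl⟩ := Finset.mem_image.1 hy
      obtain ⟨s, hs, rfl⟩ := Finset.mem_image.1 hz
      rw [hx r hr, hx s hs]
      exact Nat.coprime_pow_primes _ _ (he r hr).1 (he s hs).1 (fun e' => hyz (by rw [e'])))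
  rw [Finset.sum_image hinj, Finset.card_erase_of_mem (by simp), Finset.card_erase_of_mem (Finset.mem_univ _),
    Finset.card_univ, ZMod.card] at h
  refine le_trans (le_of_eq ?_) h
  rw [show p - 1 - 1 = p - 2 by omega]
  exact congrArg _ (Finset.sum_congr rfl fun r hr => by rw [hx r hr])

theorem exists_x_prime {r : ℕ} (hr : r.Prime) (h : r ∣ Nat.card G) : ∃ x : G, orderOf x = r ^ 1 := by
  haveI := Fact.mk hr
  obtain ⟨x, hx⟩ := exists_prime_orderOf_dvd_card' r h
  exact ⟨x, by rw [pow_one, hx]⟩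

/-- The semilinear case. -/
theorem case_semilinear {ρ : G →* (V ≃ₗ[ZMod p] V)} (H : Hyp2 ρ) (h7 : 7 ≤ p)
    (hn : 3 ≤ finrank (ZMod p) V)
    (hdiv : ∀ r k, Ppd p (finrank (ZMod p) V) r → r ^ k ∣ p ^ finrank (ZMod p) V - 1 → r ^ k ∣ Nat.card G)
    (hex : p = 17 → finrank (ZMod p) V = 6 → p - 1 < 2 * Nat.card (ConjClasses G)) :
    p - 1 < 2 * Nat.card (ConjClasses G) := by
  rcases exists_good_ppd (n := finrank (ZMod p) V) (Fact.out : p.Prime) h7 hn with ⟨h1, h2⟩ | ⟨r, hr, hbig⟩
  · exact hex h1 h2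
  haveI := Fact.mk hr.1
  obtain ⟨R⟩ : Nonempty (Sylow r G) := inferInstance
  have hr1 : r ∣ Nat.card G := by
    have := hdiv r 1 hr (by rw [pow_one]; exact hr.2.1)
    rwa [pow_one] at this
  have hne : (R : Subgroup G) ≠ ⊥ := R.ne_bot_of_dvd_card hr1
  obtain ⟨hnor, hab⟩ : (R : Subgroup G).Normal ∧ ∀ a ∈ (R : Subgroup G), ∀ b ∈ (R : Subgroup G), a * b = b * a := by
    rcases hbig with hb | hb
    · exact normal_sylow_of_big H.inj H.cop hb R
    · exact normal_sylow_of_sq H.inj H.cop (by omega) hr (hdiv r 2 hr hb) R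
  exact semilinear_count H h7 hn hr (R : Subgroup G) hnor hne hab R.isPGroup'

/-- The case of orbits divisible by `p ^ m - 1`. -/
theorem case_double {ρ : G →* (V ≃ₗ[ZMod p] V)} (H : Hyp2 ρ) (h7 : 7 ≤ p) {m : ℕ} (hm : 3 ≤ m)
    (hn : finrank (ZMod p) V = 2 * m) (hidx : ∀ v : V, v ≠ 0 → p ^ m - 1 ∣ (stab ρ v).index)
    (u : Fin 2 → V) (hu0 : ∀ i, u i ≠ 0) (hdis : ∀ i j, i ≠ j → ¬ SameOrb ρ (u i) (u j))
    (hclosed : ∀ i, ∀ c : ZMod p, c ≠ 0 → SameOrb ρ (u i) (c • u i)) :
    p - 1 < 2 * Nat.card (ConjClasses G) := by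
  have hpm : 1 < p ^ m := Nat.one_lt_pow (by omega) (Fact.out : p.Prime).one_lt
  haveI : Nontrivial V := Module.finrank_pos_iff.1 (by omega : 0 < finrank (ZMod p) V)
  have hG : p ^ m - 1 ∣ Nat.card G := (hidx (u 0) (hu0 0)).trans (Subgroup.index_dvd_card _)
  have hm0 : 0 < m := by omega
  have hgen : ∀ {r : ℕ}, Ppd p m r → r ≠ 2 ∧ (p ^ m - 1).factorization r ≠ 0 ∧ ¬ r ∣ p - 1 := by
    intro r hr
    have := succ_le_ppd (Fact.out : p.Prime) hm0 hr
    exact ⟨by omega, (hr.1.factorization_pos_of_dvd (by omega) hr.2.1).ne',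
      fun h => hr.2.2 1 one_pos (by omega) (by rwa [pow_one])⟩
  by_cases hsmall : ∀ r, Ppd p m r → r ≤ 4 * m + 1
  swap
  · push Not at hsmall
    obtain ⟨r, hr, hbig⟩ := hsmall
    haveI := Fact.mk hr.1
    obtain ⟨R⟩ : Nonempty (Sylow r G) := inferInstance
    obtain ⟨hnor, hab⟩ := normal_sylow_of_big H.inj H.cop (r := r) (by omega) R
    exact two_component_count H h7 hm hn hr (R : Subgroup G) hnor
      (R.ne_bot_of_dvd_card (hr.2.1.trans hG)) hab R.isPGroup'
  have hx : ∀ r, Ppd p m r → ∃ x : G, orderOf x = r ^ (p ^ m - 1).factorization r := by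
    intro r hr
    haveI := Fact.mk hr.1
    exact exists_orderOf_ppd H.inj hm0 hn hr (hgen hr).1 (hgen hr).2.1 fun v hv =>
      (Nat.ordProj_dvd (p ^ m - 1) r).trans (hidx v hv)
  by_cases hbd : ∀ r, Ppd p m r → r ^ (p ^ m - 1).factorization r ≤ 12 ^ (2 * m)
  swap
  · push Not at hbd
    obtain ⟨r, hr, hbig⟩ := hbd
    haveI := Fact.mk hr.1
    obtain ⟨x, hxo⟩ := hx r hr
    obtain ⟨Y, hY, hne, hab, hYr⟩ := exists_normal_of_orderOf H.inj H.cop hxo (by rw [hn]; exact hbig)
    exact two_component_count H h7 hm hn hr Y hY hne hab hYr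
  rcases ppdSum_big (Fact.out : p.Prime) h7 hm hsmall hbd with ⟨h1, h2⟩ | ⟨h1, h2⟩ | ⟨h1, h2⟩ | hlt
  · subst h2
    exact exceptional_count H h1 hn hidx u hu0 hdis hclosed
  · subst h1 h2
    have h := count_ppd H.inj H.cop le_rfl u hu0 hdis hclosed {307} (fun _ => 1) (by
      intro r hr
      rw [Finset.mem_singleton] at hr
      subst hr
      exact ⟨by norm_num, one_ne_zero, by norm_num, exists_x_prime (by norm_num) ((show 307 ∣ 17 ^ 6 - 1 by norm_num).trans hG)⟩)
    rw [hn] at h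
    exact finish_count h (by simp)
  · subst h1 h2
    have h := count_ppd H.inj H.cop le_rfl u hu0 hdis hclosed {331} (fun _ => 1) (by
      intro r hr
      rw [Finset.mem_singleton] at hr
      subst hr
      exact ⟨by norm_num, one_ne_zero, by norm_num, exists_x_prime (by norm_num) ((show 331 ∣ 31 ^ 6 - 1 by norm_num).trans hG)⟩)
    rw [hn] at h
    exact finish_count h (by simp)
  · have h := count_ppd H.inj H.cop le_rfl u hu0 hdis hclosed
      ((p ^ m - 1).primeFactors.filter (Ppd p m)) (fun r => (p ^ m - 1).factorization r) (by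
      intro r hr
      have hr' := (Finset.mem_filter.1 hr).2
      exact ⟨hr'.1, (hgen hr').2.1, (hgen hr').2.2, hx r hr'⟩)
    rw [hn] at h
    refine finish_count h ?_
    rw [show 2 * m * (p - 3) = 2 * (m * (p - 3)) by ring]
    have hs : ∑ r ∈ (p ^ m - 1).primeFactors.filter (Ppd p m), (r ^ (p ^ m - 1).factorization r - 1) = ppdSum p m := by
      unfold ppdSum; congr 1; ext r; simp
    omega

/-- The main counting theorem. -/
theorem core {ρ : G →* (V ≃ₗ[ZMod p] V)} (H : Hyp2 ρ) (hn : 2 ≤ finrank (ZMod p) V) :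
    p - 1 < 2 * Nat.card (ConjClasses G) := by
  have hp : p.Prime := Fact.out
  have hkpos : 0 < Nat.card (ConjClasses G) := Nat.card_pos
  have hcard := H.card_le
  by_cases h7 : p < 7
  · by_contra hc
    have hp5 : p = 5 ∨ p < 5 := by
      rcases (show p = 6 ∨ p = 5 ∨ p < 5 by omega) with h | h | h
      · subst h; norm_num at hp
      · exact Or.inl h
      · exact Or.inr h
    have hk2 : Nat.card (ConjClasses G) ≤ 2 := by omega
    have h2 := card_le_two_of_classes hk2
    have hpn : p ^ 2 ≤ p ^ finrank (ZMod p) V := Nat.pow_le_pow_right hp.pos hn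
    rcases hp5 with h | h
    · subst h; omega
    · have : 3 ≤ p := by
        by_contra h3
        have := hp.two_le
        omega
      have : 3 ^ 2 ≤ p ^ 2 := Nat.pow_le_pow_left this 2
      omega
  rw [not_lt] at h7
  haveI : Nontrivial V := Module.finrank_pos_iff.1 (by omega : 0 < finrank (ZMod p) V)
  obtain ⟨v, w, hv, hw, hcov⟩ := H.two
  have hQ : 1 ≤ p ^ finrank (ZMod p) V := Nat.one_le_pow _ _ hp.pos
  have hnz : Nat.card {u : V // u ≠ 0} = p ^ finrank (ZMod p) V - 1 := by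
    have := Fintype.ofFinite V
    rw [Nat.card_eq_fintype_card, Fintype.card_subtype_compl, Fintype.card_subtype_eq,
      ← Nat.card_eq_fintype_card, card_V (p := p) (V := V)]
  have horb0 : ∀ {x u : V}, x ≠ 0 → SameOrb ρ x u → u ≠ 0 := by
    rintro x u hx ⟨g, rfl⟩ h
    exact hx ((ρ g).map_eq_zero_iff.1 h)
  have hodd2 : ∀ {r k : ℕ}, Ppd p (finrank (ZMod p) V) r → 3 ≤ finrank (ZMod p) V →
      r ^ k ∣ 2 * Nat.card G → r ^ k ∣ Nat.card G := by
    intro r k hr h3 h
    refine (Nat.Coprime.pow_left _ ((Nat.coprime_primes hr.1 Nat.prime_two).2 ?_)).dvd_of_dvd_mul_left h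
    have := succ_le_ppd hp (by omega) hr
    omega
  -- both sizes equal
  have heq : p ^ finrank (ZMod p) V - 1 ∣ 2 * Nat.card G →
      3 ≤ finrank (ZMod p) V → p - 1 < 2 * Nat.card (ConjClasses G) := by
    intro hd h3
    refine case_semilinear H h7 h3 (fun r k hr hk => hodd2 hr h3 (hk.trans hd)) fun h17 h6 => ?_
    subst h17
    rw [h6] at hd
    have h307 : 307 ∣ Nat.card G :=
      (Nat.Coprime.dvd_of_dvd_mul_left (by norm_num : Nat.Coprime 307 2) ((show 307 ∣ 17 ^ 6 - 1 by norm_num).trans hd))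
    have h := count_ppd H.inj H.cop (t := 0) (by omega) (fun i => i.elim0) (fun i => i.elim0)
      (fun i => i.elim0) (fun i => i.elim0) {307} (fun _ => 1) (by
      intro r hr
      rw [Finset.mem_singleton] at hr
      subst hr
      exact ⟨by norm_num, one_ne_zero, by norm_num, exists_x_prime (by norm_num) h307⟩)
    rw [h6] at h
    exact finish_count h (by simp)
  by_cases hone : SameOrb ρ v w
  · -- one orbit
    have hall : ∀ u : V, u ≠ 0 → SameOrb ρ v u := fun u hu =>
      (hcov u hu).elim id fun h => hone.trans h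
    have hidx : (stab ρ v).index = p ^ finrank (ZMod p) V - 1 := by
      rw [← card_orbit_eq, ← hnz]
      exact Nat.card_congr (Equiv.subtypeEquivRight fun u => ⟨horb0 hv, hall u⟩)
    rcases (show finrank (ZMod p) V = 2 ∨ 3 ≤ finrank (ZMod p) V by omega) with h2 | h3
    · have h := count_ppd H.inj H.cop (t := 1) (by omega) (fun _ => v) (fun _ => hv)
        (fun i j hij => absurd (Subsingleton.elim i j) hij)
        (fun _ c hc => hall _ (smul_ne_zero hc hv)) ∅ (fun _ => 1) (by simp)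
      rw [h2] at h
      exact finish_count h (by simp; omega)
    · exact heq (hidx ▸ (Subgroup.index_dvd_card _).trans (dvd_mul_left _ _)) h3
  -- two orbits
  have hsum : (stab ρ v).index + (stab ρ w).index = p ^ finrank (ZMod p) V - 1 := by
    rw [← card_orbit_eq, ← card_orbit_eq, ← hnz, ← Nat.card_sum]
    refine Nat.card_congr (Equiv.ofBijective
      (Sum.elim (fun u => ⟨u.1, horb0 hv u.2⟩) (fun u => ⟨u.1, horb0 hw u.2⟩)) ⟨?_, ?_⟩)
    · rintro (⟨a, ha⟩ | ⟨a, ha⟩) (⟨b, hb⟩ | ⟨b, hb⟩) h <;>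
        obtain rfl : a = b := congrArg Subtype.val h
      · rfl
      · exact absurd (ha.trans hb.symm) hone
      · exact absurd (hb.trans ha.symm) hone
      · rfl
    · rintro ⟨u, hu⟩
      rcases hcov u hu with h | h
      · exact ⟨Sum.inl ⟨u, h⟩, rfl⟩
      · exact ⟨Sum.inr ⟨u, h⟩, rfl⟩
  have hG1 : ∀ x : V, (stab ρ x).index ∣ Nat.card G := fun x => Subgroup.index_dvd_card _
  have hequal : (stab ρ v).index = (stab ρ w).index →
      p ^ finrank (ZMod p) V - 1 ∣ 2 * Nat.card G := fun e => by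
    rw [← hsum, ← e, ← two_mul]
    exact mul_dvd_mul_left 2 (hG1 v)
  by_cases hcl : ∀ c : ZMod p, c ≠ 0 → SameOrb ρ v (c • v) ∧ SameOrb ρ w (c • w)
  swap
  · -- some scalar interchanges the orbits
    push Not at hcl
    obtain ⟨c, hc, hswap⟩ := hcl
    have e : (stab ρ v).index = (stab ρ w).index := by
      by_cases h : SameOrb ρ v (c • v)
      · have h2 := (hcov _ (smul_ne_zero hc hw)).resolve_right (hswap h)
        rw [index_eq_of_sameOrb h2, stab_smul ρ hc]
      · have h2 := (hcov _ (smul_ne_zero hc hv)).resolve_left h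
        rw [index_eq_of_sameOrb h2, stab_smul ρ hc]
    rcases (show finrank (ZMod p) V = 2 ∨ 3 ≤ finrank (ZMod p) V by omega) with h2 | h3
    · exact plane_count H h7 h2 (h2 ▸ hequal e)
    · exact heq (hequal e) h3
  let u : Fin 2 → V := ![v, w]
  have hu0 : ∀ i, u i ≠ 0 := by intro i; fin_cases i <;> assumption
  have hdis : ∀ i j, i ≠ j → ¬ SameOrb ρ (u i) (u j) := by
    intro i j hij
    fin_cases i <;> fin_cases j
    · exact absurd rfl hij
    · exact hone
    · exact fun h => hone h.symm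
    · exact absurd rfl hij
  have hclosed : ∀ i, ∀ c : ZMod p, c ≠ 0 → SameOrb ρ (u i) (c • u i) := by
    intro i c hc
    fin_cases i
    · exact (hcl c hc).1
    · exact (hcl c hc).2
  by_cases h4 : finrank (ZMod p) V ≤ 4
  · have h := count_ppd H.inj H.cop le_rfl u hu0 hdis hclosed ∅ (fun _ => 1) (by simp)
    refine finish_count h ?_
    simp only [Finset.sum_empty, add_zero]
    have := Nat.mul_le_mul_right (p - 3) h4
    omega
  rcases size_dichotomy H hv hw hcov hone hcl with e | ⟨m, hm, hd⟩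
  · exact heq (hequal e) (by omega)
  have hall : ∀ {d : ℕ}, d ∣ (stab ρ v).index → d ∣ (stab ρ w).index →
      ∀ x : V, x ≠ 0 → d ∣ (stab ρ x).index := by
    intro d hdv hdw x hx
    rcases hcov x hx with h | h <;> rw [← index_eq_of_sameOrb h] <;> assumption
  rcases hd with ⟨hdv, hdw⟩ | ⟨hdv, hdw⟩
  · exact case_double H h7 (by omega) hm (hall hdv hdw) u hu0 hdis hclosed
  · refine case_semilinear H h7 (by omega) (fun r k hr hk => ?_) fun h17 h6 => ?_
    · have hfac : p ^ finrank (ZMod p) V - 1 = (p ^ m + 1) * (p ^ m - 1) := by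
        rw [hm, show p ^ (2 * m) = (p ^ m) ^ 2 by rw [← pow_mul, mul_comm]]
        exact Nat.sq_sub_sq (p ^ m) 1 ▸ by rw [one_pow]
      rw [hfac] at hk
      refine ((Nat.Coprime.pow_left _ ((hr.1.coprime_iff_not_dvd).2
        (hr.2.2 m (by omega) (by omega)))).dvd_of_dvd_mul_right hk).trans (hdv.trans (hG1 v))
    · subst h17
      obtain rfl : m = 3 := by omega
      have hG : 17 ^ 3 + 1 ∣ Nat.card G := hdv.trans (hG1 v)
      have h := count_ppd H.inj H.cop le_rfl u hu0 hdis hclosed {7, 13} (fun _ => 1) (by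
        intro r hr
        simp only [Finset.mem_insert, Finset.mem_singleton] at hr
        rcases hr with rfl | rfl
        · exact ⟨by norm_num, one_ne_zero, by norm_num, exists_x_prime (by norm_num) ((show 7 ∣ 17 ^ 3 + 1 by norm_num).trans hG)⟩
        · exact ⟨by norm_num, one_ne_zero, by norm_num, exists_x_prime (by norm_num) ((show 13 ∣ 17 ^ 3 + 1 by norm_num).trans hG)⟩)
      rw [h6] at h
      exact finish_count h (by simp)

end Cfsg.Agent.H27.ThreeCl
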