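import Cfsg.Agent.H27.ThreeCl.Defs

/-!
Counting classes by eigenvalues: an element class has at most `n` eigenvalues.
-/

set_option autoImplicit false
set_option linter.unusedSectionVars false

namespace Cfsg.Agent.H27.ThreeCl

open Module Cfsg.Agent.H45.Trans Polynomial Finset
open scoped Classical

universe u v

variable {p : ℕ} [Fact p.Prime] {V : Type v} [AddCommGroup V] [Module (ZMod p) V] [Finite V]
  {G : Type u} [Group G] [Finite G]

local notation "K" => AlgebraicClosure (ZMod p)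

/-- The matrix of an element over the algebraic closure. -/
noncomputable def matK (ρ : G →* (V ≃ₗ[ZMod p] V)) :
    G →* Matrix (Fin (finrank (ZMod p) V)) (Fin (finrank (ZMod p) V)) K where
  toFun g := (LinearMap.toMatrix (Module.finBasis (ZMod p) V) (Module.finBasis (ZMod p) V)
    (ρ g).toLinearMap).map (algebraMap (ZMod p) K)
  map_one' := by
    rw [map_one]
    show (LinearMap.toMatrix _ _ LinearMap.id).map _ = 1
    rw [LinearMap.toMatrix_id, Matrix.map_one _ (map_zero _) (map_one _)]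
  map_mul' g h := by
    rw [map_mul]
    show (LinearMap.toMatrix _ _ ((ρ g).toLinearMap ∘ₗ (ρ h).toLinearMap)).map _ = _
    rw [LinearMap.toMatrix_comp _ (Module.finBasis (ZMod p) V), Matrix.map_mul]

theorem matK_injective {ρ : G →* (V ≃ₗ[ZMod p] V)} (hρ : Function.Injective ρ) :
    Function.Injective (matK ρ) := fun g h hgh => hρ (LinearEquiv.toLinearMap_injective
      ((LinearMap.toMatrix (Module.finBasis (ZMod p) V) (Module.finBasis (ZMod p) V)).injective
        (Matrix.map_injective (algebraMap (ZMod p) K).injective hgh)))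

/-- The eigenvalues of an element over the algebraic closure. -/
noncomputable def eig (ρ : G →* (V ≃ₗ[ZMod p] V)) (g : G) : Finset K :=
  (matK ρ g).charpoly.roots.toFinset

theorem mem_eig {ρ : G →* (V ≃ₗ[ZMod p] V)} {g : G} {a : K} :
    a ∈ eig ρ g ↔ a ∈ spectrum K (matK ρ g) := by
  rw [eig, Multiset.mem_toFinset, Polynomial.mem_roots (Matrix.charpoly_monic _).ne_zero,
    Matrix.mem_spectrum_iff_isRoot_charpoly]

theorem card_eig_le (ρ : G →* (V ≃ₗ[ZMod p] V)) (g : G) :
    (eig ρ g).card ≤ finrank (ZMod p) V :=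
  (Multiset.toFinset_card_le _).trans ((Polynomial.card_roots' _).trans_eq
    (by rw [Matrix.charpoly_natDegree_eq_dim, Fintype.card_fin]))

theorem eig_conj (ρ : G →* (V ≃ₗ[ZMod p] V)) (c g : G) : eig ρ (c * g * c⁻¹) = eig ρ g := by
  ext a
  rw [mem_eig, mem_eig, map_mul, map_mul,
    show matK ρ c = ((Units.map (matK ρ) (toUnits c) : (Matrix _ _ K)ˣ) : Matrix _ _ K) from rfl,
    show matK ρ c⁻¹ = (((Units.map (matK ρ) (toUnits c))⁻¹ : (Matrix _ _ K)ˣ) : Matrix _ _ K) from rfl,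
    spectrum.units_conjugate]

theorem pow_mem_eig {ρ : G →* (V ≃ₗ[ZMod p] V)} {g : G} {a : K} (h : a ∈ eig ρ g) (j : ℕ) :
    a ^ j ∈ eig ρ (g ^ j) := by
  rw [mem_eig, map_pow]
  exact spectrum.pow_mem_pow _ _ (mem_eig.1 h)

theorem pow_orderOf_eq_one_of_mem_eig {ρ : G →* (V ≃ₗ[ZMod p] V)} {g : G} {a : K}
    (h : a ∈ eig ρ g) (N : ℕ) (hN : g ^ N = 1) : a ^ N = 1 := by
  have h' := pow_mem_eig h N
  rw [hN, mem_eig, map_one] at h'
  rcases isEmpty_or_nonempty (Fin (finrank (ZMod p) V)) with he | he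
  · haveI : Subsingleton (Matrix (Fin (finrank (ZMod p) V)) (Fin (finrank (ZMod p) V)) K) :=
      inferInstance
    rw [spectrum.of_subsingleton] at h'
    exact h'.elim
  · simpa [spectrum.one_eq] using h'

/-- An element of prime power order has an eigenvalue of the same order. -/
theorem exists_eig_orderOf {ρ : G →* (V ≃ₗ[ZMod p] V)} (hρ : Function.Injective ρ)
    (hcop : ¬ p ∣ Nat.card G) {x : G} {r e : ℕ} (hr : r.Prime) (hx : orderOf x = r ^ (e + 1)) :
    ∃ a ∈ eig ρ x, orderOf a = r ^ (e + 1) := by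
  haveI := Fact.mk hr
  by_contra hne
  push Not at hne
  have hN : x ^ r ^ (e + 1) = 1 := hx ▸ pow_orderOf_eq_one x
  have hall : ∀ a ∈ eig ρ x, a ^ r ^ e = 1 := by
    intro a ha
    by_contra hc
    exact hne a ha (orderOf_eq_prime_pow hc (pow_orderOf_eq_one_of_mem_eig ha _ hN))
  set A := matK ρ x with hA
  have hμN : minpoly K A ∣ X ^ r ^ (e + 1) - 1 := minpoly.dvd K A (by
    simp only [map_sub, map_pow, aeval_X, map_one]
    rw [hA, ← map_pow, hN, map_one, sub_self])
  have hrp : ((r ^ (e + 1) : ℕ) : K) ≠ 0 := fun h => by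
    rw [CharP.cast_eq_zero_iff K p] at h
    exact hcop (h.trans (hx ▸ orderOf_dvd_natCard x))
  have hsep : (minpoly K A).Separable :=
    (Polynomial.X_pow_sub_one_separable_iff.2 hrp).of_dvd hμN
  have hmon : (minpoly K A).Monic := minpoly.monic (Matrix.isIntegral A)
  have h0 : (X ^ r ^ e - 1 : K[X]) ≠ 0 :=
    (Polynomial.monic_X_pow_sub_C (1 : K) (pow_ne_zero _ hr.ne_zero)).ne_zero
  have hdvd : minpoly K A ∣ X ^ r ^ e - 1 := by
    rw [(IsAlgClosed.splits (minpoly K A)).eq_prod_roots_of_monic hmon]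
    refine (Multiset.prod_X_sub_C_dvd_iff_le_roots h0 _).2
      ((Multiset.le_iff_subset (Polynomial.nodup_roots hsep)).2 fun a ha => ?_)
    have hc : a ∈ eig ρ x := by
      rw [eig, Multiset.mem_toFinset]
      exact Multiset.mem_of_le (Polynomial.roots.le_of_dvd (Matrix.charpoly_monic _).ne_zero
        (Matrix.minpoly_dvd_charpoly A)) ha
    rw [Polynomial.mem_roots h0, Polynomial.IsRoot, eval_sub, eval_pow, eval_X, eval_one,
      hall a hc, sub_self]
  have h1 : aeval A (X ^ r ^ e - 1 : K[X]) = 0 := by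
    obtain ⟨q, hq⟩ := hdvd
    rw [hq, map_mul, minpoly.aeval, zero_mul]
  simp only [map_sub, map_pow, aeval_X, map_one, sub_eq_zero, hA] at h1
  rw [← map_pow, ← map_one (matK ρ)] at h1
  have h2 := orderOf_dvd_of_pow_eq_one (matK_injective hρ h1)
  rw [hx, Nat.pow_dvd_pow_iff_le_right hr.one_lt] at h2
  omega

theorem algebraMap_mem_eig {ρ : G →* (V ≃ₗ[ZMod p] V)} {g : G} {c : ZMod p} {v : V} (hv : v ≠ 0)
    (h : ρ g v = c • v) : algebraMap (ZMod p) K c ∈ eig ρ g := by
  have h1 : Module.End.HasEigenvalue (ρ g).toLinearMap c :=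
    Module.End.hasEigenvalue_of_hasEigenvector (x := v) ⟨Module.End.mem_eigenspace_iff.2 h, hv⟩
  rw [Module.End.hasEigenvalue_iff_isRoot_charpoly,
    ← LinearMap.charpoly_toMatrix _ (Module.finBasis (ZMod p) V)] at h1
  rw [eig, Multiset.mem_toFinset, Polynomial.mem_roots (Matrix.charpoly_monic _).ne_zero]
  show IsRoot (Matrix.charpoly ((LinearMap.toMatrix _ _ (ρ g).toLinearMap).map _)) _
  rw [Matrix.charpoly_map]
  exact h1.map

/-- Eigenvectors in two orbits closed under scalars give at most `n` pairs. -/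
theorem card_pairs_le {ρ : G →* (V ≃ₗ[ZMod p] V)} {t : ℕ} (ht : t ≤ 2) (u : Fin t → V)
    (hu0 : ∀ i, u i ≠ 0) (hdis : ∀ i j, i ≠ j → ¬ SameOrb ρ (u i) (u j))
    (hclosed : t = 2 → ∀ i, ∀ c : ZMod p, c ≠ 0 → SameOrb ρ (u i) (c • u i))
    (h : G) (P : Finset (ZMod p × Fin t))
    (hP : ∀ q ∈ P, ∃ w, SameOrb ρ (u q.2) w ∧ ρ h w = q.1 • w) :
    P.card ≤ finrank (ZMod p) V := by
  classical
  set f : Module.End (ZMod p) V := (ρ h).toLinearMap with hf
  have hi : iSupIndep f.eigenspace := Module.End.eigenspaces_iSupIndep f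
  have hsum : ∀ T : Finset (ZMod p),
      ∑ c ∈ T, finrank (ZMod p) (f.eigenspace c) =
        finrank (ZMod p) (T.sup f.eigenspace : Submodule (ZMod p) V) := by
    intro T
    induction T using Finset.induction with
    | empty => rw [Finset.sum_empty, Finset.sup_empty, finrank_bot]
    | insert a T ha ih =>
      rw [Finset.sum_insert ha, Finset.sup_insert, ih,
        ← Submodule.finrank_sup_add_finrank_inf_eq (f.eigenspace a) (T.sup f.eigenspace),
        ((hi a).mono_right (Finset.sup_le fun b hb =>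
          le_iSup₂ (f := fun c (_ : c ≠ a) => f.eigenspace c) b (fun e => ha (e ▸ hb)))).eq_bot,
        finrank_bot, add_zero]
  have hfib : ∀ c ∈ P.image Prod.fst,
      (P.filter fun q => q.1 = c).card ≤ finrank (ZMod p) (f.eigenspace c) := by
    intro c hc
    have hle2 : (P.filter fun q => q.1 = c).card ≤ 2 := by
      refine le_trans (Finset.card_le_card_of_injOn Prod.snd (fun q _ => Finset.mem_univ _)
        fun q hq q' hq' e => ?_) ((Finset.card_univ.trans (Fintype.card_fin t)).trans_le ht)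
      simp only [Finset.coe_filter, Set.mem_setOf_eq] at hq hq'
      exact Prod.ext (hq.2.trans hq'.2.symm) e
    have hmem : ∀ q ∈ P.filter fun q => q.1 = c, ∃ w, SameOrb ρ (u q.2) w ∧ w ≠ 0 ∧
        w ∈ f.eigenspace c := by
      intro q hq
      rw [Finset.mem_filter] at hq
      obtain ⟨w, hw, hw'⟩ := hP q hq.1
      refine ⟨w, hw, fun e => hu0 q.2 ?_, Module.End.mem_eigenspace_iff.2 (hq.2 ▸ hw')⟩
      obtain ⟨g, hg⟩ := hw
      rw [e] at hg
      exact (ρ g).map_eq_zero_iff.1 hg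
    by_cases h2 : (P.filter fun q => q.1 = c).card ≤ 1
    · refine h2.trans (Nat.one_le_iff_ne_zero.2 fun e => ?_)
      obtain ⟨q, hq, hqc⟩ := Finset.mem_image.1 hc
      obtain ⟨w, -, hw0, hwm⟩ := hmem q (Finset.mem_filter.2 ⟨hq, hqc⟩)
      rw [Submodule.finrank_eq_zero] at e
      exact hw0 (by rwa [e, Submodule.mem_bot] at hwm)
    obtain ⟨q, hq, q', hq', hqq⟩ := Finset.one_lt_card.1 (not_le.1 h2)
    obtain ⟨w, hw, hw0, hwm⟩ := hmem q hq
    obtain ⟨w', hw', hw0', hwm'⟩ := hmem q' hq'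
    simp only [Finset.mem_filter] at hq hq'
    have hne : q.2 ≠ q'.2 := fun e => hqq (Prod.ext (hq.2.trans hq'.2.symm) e)
    have ht2 : t = 2 := by
      have h3 : q.2.val ≠ q'.2.val := fun e => hne (Fin.ext e)
      have := q.2.isLt; have := q'.2.isLt; omega
    refine hle2.trans ?_
    by_contra hlt
    have hle1 : finrank (ZMod p) (f.eigenspace c) ≤ 1 := by omega
    obtain ⟨z, hz⟩ := finrank_le_one_iff.1 hle1
    obtain ⟨a, ha⟩ := hz ⟨w, hwm⟩
    obtain ⟨b, hb⟩ := hz ⟨w', hwm'⟩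
    have ha' : a • (z : V) = w := congrArg Subtype.val ha
    have hb' : b • (z : V) = w' := congrArg Subtype.val hb
    have ha0 : a ≠ 0 := fun e => hw0 (by rw [← ha', e, zero_smul])
    have hb0 : b ≠ 0 := fun e => hw0' (by rw [← hb', e, zero_smul])
    have hww : w' = (b * a⁻¹) • w := by
      rw [← ha', smul_smul, mul_assoc, inv_mul_cancel₀ ha0, mul_one, hb']
    obtain ⟨g, hg⟩ := hw
    obtain ⟨g', hg'⟩ := hclosed ht2 q.2 (b * a⁻¹) (mul_ne_zero hb0 (inv_ne_zero ha0))
    refine hdis q.2 q'.2 hne (SameOrb.trans ?_ hw'.symm)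
    refine ⟨g * g', ?_⟩
    rw [map_mul, LinearEquiv.mul_apply, hg', map_smul, hg, ← hww]
  calc P.card = ∑ c ∈ P.image Prod.fst, (P.filter fun q => q.1 = c).card :=
        Finset.card_eq_sum_card_fiberwise fun q hq => Finset.mem_image_of_mem _ hq
    _ ≤ ∑ c ∈ P.image Prod.fst, finrank (ZMod p) (f.eigenspace c) := Finset.sum_le_sum hfib
    _ = _ := hsum _
    _ ≤ _ := Submodule.finrank_le _

/-- The class count. -/
theorem count_classes {ρ : G →* (V ≃ₗ[ZMod p] V)} (hρ : Function.Injective ρ)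
    (hcop : ¬ p ∣ Nat.card G) {t : ℕ} (ht : t ≤ 2) (u : Fin t → V)
    (hu0 : ∀ i, u i ≠ 0) (hdis : ∀ i j, i ≠ j → ¬ SameOrb ρ (u i) (u j))
    (hclosed : t = 2 → ∀ i, ∀ c : ZMod p, c ≠ 0 → SameOrb ρ (u i) (c • u i))
    (L : Finset (ZMod p)) (hL : ∀ c ∈ L, c ≠ 0 ∧ c ≠ 1)
    (hscal : ∀ i, ∀ c ∈ L, SameOrb ρ (u i) (c • u i))
    (S : Finset G) (hS : ∀ x ∈ S, ∃ r e : ℕ, r.Prime ∧ orderOf x = r ^ e ∧ ¬ r ∣ p - 1)
    (hpair : ∀ x ∈ S, ∀ y ∈ S, x ≠ y → Nat.Coprime (orderOf x) (orderOf y)) :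
    t * L.card + ∑ x ∈ S, (orderOf x - 1) ≤
      finrank (ZMod p) V * (Nat.card (ConjClasses G) - 1) := by
  classical
  haveI := Fintype.ofFinite G
  haveI : Fintype (ConjClasses G) := Fintype.ofFinite _
  have hgi : ∀ q : ZMod p × Fin t, ∃ g : G, q.1 ∈ L → ρ g (u q.2) = q.1 • u q.2 := fun q => by
    by_cases hq : q.1 ∈ L
    · obtain ⟨g, hg⟩ := hscal q.2 q.1 hq
      exact ⟨g, fun _ => hg⟩
    · exact ⟨1, fun h => absurd h hq⟩
  choose gg hgg using hgi
  let D : Finset ((ZMod p × Fin t) ⊕ (Σ _ : G, ℕ)) :=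
    (L ×ˢ Finset.univ).disjSum (S.sigma fun x => Finset.Ioo 0 (orderOf x))
  have hD : D.card = t * L.card + ∑ x ∈ S, (orderOf x - 1) := by
    rw [Finset.card_disjSum, Finset.card_product, Finset.card_univ, Fintype.card_fin, mul_comm,
      Finset.card_sigma]
    simp [Nat.card_Ioo]
  let F : (ZMod p × Fin t) ⊕ (Σ _ : G, ℕ) → G := Sum.elim gg fun s => s.1 ^ s.2
  have hFne : ∀ d ∈ D, F d ≠ 1 := by
    rintro (q | ⟨x, j⟩) hd e
    · simp only [D, Finset.inl_mem_disjSum, Finset.mem_product] at hd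
      have h1 := hgg q hd.1
      change gg q = 1 at e
      rw [e, map_one] at h1
      have h2 : (q.1 - 1) • u q.2 = 0 := by rw [sub_smul, one_smul, ← h1]; simp
      rcases smul_eq_zero.1 h2 with h3 | h3
      · exact (hL q.1 hd.1).2 (sub_eq_zero.1 h3)
      · exact hu0 _ h3
    · simp only [D, Finset.inr_mem_disjSum, Finset.mem_sigma, Finset.mem_Ioo] at hd
      exact absurd (orderOf_dvd_of_pow_eq_one (show x ^ j = 1 from e)) (fun h => by
        obtain ⟨hd1, hd2, hd3⟩ := hd
        have := Nat.le_of_dvd hd2 h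
        change j < orderOf x at hd3
        omega)
  have hmaps : ∀ d ∈ D, ConjClasses.mk (F d) ∈
      (Finset.univ : Finset (ConjClasses G)).erase (ConjClasses.mk 1) := by
    intro d hd
    refine Finset.mem_erase.2 ⟨fun e => hFne d hd ?_, Finset.mem_univ _⟩
    obtain ⟨c, hc⟩ := isConj_iff.1 (ConjClasses.mk_eq_mk_iff_isConj.1 e.symm)
    rw [← hc]; group
  rw [← hD]
  refine (Finset.card_le_mul_card_image_of_maps_to hmaps (finrank (ZMod p) V) fun c _ => ?_).trans
    (Nat.mul_le_mul_left _ (le_of_eq ?_))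
  swap
  · rw [Finset.card_erase_of_mem (Finset.mem_univ _), Finset.card_univ, Nat.card_eq_fintype_card]
  obtain ⟨h, rfl⟩ := ConjClasses.exists_rep c
  set T := D.filter fun d => ConjClasses.mk (F d) = ConjClasses.mk h
  have hT : ∀ d ∈ T, d ∈ D ∧ ∃ a : G, a * F d * a⁻¹ = h := fun d hd => by
    rw [Finset.mem_filter] at hd
    exact ⟨hd.1, isConj_iff.1 (ConjClasses.mk_eq_mk_iff_isConj.1 hd.2)⟩
  by_cases hr : ∃ x j, Sum.inr ⟨x, j⟩ ∈ T
  · -- a class of elements of prime power order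
    obtain ⟨x, j, hxj⟩ := hr
    obtain ⟨hxD, a, hax⟩ := hT _ hxj
    simp only [D, Finset.inr_mem_disjSum, Finset.mem_sigma, Finset.mem_Ioo] at hxD
    obtain ⟨r, e, hr, hxo, hrp⟩ := hS x hxD.1
    have he : e ≠ 0 := fun h0 => by rw [h0, pow_zero] at hxo; omega
    obtain ⟨e, rfl⟩ := Nat.exists_eq_succ_of_ne_zero he
    obtain ⟨ω, hω, hωo⟩ := exists_eig_orderOf hρ hcop hr hxo
    have hho : h ^ orderOf x = 1 := by
      have h1 : (F (Sum.inr ⟨x, j⟩)) ^ orderOf x = 1 := by
        show (x ^ j) ^ orderOf x = 1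
        rw [← pow_mul, mul_comm, pow_mul, pow_orderOf_eq_one, one_pow]
      rw [← hax, conj_pow, h1, mul_one, mul_inv_cancel]
    have hh1 : h ≠ 1 := fun e1 => hFne _ (Finset.mem_filter.1 hxj).1 (by
      rw [e1] at hax
      calc F (Sum.inr ⟨x, j⟩) = a⁻¹ * (a * F (Sum.inr ⟨x, j⟩) * a⁻¹) * a := by group
        _ = 1 := by rw [hax]; group)
    -- all members come from the same element
    have hsame : ∀ d ∈ T, ∃ i, d = Sum.inr ⟨x, i⟩ := by
      rintro (q | ⟨y, i⟩) hd <;> obtain ⟨hdD, b, hbd⟩ := hT _ hd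
      · exfalso
        simp only [D, Finset.inl_mem_disjSum, Finset.mem_product] at hdD
        have h1 := hgg q hdD.1
        have hv : ρ b (u q.2) ≠ 0 := fun e0 => hu0 _ ((ρ b).map_eq_zero_iff.1 e0)
        have hev : ρ h (ρ b (u q.2)) = q.1 • ρ b (u q.2) := by
          have hm : h * b = b * gg q := by rw [← hbd]; show b * gg q * b⁻¹ * b = _; group
          rw [← LinearEquiv.mul_apply, ← map_mul, hm, map_mul, LinearEquiv.mul_apply, h1, map_smul]
        have h3 := pow_orderOf_eq_one_of_mem_eig (algebraMap_mem_eig hv hev) _ hho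
        rw [← map_pow, ← map_one (algebraMap (ZMod p) K)] at h3
        have hd1 := orderOf_dvd_of_pow_eq_one ((algebraMap (ZMod p) K).injective h3)
        have hd2 : orderOf q.1 ∣ p - 1 :=
          orderOf_dvd_of_pow_eq_one (ZMod.pow_card_sub_one_eq_one (hL q.1 hdD.1).1)
        rw [hxo] at hd1
        obtain ⟨i, -, hi⟩ := (Nat.dvd_prime_pow hr).1 hd1
        rcases Nat.eq_zero_or_pos i with hi0 | hi0
        · rw [hi0, pow_zero, orderOf_eq_one_iff] at hi
          exact (hL q.1 hdD.1).2 hi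
        · exact hrp ((dvd_pow_self r hi0.ne').trans (hi ▸ hd2))
      · simp only [D, Finset.inr_mem_disjSum, Finset.mem_sigma, Finset.mem_Ioo] at hdD
        by_cases hyx : y = x
        · subst hyx; exact ⟨i, rfl⟩
        exfalso
        have h1 : h ^ orderOf y = 1 := by
          have h2 : (F (Sum.inr ⟨y, i⟩)) ^ orderOf y = 1 := by
            show (y ^ i) ^ orderOf y = 1
            rw [← pow_mul, mul_comm, pow_mul, pow_orderOf_eq_one, one_pow]
          rw [← hbd, conj_pow, h2, mul_one, mul_inv_cancel]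
        exact hh1 (orderOf_eq_one_iff.1 (Nat.eq_one_of_dvd_coprimes (hpair y hdD.1 x hxD.1 hyx)
          (orderOf_dvd_of_pow_eq_one h1) (orderOf_dvd_of_pow_eq_one hho)))
    refine le_trans (Finset.card_le_card_of_injOn
      (Sum.elim (fun _ => 1) fun s => ω ^ s.2) (fun d hd => ?_) fun d hd d' hd' he' => ?_)
      (card_eig_le ρ h)
    · obtain ⟨i, rfl⟩ := hsame d hd
      obtain ⟨-, b, hb⟩ := hT _ hd
      show ω ^ i ∈ eig ρ h
      rw [← hb, eig_conj]
      exact pow_mem_eig hω i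
    · obtain ⟨i, rfl⟩ := hsame d hd
      obtain ⟨i', rfl⟩ := hsame d' hd'
      have hi := (hT _ hd).1
      have hi' := (hT _ hd').1
      simp only [D, Finset.inr_mem_disjSum, Finset.mem_sigma, Finset.mem_Ioo] at hi hi'
      have := pow_injOn_Iio_orderOf (x := ω) (show i < orderOf ω by rw [hωo, ← hxo]; exact hi.2.2)
        (show i' < orderOf ω by rw [hωo, ← hxo]; exact hi'.2.2) he'
      subst this; rfl
  · -- a class with eigenvectors
    push Not at hr
    let P : Finset (ZMod p × Fin t) := (L ×ˢ Finset.univ).filter fun q => Sum.inl q ∈ T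
    have hle : T.card ≤ P.card := by
      refine le_trans (Finset.card_le_card (t := P.image Sum.inl) fun d hd => ?_) Finset.card_image_le
      rcases d with q | ⟨x, j⟩
      · refine Finset.mem_image.2 ⟨q, Finset.mem_filter.2 ⟨?_, hd⟩, rfl⟩
        have := (hT _ hd).1
        simpa [D] using this
      · exact absurd hd (hr x j)
    refine hle.trans (card_pairs_le ht u hu0 hdis hclosed h P fun q hq => ?_)
    obtain ⟨hq1, hq2⟩ := Finset.mem_filter.1 hq
    obtain ⟨-, b, hb⟩ := hT _ hq2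
    refine ⟨ρ b (u q.2), ⟨b, rfl⟩, ?_⟩
    have hm : h * b = b * gg q := by rw [← hb]; show b * gg q * b⁻¹ * b = _; group
    rw [← LinearEquiv.mul_apply, ← map_mul, hm, map_mul, LinearEquiv.mul_apply,
      hgg q (Finset.mem_product.1 hq1).1, map_smul]

end Cfsg.Agent.H27.ThreeCl
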