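import Cfsg.Agent.H45.Transitive.Basic
import Cfsg.Agent.H45.Transitive.Arith

/-!
Coprime irreducible linear groups with at most two orbits on nonzero vectors: definitions.
-/

set_option autoImplicit false

namespace Cfsg.Agent.H27.ThreeCl

open Module Cfsg.Agent.H45.Trans

universe u v

variable {p : ℕ} [Fact p.Prime] {V : Type v} [AddCommGroup V] [Module (ZMod p) V]
  {G : Type u} [Group G]

/-- Same orbit. -/
def SameOrb (ρ : G →* (V ≃ₗ[ZMod p] V)) (v w : V) : Prop := ∃ g : G, ρ g v = w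

/-- A faithful irreducible group of order prime to `p` with at most two orbits on nonzero vectors. -/
structure Hyp2 (ρ : G →* (V ≃ₗ[ZMod p] V)) : Prop where
  inj : Function.Injective ρ
  cop : ¬ p ∣ Nat.card G
  irr : ∀ W : Submodule (ZMod p) V, (∀ g, ∀ w ∈ W, ρ g w ∈ W) → W = ⊥ ∨ W = ⊤
  two : ∃ v w : V, v ≠ 0 ∧ w ≠ 0 ∧ ∀ u : V, u ≠ 0 → SameOrb ρ v u ∨ SameOrb ρ w u

open Classical in
/-- The sum of `r ^ e - 1` over the primitive prime divisors `r` of `p ^ m - 1`, `r ^ e` exactly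
dividing it. -/
noncomputable def ppdSum (p m : ℕ) : ℕ :=
  ∑ r ∈ (p ^ m - 1).primeFactors.filter (Ppd p m), (r ^ (p ^ m - 1).factorization r - 1)

theorem SameOrb.refl (ρ : G →* (V ≃ₗ[ZMod p] V)) (v : V) : SameOrb ρ v v := ⟨1, by simp⟩

theorem SameOrb.symm {ρ : G →* (V ≃ₗ[ZMod p] V)} {v w : V} (h : SameOrb ρ v w) : SameOrb ρ w v := by
  obtain ⟨g, rfl⟩ := h
  exact ⟨g⁻¹, by rw [← LinearEquiv.mul_apply, ← map_mul, inv_mul_cancel, map_one]; rfl⟩

theorem SameOrb.trans {ρ : G →* (V ≃ₗ[ZMod p] V)} {u v w : V} (h : SameOrb ρ u v) (h' : SameOrb ρ v w) :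
    SameOrb ρ u w := by
  obtain ⟨g, rfl⟩ := h
  obtain ⟨g', rfl⟩ := h'
  exact ⟨g' * g, by rw [map_mul]; rfl⟩

theorem card_orbit_eq [Finite G] (ρ : G →* (V ≃ₗ[ZMod p] V)) (v : V) :
    Nat.card {u : V // SameOrb ρ v u} = (stab ρ v).index := by
  let : MulAction G V := MulAction.compHom V ρ
  have hs : MulAction.stabilizer G v = stab ρ v := by ext g; rfl
  rw [Subgroup.index_eq_card, ← hs, ← Nat.card_congr (MulAction.orbitEquivQuotientStabilizer G v)]
  exact Nat.card_congr (Equiv.subtypeEquivRight fun u => Iff.rfl)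

/-- The group has at least half as many elements as there are nonzero vectors. -/
theorem Hyp2.card_le [Finite G] [Finite V] {ρ : G →* (V ≃ₗ[ZMod p] V)} (H : Hyp2 ρ) :
    p ^ finrank (ZMod p) V - 1 ≤ 2 * Nat.card G := by
  obtain ⟨v, w, -, -, h⟩ := H.two
  have hcov : ({u : V | u ≠ 0} : Set V) ⊆ {u | SameOrb ρ v u} ∪ {u | SameOrb ρ w u} := fun u hu => h u hu
  have h1 := (Set.ncard_le_ncard hcov (Set.toFinite _)).trans (Set.ncard_union_le _ _)
  have h2 : ∀ x : V, ({u | SameOrb ρ x u} : Set V).ncard ≤ Nat.card G := fun x => by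
    rw [← Nat.card_coe_set_eq]
    exact (card_orbit_eq ρ x).trans_le (Nat.le_of_dvd Nat.card_pos (Subgroup.index_dvd_card _))
  have h3 : ({u : V | u ≠ 0} : Set V).ncard = p ^ finrank (ZMod p) V - 1 := by
    rw [show ({u : V | u ≠ 0} : Set V) = {0}ᶜ from rfl, Set.ncard_compl, Set.ncard_singleton,
      card_V (p := p) (V := V)]
  have := h2 v; have := h2 w
  omega

end Cfsg.Agent.H27.ThreeCl
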