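import Cfsg.Agent.H27.ThreeCl.Defs
import Cfsg.Agent.H67.PClasses
import Cfsg.Agent.H84.PSolvable
import Cfsg.Prelude.Def_Local
import Cfsg.Prelude.Def_Perm

/-!
Three classes of `p`-elements in a `p`-soluble group: reduction to coprime irreducible linear
groups with at most two orbits on nonzero vectors.
-/

set_option autoImplicit false

namespace Cfsg.Agent.H27.ThreeCl

open Module Cfsg.Agent.H67.PClasses Cfsg.Agent.H45.Trans Function

universe u

variable {p : ℕ} [hp : Fact p.Prime]

/-- The assertion for one group. -/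
def Claim (p : ℕ) (G : Type u) [Group G] : Prop :=
  p - 1 ≤ 2 * regN p G ∧ (2 * regN p G = p - 1 → 2 * Nat.card G = p * (p - 1) ∧
    ∃ f : G →* ↥(Cfsg.affineGroup (ZMod p)), Injective f)

/-- The linear statement needed. -/
def CoreHyp (p : ℕ) [Fact p.Prime] : Prop :=
  ∀ (V H : Type u) [AddCommGroup V] [Module (ZMod p) V] [Finite V] [Group H] [Finite H]
    (ρ : H →* (V ≃ₗ[ZMod p] V)), Hyp2 ρ → 2 ≤ finrank (ZMod p) V →
      p - 1 < 2 * Nat.card (ConjClasses H)

omit hp in
theorem claim_of_lt {G : Type u} [Group G] (h : p - 1 < 2 * regN p G) : Claim p G :=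
  ⟨h.le, fun he => absurd he h.ne'⟩

omit hp in
theorem card_conjClasses_eq_of_comm {H : Type u} [Group H] (hc : ∀ a b : H, a * b = b * a) :
    Nat.card (ConjClasses H) = Nat.card H := by
  refine (Nat.card_eq_of_bijective ConjClasses.mk ⟨fun a b h => ?_, ConjClasses.mk_surjective⟩).symm
  obtain ⟨c, hc'⟩ := isConj_iff.1 (ConjClasses.mk_eq_mk_iff_isConj.1 h)
  rw [← hc', hc c, mul_inv_cancel_right]

section complement

variable {G : Type u} [Group G] [Finite G] (N H : Subgroup G) [N.Normal]

omit hp in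
theorem card_conjClasses_le_regN (hH : Subgroup.IsComplement' N H) (hc : ¬ p ∣ Nat.card H) :
    Nat.card (ConjClasses H) ≤ regN p G := by
  let F : ConjClasses H → RegC p G := fun c => ⟨ConjClasses.map H.subtype c, by
    obtain ⟨h, rfl⟩ := ConjClasses.mk_surjective c
    exact ⟨h, rfl, fun hd => hc (hd.trans (Subgroup.orderOf_coe h ▸ orderOf_dvd_natCard h))⟩⟩
  refine Nat.card_le_card_of_injective F fun c c' heq => ?_
  obtain ⟨h, rfl⟩ := ConjClasses.mk_surjective c
  obtain ⟨h', rfl⟩ := ConjClasses.mk_surjective c'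
  have heq' : ConjClasses.mk (h : G) = ConjClasses.mk (h' : G) := congrArg Subtype.val heq
  obtain ⟨g, hg⟩ := isConj_iff.1 (ConjClasses.mk_eq_mk_iff_isConj.1 heq')
  obtain ⟨⟨⟨n, hn⟩, ⟨k, hk⟩⟩, rfl⟩ := hH.2 g
  simp only at hg
  rw [ConjClasses.mk_eq_mk_iff_isConj, isConj_iff]
  refine ⟨⟨k, hk⟩, Subtype.ext ?_⟩
  show k * (h : G) * k⁻¹ = h'
  have hx : (h' : G) * (k * (h : G) * k⁻¹)⁻¹ ∈ H :=
    mul_mem h'.2 (inv_mem (mul_mem (mul_mem hk h.2) (inv_mem hk)))
  have hy : (h' : G) * (k * (h : G) * k⁻¹)⁻¹ ∈ N := by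
    have : (h' : G) * (k * (h : G) * k⁻¹)⁻¹
        = n * ((k * (h : G) * k⁻¹) * n⁻¹ * (k * (h : G) * k⁻¹)⁻¹) := by
      rw [← hg]; group
    rw [this]
    exact mul_mem hn (Subgroup.Normal.conj_mem inferInstance _ (inv_mem hn) _)
  exact (mul_inv_eq_one.1 (Subgroup.disjoint_def.1 hH.disjoint hy hx)).symm

omit [Finite G] in
theorem centralizer_inf_normal (hH : Subgroup.IsComplement' N H) :
    (Subgroup.centralizer (N : Set G) ⊓ H).Normal := by
  constructor
  rintro c hc g
  obtain ⟨hc1, hc2⟩ := Subgroup.mem_inf.1 hc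
  obtain ⟨⟨⟨n, hn⟩, ⟨k, hk⟩⟩, rfl⟩ := hH.2 g
  simp only
  have h1 : k * c * k⁻¹ ∈ Subgroup.centralizer (N : Set G) :=
    Subgroup.Normal.conj_mem inferInstance c hc1 k
  have h2 : n * (k * c * k⁻¹) = k * c * k⁻¹ * n := Subgroup.mem_centralizer_iff.1 h1 n hn
  have : n * k * c * (n * k)⁻¹ = k * c * k⁻¹ := by
    calc n * k * c * (n * k)⁻¹ = n * (k * c * k⁻¹) * n⁻¹ := by group
      _ = k * c * k⁻¹ := by rw [h2]; group
  rw [this]
  exact Subgroup.mem_inf.2 ⟨h1, H.mul_mem (H.mul_mem hk hc2) (H.inv_mem hk)⟩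

/-- The case of a minimal normal `p`-subgroup of index prime to `p`. -/
theorem claim_of_complement (hcore : CoreHyp.{u} p) (hne : N ≠ ⊥)
    (hcomm : ∀ a ∈ N, ∀ b ∈ N, a * b = b * a) (hexp : ∀ a ∈ N, a ^ p = 1)
    (hmin : ∀ M : Subgroup G, M.Normal → M ≤ N → M = ⊥ ∨ M = N)
    (hA : ∀ M : Subgroup G, M.Normal → ¬ p ∣ Nat.card M → M = ⊥)
    (h3 : pN p G ≤ 3) (hH : Subgroup.IsComplement' N H) (hc : ¬ p ∣ Nat.card H) :
    Claim p G := by
  let : CommGroup N :=
    { (inferInstance : Group N) with mul_comm := fun a b => Subtype.ext (hcomm a a.2 b b.2) }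
  let : Module (ZMod p) (Additive N) := AddCommGroup.zmodModule (n := p) fun x =>
    Additive.toMul.injective (Subtype.ext (hexp _ (Additive.toMul x).2))
  let ρ : H →* (Additive N ≃ₗ[ZMod p] Additive N) :=
    { toFun := fun h => (MulEquiv.toAdditive (MulAut.conjNormal (h : G) : MulAut N)).toLinearEquiv
        (fun c x => ZMod.map_smul _ c x)
      map_one' := by
        apply LinearEquiv.ext
        intro x
        apply Additive.toMul.injective
        apply Subtype.ext
        simp
      map_mul' := fun h h' => by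
        apply LinearEquiv.ext
        intro x
        apply Additive.toMul.injective
        apply Subtype.ext
        simp [LinearEquiv.mul_apply, mul_assoc] }
  have hρ : ∀ (h : H) (x : Additive N),
      ((Additive.toMul (ρ h x) : N) : G) = h * (Additive.toMul x : N) * (h : G)⁻¹ :=
    fun h x => by simp [ρ]
  have hfix : Subgroup.centralizer (N : Set G) ⊓ H = ⊥ := by
    refine hA _ (centralizer_inf_normal N H hH) fun hd => hc (hd.trans ?_)
    exact Subgroup.card_dvd_of_le inf_le_right
  have hyp : Hyp2 ρ := by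
    refine ⟨?_, hc, ?_, ?_⟩
    · rw [injective_iff_map_eq_one]
      intro h h1
      have : (h : G) ∈ Subgroup.centralizer (N : Set G) ⊓ H := by
        refine ⟨Subgroup.mem_centralizer_iff.2 fun n hn => ?_, h.2⟩
        have e := hρ h (Additive.ofMul ⟨n, hn⟩)
        rw [h1] at e
        simp only [LinearEquiv.coe_one, id_eq, toMul_ofMul] at e
        conv_lhs => rw [e]
        group
      rw [hfix, Subgroup.mem_bot] at this
      exact Subtype.ext this
    · intro W hW
      let M : Subgroup G :=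
        { carrier := {g | ∃ hg : g ∈ N, Additive.ofMul (⟨g, hg⟩ : N) ∈ W}
          one_mem' := ⟨one_mem N, W.zero_mem⟩
          mul_mem' := by
            rintro a b ⟨ha, ha'⟩ ⟨hb, hb'⟩
            exact ⟨mul_mem ha hb, W.add_mem ha' hb'⟩
          inv_mem' := by
            rintro a ⟨ha, ha'⟩
            exact ⟨inv_mem ha, W.neg_mem ha'⟩ }
      have hMn : M.Normal := by
        constructor
        rintro m ⟨hm, hm'⟩ g
        obtain ⟨⟨⟨n, hn⟩, ⟨k, hk⟩⟩, rfl⟩ := hH.2 g
        simp only
        have hkm : k * m * k⁻¹ ∈ N := Subgroup.Normal.conj_mem inferInstance m hm k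
        have he : n * k * m * (n * k)⁻¹ = k * m * k⁻¹ := by
          calc n * k * m * (n * k)⁻¹ = n * (k * m * k⁻¹) * n⁻¹ := by group
            _ = k * m * k⁻¹ := by rw [hcomm n hn _ hkm]; group
        rw [he]
        refine ⟨hkm, ?_⟩
        convert hW ⟨k, hk⟩ _ hm' using 1
        apply Additive.toMul.injective
        apply Subtype.ext
        rw [hρ]
        rfl
      rcases hmin M hMn (fun g hg => hg.1) with h | h
      · left
        rw [eq_bot_iff]
        intro x hx
        have : ((Additive.toMul x : N) : G) ∈ M := ⟨(Additive.toMul x).2, hx⟩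
        rw [h, Subgroup.mem_bot] at this
        exact (Submodule.mem_bot _).2 (Additive.toMul.injective (Subtype.ext this))
      · right
        rw [eq_top_iff]
        intro x _
        have : ((Additive.toMul x : N) : G) ∈ M := by rw [h]; exact (Additive.toMul x).2
        exact this.2
    · obtain ⟨⟨n1, hn1⟩, hn1''⟩ := (Subgroup.ne_bot_iff_exists_ne_one).1 hne
      have hn1' : n1 ≠ 1 := fun h => hn1'' (Subtype.ext h)
      have horb : ∀ a b (ha : a ∈ N) (hb : b ∈ N), IsConj a b →
          SameOrb ρ (Additive.ofMul ⟨a, ha⟩) (Additive.ofMul ⟨b, hb⟩) := by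
        intro a b ha hb hab
        obtain ⟨g, hg⟩ := isConj_iff.1 hab
        obtain ⟨⟨⟨n, hn⟩, ⟨k, hk⟩⟩, rfl⟩ := hH.2 g
        simp only at hg
        refine ⟨⟨k, hk⟩, ?_⟩
        apply Additive.toMul.injective
        apply Subtype.ext
        rw [hρ]
        simp only [toMul_ofMul]
        have hka : k * a * k⁻¹ ∈ N := Subgroup.Normal.conj_mem inferInstance a ha k
        calc k * a * k⁻¹ = n * (k * a * k⁻¹) * n⁻¹ := by rw [hcomm n hn _ hka]; group
          _ = b := by rw [← hg]; group
      have hpel : ∀ a ∈ N, ∃ k, orderOf a = p ^ k := fun a ha => by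
        obtain ⟨k, -, hk⟩ := (Nat.dvd_prime_pow hp.out).1
          (show orderOf a ∣ p ^ 1 by rw [pow_one]; exact orderOf_dvd_of_pow_eq_one (hexp a ha))
        exact ⟨k, hk⟩
      have hne0 : ∀ a (ha : a ∈ N), a ≠ 1 → Additive.ofMul (⟨a, ha⟩ : N) ≠ 0 := fun a ha h1 h =>
        h1 (congrArg (fun x : Additive N => ((Additive.toMul x : N) : G)) h)
      have hout : ∀ u : Additive N, u ≠ 0 → ((Additive.toMul u : N) : G) ≠ 1 := fun u hu h =>
        hu (Additive.toMul.injective (Subtype.ext h))
      by_cases hall : ∀ a ∈ N, a ≠ 1 → IsConj n1 a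
      · exact ⟨_, _, hne0 n1 hn1 hn1', hne0 n1 hn1 hn1', fun u hu =>
          Or.inl (horb n1 _ hn1 (Additive.toMul u).2 (hall _ (Additive.toMul u).2 (hout u hu)))⟩
      · push Not at hall
        obtain ⟨n2, hn2, hn2', h12⟩ := hall
        refine ⟨_, _, hne0 n1 hn1 hn1', hne0 n2 hn2 hn2', fun u hu => ?_⟩
        have hu2 := (Additive.toMul u).2
        by_cases h1u : IsConj n1 ((Additive.toMul u : N) : G)
        · exact Or.inl (horb n1 _ hn1 hu2 h1u)
        right
        refine horb n2 _ hn2 hu2 ?_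
        by_contra h2u
        let f : Fin 4 → PC p G := fun i =>
          match i with
          | 0 => ⟨ConjClasses.mk 1, 1, rfl, 0, by simp⟩
          | 1 => ⟨ConjClasses.mk n1, n1, rfl, hpel n1 hn1⟩
          | 2 => ⟨ConjClasses.mk n2, n2, rfl, hpel n2 hn2⟩
          | 3 => ⟨ConjClasses.mk _, _, rfl, hpel _ hu2⟩
        have hf : Injective f := by
          intro i j hij
          have hij' := congrArg Subtype.val hij
          fin_cases i <;> fin_cases j <;>
            simp only [f, ConjClasses.mk_eq_mk_iff_isConj, isConj_one_left, isConj_one_right] at hij' ⊢ <;>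
            first
            | rfl
            | exact absurd hij' hn1'
            | exact absurd hij' hn2'
            | exact absurd hij' (hout u hu)
            | exact absurd hij'.symm hn1'
            | exact absurd hij'.symm hn2'
            | exact absurd hij'.symm (hout u hu)
            | exact absurd hij' h12
            | exact absurd hij'.symm h12
            | exact absurd hij' h1u
            | exact absurd hij'.symm h1u
            | exact absurd hij' h2u
            | exact absurd hij'.symm h2u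
        have h4 := Nat.card_le_card_of_injective f hf
        rw [Nat.card_eq_fintype_card, Fintype.card_fin] at h4
        unfold pN at h3
        omega
  have hk := card_conjClasses_le_regN N H hH hc
  rcases Nat.lt_or_ge (finrank (ZMod p) (Additive N)) 2 with hfr | hfr
  swap
  · exact claim_of_lt ((hcore (Additive N) H ρ hyp hfr).trans_le (by omega))
  obtain ⟨v, w, hv, -, -⟩ := hyp.two
  have hV := card_V (p := p) (V := Additive N)
  have hfr1 : finrank (ZMod p) (Additive N) = 1 := by
    have : Nontrivial (Additive N) := ⟨v, 0, hv⟩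
    have := Module.finrank_pos (R := ZMod p) (M := Additive N)
    omega
  rw [hfr1, pow_one] at hV
  have hNp : Nat.card N = p := (Nat.card_congr Additive.ofMul).trans hV
  have hsc := (finrank_eq_one_iff_of_nonzero' v hv).1 hfr1
  have hA0 : ∀ h : H, ∃ a : ZMod p, a • v = ρ h v := fun h => hsc _
  choose A hA' using hA0
  have hHc : ∀ a b : H, a * b = b * a := fun a b => hyp.inj (by
    apply LinearEquiv.ext
    intro x
    obtain ⟨c, rfl⟩ := hsc x
    rw [map_mul, map_mul, LinearEquiv.mul_apply, LinearEquiv.mul_apply, map_smul, map_smul,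
      map_smul, map_smul, ← hA' a, ← hA' b, map_smul, map_smul, ← hA' a, ← hA' b, smul_comm (A a)])
  have hle := hyp.card_le
  rw [hfr1, pow_one] at hle
  rw [card_conjClasses_eq_of_comm hHc] at hk
  refine ⟨by omega, fun he => ?_⟩
  have hHcard : 2 * Nat.card H = p - 1 := by omega
  refine ⟨?_, ?_⟩
  · rw [← hH.card_mul_card, hNp, mul_comm 2, mul_assoc, mul_comm (Nat.card H), hHcard]
  let e : ZMod p → G ⧸ H := fun c => (((Additive.toMul (c • v) : N) : G) : G ⧸ H)
  have he : Bijective e := by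
    rw [Nat.bijective_iff_injective_and_card]
    refine ⟨fun c d hcd => ?_, ?_⟩
    · have h1 := QuotientGroup.eq.1 hcd
      have h2 := Subgroup.disjoint_def.1 hH.disjoint
        (mul_mem (inv_mem (Additive.toMul (c • v)).2) (Additive.toMul (d • v)).2) h1
      exact smul_left_injective (ZMod p) hv
        (Additive.toMul.injective (Subtype.ext (inv_mul_eq_one.1 h2)))
    · rw [Nat.card_zmod, ← Subgroup.index_eq_card, hH.index_eq_card, hNp]
  let E := Equiv.ofBijective e he
  let f0 : G →* Equiv.Perm (ZMod p) :=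
    E.symm.permCongrHom.toMonoidHom.comp (MulAction.toPermHom G (G ⧸ H))
  have hf0 : ∀ g c, e (f0 g c) = g • e c := fun g c => E.apply_symm_apply _
  have hmem : ∀ g, f0 g ∈ Cfsg.affineGroup (ZMod p) := by
    intro g
    obtain ⟨⟨⟨n, hn⟩, k⟩, rfl⟩ := hH.2 g
    obtain ⟨b, hb⟩ := hsc (Additive.ofMul ⟨n, hn⟩)
    have hAk : A k ≠ 0 := fun h => hv ((ρ k).injective (by rw [← hA', h, zero_smul, map_zero]))
    refine ⟨Units.mk0 (A k) hAk, b, fun c => he.1 ?_⟩
    rw [hf0]
    show (((n * (k : G)) * ((Additive.toMul (c • v) : N) : G) : G) : G ⧸ H) = e _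
    have : A k * c + b = b + c * A k := by ring
    rw [Units.val_mk0, this]
    show _ = (((Additive.toMul ((b + c * A k) • v) : N) : G) : G ⧸ H)
    rw [QuotientGroup.eq, add_smul, mul_smul, hA', ← map_smul, hb, toMul_add, Subgroup.coe_mul, hρ,
      toMul_ofMul]
    have : (n * (k : G) * ((Additive.toMul (c • v) : N) : G))⁻¹ *
        (n * ((k : G) * ((Additive.toMul (c • v) : N) : G) * (k : G)⁻¹)) = (k : G)⁻¹ := by group
    rw [this]
    exact inv_mem k.2
  refine ⟨f0.codRestrict _ hmem, ?_⟩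
  rw [MonoidHom.injective_codRestrict]
  show Injective (E.symm.permCongrHom.toMonoidHom ∘ MulAction.toPermHom G (G ⧸ H))
  refine E.symm.permCongrHom.injective.comp ?_
  rw [← MonoidHom.ker_eq_bot_iff, ← Subgroup.normalCore_eq_ker]
  exact hA _ inferInstance fun hd => hc (hd.trans (Subgroup.card_dvd_of_le H.normalCore_le))

end complement

/-- The assertion for every `p`-soluble group of order divisible by `p` with at most three classes
of `p`-elements. -/
theorem claim (hcore : CoreHyp.{u} p) (n : ℕ) : ∀ (G : Type u) [Group G] [Finite G],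
    Nat.card G = n → Cfsg.IsPSolvable p G → p ∣ Nat.card G → pN p G ≤ 3 → Claim p G := by
  induction n using Nat.strong_induction_on with
  | _ n ih =>
  intro G _ _ hn hsolv hd h3
  have ihQ : ∀ M : Subgroup G, [M.Normal] → M ≠ ⊥ → p ∣ M.index → Claim p (G ⧸ M) := by
    intro M _ hM hdi
    refine ih _ ?_ (G ⧸ M) rfl
      (H84.isPSolvable_of_surjective _ (QuotientGroup.mk'_surjective M) hsolv)
      (by rwa [← Subgroup.index_eq_card]) ((pN_le _ (QuotientGroup.mk'_surjective M)).trans h3)
    rw [← hn, ← Subgroup.card_mul_index M, ← Subgroup.index_eq_card]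
    refine lt_mul_of_one_lt_left ?_ ((Subgroup.one_lt_card_iff_ne_bot M).2 hM)
    exact Nat.pos_of_ne_zero Subgroup.index_ne_zero_of_finite
  by_cases hA : ∀ M : Subgroup G, M.Normal → ¬ p ∣ Nat.card M → M = ⊥
  swap
  · push Not at hA
    obtain ⟨M, hMn, hMc, hM⟩ := hA
    have hdi : p ∣ M.index :=
      (hp.out.dvd_mul.1 ((Subgroup.card_mul_index M).symm ▸ hd)).resolve_left hMc
    obtain ⟨⟨m, hm⟩, hm1⟩ := (Subgroup.ne_bot_iff_exists_ne_one).1 hM
    have hlt := regN_lt (p := p) (QuotientGroup.mk' M) (QuotientGroup.mk'_surjective M)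
      (m := m) (fun h => hm1 (Subtype.ext h)) ((QuotientGroup.eq_one_iff m).2 hm)
      (fun h => hMc (h.trans ((Subgroup.orderOf_mk m hm) ▸ orderOf_dvd_natCard (⟨m, hm⟩ : M))))
    have := (ihQ M hM hdi).1
    exact claim_of_lt (by omega)
  have : Nontrivial G := Finite.one_lt_card_iff_nontrivial.1
    (lt_of_lt_of_le hp.out.one_lt (Nat.le_of_dvd Nat.card_pos hd))
  have hcore_ne : Cfsg.pCore p G ≠ ⊥ := by
    refine (H84.pCore_ne_bot_or_pPrimeCore_ne_bot hsolv).resolve_right fun h => h ?_
    exact hA _ (H19.pPrimeCore_normal p G)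
      (hp.out.coprime_iff_not_dvd.1 (H19.pPrimeCore_coprime p).symm)
  classical
  have hex : ∃ k, ∃ N : Subgroup G, N.Normal ∧ N ≠ ⊥ ∧ N ≤ Cfsg.pCore p G ∧ Nat.card N = k :=
    ⟨_, Cfsg.pCore p G, H19.pCore_normal p G, hcore_ne, le_rfl, rfl⟩
  obtain ⟨N, hNn, hNne, hNle, hNk⟩ := Nat.find_spec hex
  have hmin : ∀ M : Subgroup G, M.Normal → M ≤ N → M = ⊥ ∨ M = N := fun M hMn hle =>
    or_iff_not_imp_left.2 fun hM => Subgroup.eq_of_le_of_card_ge hle
      (hNk ▸ Nat.find_min' hex ⟨M, hMn, hM, hle.trans hNle, rfl⟩)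
  have hNp : IsPGroup p N := (H19.pCore_isPGroup p).to_le hNle
  have : Nontrivial N := (Subgroup.nontrivial_iff_ne_bot N).2 hNne
  have hcomm : ∀ a ∈ N, ∀ b ∈ N, a * b = b * a := by
    have hz := hNp.center_nontrivial
    rcases hmin ((Subgroup.center N).map N.subtype) inferInstance (Subgroup.map_subtype_le _) with
      h | h
    · rw [Subgroup.map_eq_bot_iff_of_injective _ N.subtype_injective] at h
      exact absurd h ((Subgroup.nontrivial_iff_ne_bot _).1 hz)
    · intro a ha b hb
      rw [← h] at ha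
      obtain ⟨z, hz', rfl⟩ := ha
      exact (congrArg Subtype.val (Subgroup.mem_center_iff.1 hz' ⟨b, hb⟩)).symm
  obtain ⟨d, hNcard⟩ := IsPGroup.iff_card.1 hNp
  have hpN : p ∣ Nat.card N := by
    have h1 := (Subgroup.one_lt_card_iff_ne_bot N).2 hNne
    rw [hNcard] at h1 ⊢
    exact dvd_pow_self p fun h0 => by simp [h0] at h1
  obtain ⟨⟨x, hxN⟩, hx⟩ := exists_prime_orderOf_dvd_card' p hpN
  rw [Subgroup.orderOf_mk] at hx
  have hx1 : x ≠ 1 := fun h => hp.out.one_lt.ne (by rw [← hx, h, orderOf_one])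
  have hexp : ∀ a ∈ N, a ^ p = 1 := by
    let O : Subgroup G :=
      { carrier := {a | a ∈ N ∧ a ^ p = 1}
        one_mem' := ⟨one_mem N, one_pow p⟩
        mul_mem' := by
          rintro a b ⟨ha, ha'⟩ ⟨hb, hb'⟩
          refine ⟨mul_mem ha hb, ?_⟩
          rw [Commute.mul_pow (hcomm a ha b hb), ha', hb', one_mul]
        inv_mem' := by
          rintro a ⟨ha, ha'⟩
          exact ⟨inv_mem ha, by rw [inv_pow, ha', inv_one]⟩ }
    have hOn : O.Normal := ⟨fun a ha g =>
      ⟨hNn.conj_mem a ha.1 g, by rw [conj_pow, ha.2, mul_one, mul_inv_cancel]⟩⟩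
    rcases hmin O hOn (fun a ha => ha.1) with h | h
    · have : x ∈ O := ⟨hxN, by rw [← hx, pow_orderOf_eq_one]⟩
      rw [h, Subgroup.mem_bot] at this
      exact absurd this hx1
    · intro a ha
      rw [← h] at ha
      exact ha.2
  by_cases hidx : p ∣ N.index
  · have hQ := ihQ N hNne hidx
    have hlt := pN_lt (p := p) (QuotientGroup.mk' N) (QuotientGroup.mk'_surjective N) hx1
      ((QuotientGroup.eq_one_iff x).2 hxN) (k := 1) (by rw [pow_one]; exact hx)
    have hle := regN_le (p := p) (QuotientGroup.mk' N) (QuotientGroup.mk'_surjective N)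
    refine claim_of_lt (lt_of_le_of_ne (hQ.1.trans (by omega)) fun he => ?_)
    have hQ1 := hQ.1
    obtain ⟨hcard, -⟩ := hQ.2 (by omega)
    have := three_le_pN hcard (by rwa [← Subgroup.index_eq_card])
    omega
  · obtain ⟨H, hH⟩ := Subgroup.exists_right_complement'_of_coprime (N := N)
      (hNcard ▸ (hp.out.coprime_iff_not_dvd.2 hidx).pow_left d)
    exact claim_of_complement N H hcore hNne hcomm hexp hmin hA h3 hH
      (hH.symm.index_eq_card ▸ hidx)

/-- Reduction of S4881 to the linear statement. -/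
theorem result_of_core {G : Type u} [Group G] [Finite G] (p : ℕ) [Fact p.Prime]
    (hcore : ∀ (V H : Type u) [AddCommGroup V] [Module (ZMod p) V] [Finite V] [Group H] [Finite H]
      (ρ : H →* (V ≃ₗ[ZMod p] V)), Hyp2 ρ → 2 ≤ Module.finrank (ZMod p) V →
        p - 1 < 2 * Nat.card (ConjClasses H))
    (hsolv : Cfsg.IsPSolvable p G)
    (h3 : Nat.card {c : ConjClasses G // ∃ g : G, ConjClasses.mk g = c ∧
      ∃ k : ℕ, orderOf g = p ^ k} = 3) :
    p - 1 ≤ 2 * Nat.card {c : ConjClasses G // ∃ g : G, ConjClasses.mk g = c ∧ ¬ p ∣ orderOf g} ∧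
    (2 * Nat.card {c : ConjClasses G // ∃ g : G, ConjClasses.mk g = c ∧ ¬ p ∣ orderOf g} = p - 1 ↔
      (p ≠ 2 ∧ 2 * Nat.card G = p * (p - 1) ∧
        ∃ f : G →* ↥(Cfsg.affineGroup (ZMod p)), Function.Injective f)) := by
  have h3' : pN p G = 3 := h3
  have hd : p ∣ Nat.card G := dvd_card_of_two_le (by omega)
  obtain ⟨hle, heq⟩ := claim (p := p) hcore (Nat.card G) G rfl hsolv hd h3'.le
  refine ⟨hle, fun he => ⟨?_, heq he⟩, ?_⟩
  · rintro rfl
    change 2 * regN 2 G = 1 at he
    omega
  · rintro ⟨-, hcard, f, hf⟩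
    exact two_mul_regN_of_affine hcard hd f hf

end Cfsg.Agent.H27.ThreeCl
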